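import Mathlib
import Cfsg.Agent.Lib.Helper23.RegInner

set_option autoImplicit false

namespace Cfsg.Agent.Lib.Helper23.BrauerFeit

open Cfsg Cfsg.Agent.Lib.Helper2 Cfsg.Agent.Lib.Helper6 Cfsg.Agent.Lib.Lead
open Cfsg.Agent.Lib.Helper23.RegInner
open scoped ComplexConjugate

attribute [local instance] irrFintype

variable {G : Type*} [Group G] [Fintype G] (p : ℕ) [hp : Fact p.Prime]

theorem nn_symm (χ ψ : IrrCharacter G) : nn p χ ψ = nn p ψ χ := by
  have h1 : classInner (tilde p (χ : G → ℂ)) ψ = conj (classInner (tilde p (ψ : G → ℂ)) χ) := by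
    unfold classInner
    rw [map_mul, map_sum, map_inv₀, map_natCast]
    congr 1
    apply Finset.sum_congr rfl
    intro x _
    unfold tilde
    split_ifs
    · simp
    · rw [map_mul, map_mul, map_natCast, Complex.conj_conj]; ring
  rw [nn_spec, nn_spec, map_intCast] at h1
  exact_mod_cast h1

variable {M : Ideal AlgInt}

/-- the least `p`-exponent of a degree in the block -/
noncomputable def smin (B : Set (IrrCharacter G)) : ℕ :=
  sInf ((fun ψ : IrrCharacter G => (charDegree (ψ : G → ℂ)).factorization p) '' B)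

theorem smin_le {B : Set (IrrCharacter G)} {χ : IrrCharacter G} (hχ : χ ∈ B) :
    smin p B ≤ (charDegree (χ : G → ℂ)).factorization p := Nat.sInf_le ⟨χ, hχ, rfl⟩

theorem factorization_le (χ : IrrCharacter G) :
    (charDegree (χ : G → ℂ)).factorization p ≤ (Nat.card G).factorization p :=
  (Nat.factorization_le_iff_dvd (Cfsg.Agent.Lib.Helper24.charDegree_pos χ.2).ne'
      Nat.card_pos.ne').2 (Cfsg.Agent.Lib.Helper24.degree_dvd_card χ.2) p

theorem height_eq (B : Set (IrrCharacter G)) (χ : IrrCharacter G) :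
    blockHeight p B (χ : G → ℂ) = (charDegree (χ : G → ℂ)).factorization p - smin p B := rfl

theorem defect_eq (B : Set (IrrCharacter G)) :
    blockDefect p B = (Nat.card G).factorization p - smin p B := rfl

theorem exists_height_zero {B : Set (IrrCharacter G)} (hne : B.Nonempty) :
    ∃ χ ∈ B, blockHeight p B (χ : G → ℂ) = 0 := by
  obtain ⟨ξ₀, hξ₀⟩ := hne
  have hne : ((fun ψ : IrrCharacter G =>
      (charDegree (ψ : G → ℂ)).factorization p) '' B).Nonempty := ⟨_, ξ₀, hξ₀, rfl⟩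
  obtain ⟨χ, hχ, he⟩ := Nat.sInf_mem hne
  refine ⟨χ, hχ, ?_⟩
  rw [height_eq]
  unfold smin
  rw [← he]
  exact Nat.sub_self _

/-- normalised contributions `l ψ = [χ̃,ψ] / p^{ν(χ(1))}` -/
noncomputable def ll (χ ψ : IrrCharacter G) : ℤ := (pow_dvd_nn p χ ψ).choose

theorem ll_spec (χ ψ : IrrCharacter G) :
    nn p χ ψ = ((p ^ (charDegree (χ : G → ℂ)).factorization p : ℕ) : ℤ) * ll p χ ψ :=
  (pow_dvd_nn p χ ψ).choose_spec

theorem pow_pos' (k : ℕ) : (0 : ℤ) < ((p ^ k : ℕ) : ℤ) := by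
  have : 0 < p ^ k := pow_pos hp.out.pos k
  exact_mod_cast this

theorem sum_ll_sq {B : Set (IrrCharacter G)} {χ : IrrCharacter G} (hχ : χ ∈ B) :
    (∑ ψ : IrrCharacter G, (ll p χ ψ) ^ 2 : ℤ)
      = ((p ^ (blockDefect p B - blockHeight p B (χ : G → ℂ)) : ℕ) : ℤ) * ll p χ χ := by
  set e := (charDegree (χ : G → ℂ)).factorization p with he
  have hps : (((p ^ e : ℕ) : ℤ)) ^ 2 ≠ 0 := by
    have := pow_pos' p e
    positivity
  apply mul_left_cancel₀ hps
  rw [Finset.mul_sum]
  have h3 : ∀ ψ : IrrCharacter G, (((p ^ e : ℕ) : ℤ)) ^ 2 * (ll p χ ψ) ^ 2 = (nn p χ ψ) ^ 2 := by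
    intro ψ; rw [ll_spec p χ ψ]; ring
  simp only [h3]
  rw [sum_nn_sq, ll_spec p χ χ]
  have h5 : blockDefect p B - blockHeight p B (χ : G → ℂ) = (Nat.card G).factorization p - e := by
    rw [height_eq, defect_eq]
    have := smin_le p hχ
    have := factorization_le p χ
    omega
  have h4 : ((p ^ (Nat.card G).factorization p : ℕ) : ℤ)
      = ((p ^ e : ℕ) : ℤ) * ((p ^ ((Nat.card G).factorization p - e) : ℕ) : ℤ) := by
    rw [← Nat.cast_mul, ← pow_add, Nat.add_sub_cancel' (factorization_le p χ)]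
  rw [h5, h4]; ring

theorem ll_self_pos (χ : IrrCharacter G) : 0 < ll p χ χ := by
  have h1 := nn_self_pos p χ
  rw [ll_spec] at h1
  exact (mul_pos_iff_of_pos_left (pow_pos' p _)).1 h1

theorem ll_ne_zero_of_height_zero_left (hM : IsPModular p M) {B : Set (IrrCharacter G)}
    (hB : IsPBlock M B) {χ : IrrCharacter G} (hχ : χ ∈ B)
    (h0 : blockHeight p B (χ : G → ℂ) = 0) {ξ : IrrCharacter G} (hξ : ξ ∈ B) :
    ll p χ ξ ≠ 0 ∧ ((p ^ blockHeight p B (ξ : G → ℂ) : ℕ) : ℤ) ∣ ll p χ ξ := by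
  obtain ⟨h1, h2⟩ := (not_dvd_al_iff p χ ξ).1 (not_dvd_al_of_height_zero p hM hB hχ h0 hξ)
  constructor
  · intro h
    apply h1
    rw [ll_spec, h, mul_zero]
  · have h3 : ((p : ℤ) ^ (charDegree (ξ : G → ℂ)).factorization p) ∣ nn p χ ξ := by
      rw [padicValInt_dvd_iff]
      right
      exact h2.ge
    have h4 : (charDegree (ξ : G → ℂ)).factorization p
        = (charDegree (χ : G → ℂ)).factorization p + blockHeight p B (ξ : G → ℂ) := by
      rw [height_eq] at h0 ⊢
      have := smin_le p hχ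
      have := smin_le p hξ
      omega
    rw [h4, pow_add, ll_spec] at h3
    push_cast at h3 ⊢
    exact (mul_dvd_mul_iff_left (pow_ne_zero _ (by exact_mod_cast hp.out.ne_zero))).1 h3

theorem ll_ne_zero_of_height_zero_right (hM : IsPModular p M) {B : Set (IrrCharacter G)}
    (hB : IsPBlock M B) {χ : IrrCharacter G} (hχ : χ ∈ B)
    {ξ : IrrCharacter G} (hξ : ξ ∈ B) (h0 : blockHeight p B (ξ : G → ℂ) = 0) :
    ll p χ ξ ≠ 0 := by
  obtain ⟨h1, -⟩ := (not_dvd_al_iff p ξ χ).1 (not_dvd_al_of_height_zero p hM hB hξ h0 hχ)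
  intro h
  apply h1
  rw [nn_symm, ll_spec, h, mul_zero]

theorem dvd_ll_self_of_height_pos (hM : IsPModular p M) {B : Set (IrrCharacter G)}
    (hB : IsPBlock M B) {χ : IrrCharacter G} (hχ : χ ∈ B)
    (h0 : 0 < blockHeight p B (χ : G → ℂ)) : (p : ℤ) ∣ ll p χ χ := by
  have h2 : (p : ℤ) ∣ al p χ χ := by
    by_contra hc
    have := height_zero_of_not_dvd_al p hM hB hχ hc
    omega
  set ν := (charDegree (χ : G → ℂ)).factorization p with hν
  have h3 : ((p ^ (ν + 1) : ℕ) : ℤ) ∣ nn p χ χ := by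
    apply pow_dvd_of_dvd_compl_mul (G := G) p
    rw [← al_mul]
    have h4 : ((p ^ ν : ℕ) : ℤ) ∣ ((charDegree (χ : G → ℂ) : ℕ) : ℤ) := by
      exact_mod_cast Nat.ordProj_dvd _ _
    have h5 := mul_dvd_mul h4 h2
    rw [pow_succ]
    push_cast at h5 ⊢
    exact h5
  rw [ll_spec, pow_succ] at h3
  push_cast at h3
  exact (mul_dvd_mul_iff_left (pow_ne_zero _ (by exact_mod_cast hp.out.ne_zero))).1 h3

theorem ll_self_lt {B : Set (IrrCharacter G)} {χ : IrrCharacter G} (hχ : χ ∈ B)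
    (h : blockHeight p B (χ : G → ℂ) < blockDefect p B) :
    ll p χ χ < ((p ^ (blockDefect p B - blockHeight p B (χ : G → ℂ)) : ℕ) : ℤ) := by
  set e := (charDegree (χ : G → ℂ)).factorization p with he
  have h5 : blockDefect p B - blockHeight p B (χ : G → ℂ) = (Nat.card G).factorization p - e := by
    rw [height_eq, defect_eq]
    have := smin_le p hχ
    have := factorization_le p χ
    omega
  have h4 : ((p ^ (Nat.card G).factorization p : ℕ) : ℤ)
      = ((p ^ e : ℕ) : ℤ) * ((p ^ ((Nat.card G).factorization p - e) : ℕ) : ℤ) := by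
    rw [← Nat.cast_mul, ← pow_add, Nat.add_sub_cancel' (factorization_le p χ)]
  have h6 := nn_self_le p χ
  rw [h5]
  rcases lt_or_eq_of_le h6 with h7 | h7
  · rw [ll_spec, h4] at h7
    exact lt_of_mul_lt_mul_left h7 (pow_pos' p e).le
  · exfalso
    have h8 := pow_dvd_degree_of_nn_self p χ h7
    have h9 : (Nat.card G).factorization p ≤ e :=
      (Nat.Prime.pow_dvd_iff_le_factorization hp.out
        (Cfsg.Agent.Lib.Helper24.charDegree_pos χ.2).ne').1 h8
    rw [height_eq, defect_eq] at h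
    omega

end Cfsg.Agent.Lib.Helper23.BrauerFeit
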