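import Mathlib
import Cfsg.Prelude.Def_Blocks
import Cfsg.Prelude.Def_BlockRank
import Cfsg.Agent.Lib.Helper6.Subsection2

/-!
# The contribution matrix of a subsection
-/

set_option autoImplicit false
set_option linter.unusedSectionVars false

namespace Cfsg.Agent.Lib.Helper23.Contrib

open Cfsg Cfsg.Agent.Lib.Helper2 Cfsg.Agent.Lib.Helper6
open scoped ComplexConjugate Classical

attribute [local instance] irrFintype

variable {G : Type*} [Group G] [Fintype G] {H : Subgroup G} [Fintype H] {p : ℕ}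
  {M : Ideal AlgInt}

/-- coefficient of `ξ` in the `b`-part of `c ↦ χ (x c)` -/
noncomputable def cf (b : Set (IrrCharacter H)) (x : H) (χ : G → ℂ) (ξ : IrrCharacter H) : ℂ :=
  b.indicator 1 ξ * classInner (tw x χ) (ξ : H → ℂ)

/-- the `b`-part of `c ↦ χ (x c)` cut down to the `p`-regular elements -/
noncomputable def fpart (p : ℕ) (b : Set (IrrCharacter H)) (x : H) (χ : G → ℂ) : H → ℂ :=
  regPart p (bPart b (tw x χ))

/-- the contribution -/
noncomputable def mc (p : ℕ) (b : Set (IrrCharacter H)) (x : H) (χ ψ : G → ℂ) : ℂ :=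
  classInner (fpart p b x χ) (fpart p b x ψ)

/-- inner product on `p`-regular elements -/
noncomputable def gg (p : ℕ) (ξ ξ' : IrrCharacter H) : ℂ :=
  classInner (regPart p (ξ : H → ℂ)) (ξ' : H → ℂ)

theorem fpart_eq_sum (b : Set (IrrCharacter H)) (x : H) (χ : G → ℂ) :
    fpart p b x χ = ∑ ξ : IrrCharacter H, cf b x χ ξ • regPart p (ξ : H → ℂ) := by
  rw [fpart, bPart, regPart_sum]
  refine Finset.sum_congr rfl fun ξ _ => ?_
  rw [regPart_smul, cf]

theorem classInner_regPart_regPart (f f' : H → ℂ) :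
    classInner (regPart p f) (regPart p f') = classInner (regPart p f) f' := by
  rw [classInner, classInner]
  congr 1
  refine Finset.sum_congr rfl fun s _ => ?_
  simp only [regPart_apply]
  split_ifs <;> simp

theorem mc_eq_sum (b : Set (IrrCharacter H)) (x : H) (χ ψ : G → ℂ) :
    mc p b x χ ψ = ∑ ξ : IrrCharacter H, ∑ ξ' : IrrCharacter H,
      cf b x χ ξ * conj (cf b x ψ ξ') * gg p ξ ξ' := by
  rw [mc, fpart_eq_sum, fpart_eq_sum, classInner_sum_left]
  refine Finset.sum_congr rfl fun ξ _ => ?_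
  rw [classInner_smul_left, classInner_sum_right, Finset.mul_sum]
  refine Finset.sum_congr rfl fun ξ' _ => ?_
  rw [classInner_smul_right, classInner_regPart_regPart, gg]
  ring

theorem isClassFunction_fpart {x : H} (hx : IsCenOf p x) (b : Set (IrrCharacter H)) (χ : G → ℂ) :
    IsClassFunction H (fpart p b x χ) := by
  apply isClassFunction_regPart
  intro c h
  simp only [bPart, Finset.sum_apply, Pi.smul_apply, smul_eq_mul]
  refine Finset.sum_congr rfl fun ξ _ => ?_
  rw [irr_isClassFunction ξ.2 c h]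

theorem fpart_of_dvd (b : Set (IrrCharacter H)) (x : H) (χ : G → ℂ) (c : H)
    (hc : p ∣ orderOf c) : fpart p b x χ c = 0 := regPart_of_dvd _ hc

theorem classInner_fpart_tw (hM : IsPModular p M) {x : H} (hx : IsCenOf p x)
    {b : Set (IrrCharacter H)} (hb : IsPBlock M b) (χ : G → ℂ) {ψ : G → ℂ}
    (hψ : IsClassFunction G ψ) :
    classInner (fpart p b x χ) (tw x ψ) = mc p b x χ ψ := by
  rw [mc_eq_sum, fpart_eq_sum, classInner_sum_left]
  refine Finset.sum_congr rfl fun ξ _ => ?_
  rw [classInner_smul_left]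
  conv_lhs => rw [classFunction_eq_sum (isClassFunction_tw hx hψ)]
  rw [classInner_sum_right, Finset.mul_sum]
  refine Finset.sum_congr rfl fun ξ' _ => ?_
  rw [classInner_smul_right]
  by_cases hξ : ξ ∈ b
  · by_cases hξ' : ξ' ∈ b
    · rw [cf, cf, Set.indicator_of_mem hξ, Set.indicator_of_mem hξ', gg]
      simp only [Pi.one_apply, one_mul]
      ring
    · rw [gg, classInner_regPart_eq_zero hM hb hξ hξ']
      ring
  · rw [cf, Set.indicator_of_notMem hξ]
    ring

theorem fpart_eq_zero (hM : IsPModular p M) {x : H} (hx : IsCenOf p x)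
    {b : Set (IrrCharacter H)} {B : Set (IrrCharacter G)} (hind : IsInducedBlock M H b B)
    {χ : IrrCharacter G} (hχ : χ ∉ B) : fpart p b x (χ : G → ℂ) = 0 := by
  ext s
  by_cases hs : p ∣ orderOf s
  · rw [fpart_of_dvd _ _ _ _ hs]; rfl
  · rw [fpart, regPart_of_not_dvd _ hs, bPart_tw_eq_zero hM hx hind hχ hs]; rfl

theorem sum_mc_sq_row (hM : IsPModular p M) {x : H} (hx : IsCenOf p x)
    {b : Set (IrrCharacter H)} {B : Set (IrrCharacter G)} (hind : IsInducedBlock M H b B)
    (χ : G → ℂ) :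
    ∑ ψ : IrrCharacter G, B.indicator 1 ψ *
      (mc p b x χ (ψ : G → ℂ) * conj (mc p b x χ (ψ : G → ℂ))) = mc p b x χ χ := by
  have h1 := sum_classInner_tw hM.1 hx (f := fpart p b x χ) (f' := fpart p b x χ)
    (fpart_of_dvd b x χ) (isClassFunction_fpart hx b χ) (fpart_of_dvd b x χ)
  rw [mc, ← h1]
  refine Finset.sum_congr rfl fun ψ _ => ?_
  rw [classInner_fpart_tw hM hx hind.1 χ (irr_isClassFunction ψ.2)]
  by_cases hψ : ψ ∈ B
  · rw [Set.indicator_of_mem hψ, Pi.one_apply, one_mul]
  · rw [Set.indicator_of_notMem hψ, zero_mul, mc, fpart_eq_zero hM hx hind hψ,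
      classInner_zero_right, zero_mul]

theorem sum_mc_diag [Fact p.Prime] (hM : IsPModular p M) {x : H} (hx : IsCenOf p x)
    {b : Set (IrrCharacter H)} {B : Set (IrrCharacter G)} (hind : IsInducedBlock M H b B) :
    ∑ χ : IrrCharacter G, B.indicator 1 χ * mc p b x (χ : G → ℂ) (χ : G → ℂ) =
      (blockRank p b : ℂ) := by
  have key := sum_subsection hM.1 hx (weakOrth_block hM hind.1) (B := B)
    (fun χ hχ s hs => bPart_tw_eq_zero hM hx hind hχ hs)
  rw [← blockRank_eq_sum' hM hind.1] at key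
  have hH : (Nat.card H : ℂ) ≠ 0 := card_subgroup_ne_zero H
  apply mul_left_cancel₀ hH
  rw [← key, Finset.mul_sum]
  refine Finset.sum_congr rfl fun χ _ => ?_
  rw [mul_left_comm]
  congr 1
  rw [mc, classInner, mul_inv_cancel_left₀ hH]
  refine Finset.sum_congr rfl fun s _ => ?_
  simp only [fpart, regPart_apply]
  split_ifs <;> simp

/-- the squares of the contributions of a subsection add up to `l(b)` -/
theorem sum_mc_sq [Fact p.Prime] (hM : IsPModular p M) {x : H} (hx : IsCenOf p x)
    {b : Set (IrrCharacter H)} {B : Set (IrrCharacter G)} (hind : IsInducedBlock M H b B) :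
    ∑ χ : IrrCharacter G, ∑ ψ : IrrCharacter G, B.indicator 1 χ * (B.indicator 1 ψ *
      (mc p b x (χ : G → ℂ) (ψ : G → ℂ) * conj (mc p b x (χ : G → ℂ) (ψ : G → ℂ)))) =
      (blockRank p b : ℂ) := by
  rw [← sum_mc_diag hM hx hind]
  refine Finset.sum_congr rfl fun χ _ => ?_
  rw [← Finset.mul_sum, sum_mc_sq_row hM hx hind]

end Cfsg.Agent.Lib.Helper23.Contrib
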