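import Mathlib
import Cfsg.Agent.Lib.Helper23.Contrib1
import Cfsg.Agent.Lib.Helper23.BrauerFeit
import Cfsg.Agent.Lib.Helper6.Height
import Cfsg.Agent.Lib.Helper6.IndBase

/-!
# Contributions of height zero characters are local units (up to `p ^ defect`)
-/

set_option autoImplicit false
set_option linter.unusedSectionVars false

namespace Cfsg.Agent.Lib.Helper23.Contrib

open Cfsg Cfsg.Agent.Lib.Helper2 Cfsg.Agent.Lib.Helper6
open Cfsg.Agent.Lib.Helper23.BrauerFeit Cfsg.Agent.Lib.Helper24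
open scoped ComplexConjugate Classical

attribute [local instance] irrFintype

variable {G : Type*} [Group G] [Fintype G] {H : Subgroup G} [Fintype H] {p : ℕ}
  {M : Ideal AlgInt}

theorem exists_mu (χ : IrrCharacter G) (ξ : IrrCharacter H) : ∃ n : ℕ,
    classInner (fun h : H => (χ : G → ℂ) h) (ξ : H → ℂ) = n :=
  IsCharacter.classInner_nat (IsCharacter.restrict _ (IsIrrCharacter.isCharacter χ.2))
    (IsIrrCharacter.isCharacter ξ.2)

/-- multiplicity of `ξ` in the restriction of `χ` -/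
noncomputable def mu (χ : IrrCharacter G) (ξ : IrrCharacter H) : ℕ := (exists_mu χ ξ).choose

theorem mu_spec (χ : IrrCharacter G) (ξ : IrrCharacter H) :
    classInner (fun h : H => (χ : G → ℂ) h) (ξ : H → ℂ) = mu χ ξ := (exists_mu χ ξ).choose_spec

theorem mem_center {x : H} (hx : IsCenOf p x) : x ∈ Subgroup.center H := by
  rw [Subgroup.mem_center_iff]
  intro c
  exact hx.comm c

theorem classInner_tw {x : H} (hx : IsCenOf p x) (χ : IrrCharacter G) (ξ : IrrCharacter H) :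
    classInner (tw x (χ : G → ℂ)) (ξ : H → ℂ) = mu χ ξ * centralChar (ξ : H → ℂ) x := by
  have h0 : tw x (χ : G → ℂ) = ∑ ξ : IrrCharacter H,
      ((mu χ ξ : ℂ) * centralChar (ξ : H → ℂ) x) • (ξ : H → ℂ) := by
    ext c
    set θ : H → ℂ := fun c => (χ : G → ℂ) c with hθ
    have hθcl : IsClassFunction H θ := isClassFunction_res H (irr_isClassFunction χ.2)
    have h1 : tw x (χ : G → ℂ) c = θ (x * c) := rfl
    rw [h1]
    conv_lhs => rw [classFunction_eq_sum hθcl]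
    simp only [Finset.sum_apply, Pi.smul_apply, smul_eq_mul]
    refine Finset.sum_congr rfl fun ξ _ => ?_
    rw [irr_central_mul ξ.2 (mem_center hx), hθ, mu_spec]
    ring
  rw [h0, classInner_sum_irr_left]

theorem cf_eq {x : H} (hx : IsCenOf p x) (b : Set (IrrCharacter H)) (χ : IrrCharacter G)
    (ξ : IrrCharacter H) :
    cf b x (χ : G → ℂ) ξ = b.indicator 1 ξ * (mu χ ξ * centralChar (ξ : H → ℂ) x) := by
  rw [cf, classInner_tw hx]

/-- `p^q ξ(1) / |H|` -/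
noncomputable def tt (p : ℕ) (b : Set (IrrCharacter H)) (ξ : IrrCharacter H) : ℂ :=
  (p : ℂ) ^ blockDefect p b * (ξ : H → ℂ) 1 / (Nat.card H : ℂ)

theorem tt_eq (b : Set (IrrCharacter H)) (ξ : IrrCharacter H) :
    tt p b ξ = ((p ^ blockDefect p b * charDegree (ξ : H → ℂ) : ℕ) : ℂ) / (Nat.card H : ℂ) := by
  rw [tt, Nat.cast_mul, Nat.cast_pow, charDegree_cast (IsIrrCharacter.isCharacter ξ.2)]

theorem fact_mul [Fact p.Prime] (b : Set (IrrCharacter H)) (ξ : IrrCharacter H) :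
    (p ^ blockDefect p b * charDegree (ξ : H → ℂ)).factorization p =
      blockDefect p b + (charDegree (ξ : H → ℂ)).factorization p := by
  have hp : p.Prime := Fact.out
  rw [Nat.factorization_mul (pow_ne_zero _ hp.ne_zero) (charDegree_pos ξ.2).ne',
    Finsupp.add_apply, Nat.Prime.factorization_pow hp, Finsupp.single_eq_same]

theorem tt_memLocalRing [Fact p.Prime] (hM : IsPModular p M) {b : Set (IrrCharacter H)}
    {ξ : IrrCharacter H} (hξ : ξ ∈ b) : MemLocalRing M (tt p b ξ) := by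
  rw [tt_eq]
  apply memLocalRing_natCast_div hM
    (mul_ne_zero (pow_ne_zero _ hM.1.ne_zero) (charDegree_pos ξ.2).ne') Nat.card_pos.ne'
  rw [fact_mul, defect_eq]
  have := smin_le p hξ
  omega

theorem tt_not_memLocalIdeal [Fact p.Prime] (hM : IsPModular p M) {b : Set (IrrCharacter H)}
    {ξ : IrrCharacter H} (hξ : ξ ∈ b) (h0 : blockHeight p b (ξ : H → ℂ) = 0) :
    ¬ MemLocalIdeal M (tt p b ξ) := by
  rw [tt_eq]
  apply not_memLocalIdeal_natCast_div hM
    (mul_ne_zero (pow_ne_zero _ hM.1.ne_zero) (charDegree_pos ξ.2).ne') Nat.card_pos.ne'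
  rw [fact_mul, defect_eq]
  rw [height_eq] at h0
  have h1 := smin_le p hξ
  have h2 := factorization_le p ξ
  omega

theorem pow_mul_gg (b : Set (IrrCharacter H)) (ξ ξ' : IrrCharacter H) :
    (p : ℂ) ^ blockDefect p b * gg p ξ ξ' =
      tt p b ξ * om (ξ : H → ℂ) (creg p (ξ' : H → ℂ)) := by
  rw [om_creg, tt, gg]
  have h1 := irr_one_ne_zero ξ.2
  have h2 : (Nat.card H : ℂ) ≠ 0 := card_subgroup_ne_zero H
  field_simp

theorem kap_memLocalRing [M.IsPrime] (ξ ξ' : IrrCharacter H) :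
    MemLocalRing M (om (ξ : H → ℂ) (creg p (ξ' : H → ℂ))) :=
  om_memLocalRing ξ.2 (isClassFunction_creg (irr_isClassFunction ξ'.2))
    (memLocalRing_creg (IsIrrCharacter.isCharacter ξ'.2))

theorem kap_congr [M.IsPrime] {b : Set (IrrCharacter H)} (hb : IsPBlock M b)
    {ξ ξ₀ : IrrCharacter H} (hξ : ξ ∈ b) (hξ₀ : ξ₀ ∈ b) (ξ' : IrrCharacter H) :
    MemLocalIdeal M (om (ξ : H → ℂ) (creg p (ξ' : H → ℂ)) -
      om (ξ₀ : H → ℂ) (creg p (ξ' : H → ℂ))) :=
  om_sub_memLocalIdeal ξ.2 ξ₀.2 (IsPBlock.sameBlock hb hξ hξ₀)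
    (isClassFunction_creg (irr_isClassFunction ξ'.2))
    (memLocalRing_creg (IsIrrCharacter.isCharacter ξ'.2))

/-- `S(χ) = ∑_{ξ ∈ b} μ(χ,ξ) ω_{ξ₀}(ξ̄°)` -/
noncomputable def SS (p : ℕ) (b : Set (IrrCharacter H)) (ξ₀ : IrrCharacter H)
    (χ : IrrCharacter G) : ℂ :=
  ∑ ξ : IrrCharacter H, b.indicator 1 ξ * ((mu χ ξ : ℂ) * om (ξ₀ : H → ℂ) (creg p (ξ : H → ℂ)))

/-- `T(χ) = p^q χ(e_b) / |H|` -/
noncomputable def TT (p : ℕ) (b : Set (IrrCharacter H)) (χ : IrrCharacter G) : ℂ :=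
  ∑ ξ : IrrCharacter H, b.indicator 1 ξ * ((mu χ ξ : ℂ) * tt p b ξ)

theorem SS_memLocalRing [M.IsPrime] (b : Set (IrrCharacter H)) (ξ₀ : IrrCharacter H)
    (χ : IrrCharacter G) : MemLocalRing M (SS p b ξ₀ χ) := by
  refine MemLocalRing.sum _ fun ξ _ => ?_
  by_cases hξ : ξ ∈ b
  · rw [Set.indicator_of_mem hξ, Pi.one_apply, one_mul]
    exact MemLocalRing.mul (memLocalRing_natCast _) (kap_memLocalRing _ _)
  · rw [Set.indicator_of_notMem hξ, zero_mul]
    exact memLocalRing_zero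

theorem SS_not_memLocalIdeal [Fact p.Prime] (hM : IsPModular p M)
    {b : Set (IrrCharacter H)} {B : Set (IrrCharacter G)} (hind : IsInducedBlock M H b B)
    {χ : IrrCharacter G} (hχ : χ ∈ B) (h0 : blockHeight p B (χ : G → ℂ) = 0)
    {ξ₀ : IrrCharacter H} (hξ₀ : ξ₀ ∈ b) : ¬ MemLocalIdeal M (SS p b ξ₀ χ) := by
  have := IsPModular.isPrime hM
  obtain ⟨hb, hB, hcong⟩ := hind
  have hcl := isClassFunction_creg (p := p) (irr_isClassFunction χ.2)
  have hS := memLocalRing_creg (M := M) (p := p) (IsIrrCharacter.isCharacter χ.2)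
  have h1 := om_res_sub_memLocalIdeal H (irr_isClassFunction χ.2) (hcong ξ₀ hξ₀ χ hχ) hcl hS
  have h2 : ¬ MemLocalIdeal M (om (ξ₀ : H → ℂ) (fun h : H => creg p (χ : G → ℂ) (h : G))) :=
    fun h => not_memLocalIdeal_om_creg hM hB hχ h0 ((memLocalIdeal_congr h1).mp h)
  have hchar : IsCharacter H (fun h : H => (χ : G → ℂ) h) :=
    IsCharacter.restrict _ (IsIrrCharacter.isCharacter χ.2)
  have h3 : (fun h : H => creg p (χ : G → ℂ) (h : G)) =
      ∑ ξ : IrrCharacter H, (mu χ ξ : ℂ) • creg p (ξ : H → ℂ) := by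
    rw [creg_res]
    have h4 := classFunction_eq_sum (IsCharacter.isClassFunction hchar)
    have h5 : (fun h : H => conj ((χ : G → ℂ) h)) =
        ∑ ξ : IrrCharacter H, (mu χ ξ : ℂ) • (fun h : H => conj ((ξ : H → ℂ) h)) := by
      ext h
      have h6 := congrFun h4 h
      simp only [Finset.sum_apply, Pi.smul_apply, smul_eq_mul, mu_spec] at h6 ⊢
      rw [h6, map_sum]
      refine Finset.sum_congr rfl fun ξ _ => ?_
      rw [map_mul, Complex.conj_natCast]
    rw [creg, h5, regPart_sum]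
    refine Finset.sum_congr rfl fun ξ _ => ?_
    rw [regPart_smul, creg]
  have h7 : om (ξ₀ : H → ℂ) (fun h : H => creg p (χ : G → ℂ) (h : G)) = SS p b ξ₀ χ := by
    rw [h3, om_sum, SS]
    refine Finset.sum_congr rfl fun ξ _ => ?_
    rw [om_smul]
    by_cases hξ : ξ ∈ b
    · rw [Set.indicator_of_mem hξ, Pi.one_apply, one_mul]
    · rw [Set.indicator_of_notMem hξ, zero_mul, om_creg_eq_zero' hM hb hξ₀ hξ, mul_zero]
  rwa [h7] at h2

theorem TT_memLocalRing [Fact p.Prime] (hM : IsPModular p M) (b : Set (IrrCharacter H))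
    (χ : IrrCharacter G) : MemLocalRing M (TT p b χ) := by
  have := IsPModular.isPrime hM
  refine MemLocalRing.sum _ fun ξ _ => ?_
  by_cases hξ : ξ ∈ b
  · rw [Set.indicator_of_mem hξ, Pi.one_apply, one_mul]
    exact MemLocalRing.mul (memLocalRing_natCast _) (tt_memLocalRing hM hξ)
  · rw [Set.indicator_of_notMem hξ, zero_mul]
    exact memLocalRing_zero

theorem TT_not_memLocalIdeal [Fact p.Prime] (hM : IsPModular p M)
    {b : Set (IrrCharacter H)} {B : Set (IrrCharacter G)} (hind : IsInducedBlock M H b B)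
    {χ : IrrCharacter G} (hχ : χ ∈ B) (h0 : blockHeight p B (χ : G → ℂ) = 0) :
    ¬ MemLocalIdeal M (TT p b χ) := by
  have := IsPModular.isPrime hM
  have hb := hind.1
  obtain ⟨ξ₀, hξ₀, hh⟩ := BrauerFeit.exists_height_zero p (IsPBlock.nonempty hb)
  intro hT
  have hS := SS_not_memLocalIdeal hM hind hχ h0 hξ₀
  have ht := tt_not_memLocalIdeal hM hξ₀ hh
  have h1 : ¬ MemLocalIdeal M (tt p b ξ₀ * SS p b ξ₀ χ) :=
    not_memLocalIdeal_mul (tt_memLocalRing hM hξ₀) (SS_memLocalRing b ξ₀ χ) ht hS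
  apply h1
  have h2 : MemLocalIdeal M (tt p b ξ₀ * SS p b ξ₀ χ -
      TT p b χ * om (ξ₀ : H → ℂ) (creg p (ξ₀ : H → ℂ))) := by
    rw [SS, TT, Finset.mul_sum, Finset.sum_mul, ← Finset.sum_sub_distrib]
    refine MemLocalIdeal.sum _ fun ξ _ => ?_
    by_cases hξ : ξ ∈ b
    · rw [Set.indicator_of_mem hξ, Pi.one_apply, one_mul, one_mul]
      have h3 : tt p b ξ₀ * ((mu χ ξ : ℂ) * om (ξ₀ : H → ℂ) (creg p (ξ : H → ℂ))) -
          (mu χ ξ : ℂ) * tt p b ξ * om (ξ₀ : H → ℂ) (creg p (ξ₀ : H → ℂ)) =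
          ((mu χ ξ : ℂ) * tt p b ξ) * (om (ξ : H → ℂ) (creg p (ξ₀ : H → ℂ)) -
            om (ξ₀ : H → ℂ) (creg p (ξ₀ : H → ℂ))) := by
        rw [om_creg_symm ξ ξ₀, tt, tt]
        have e1 := irr_one_ne_zero ξ₀.2
        have e2 : (Nat.card H : ℂ) ≠ 0 := card_subgroup_ne_zero H
        field_simp
      rw [h3]
      exact MemLocalIdeal.mul_left (MemLocalRing.mul (memLocalRing_natCast _)
        (tt_memLocalRing hM hξ)) (kap_congr hb hξ hξ₀ ξ₀)
    · rw [Set.indicator_of_notMem hξ]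
      simp only [zero_mul, mul_zero, sub_zero]
      exact memLocalIdeal_zero
  exact (memLocalIdeal_congr h2).mpr (MemLocalIdeal.mul_right hT (kap_memLocalRing _ _))

/-- the twisted contribution -/
noncomputable def EE (p : ℕ) (b : Set (IrrCharacter H)) (u v : IrrCharacter H → ℂ)
    (χ ψ : IrrCharacter G) : ℂ :=
  ∑ ξ : IrrCharacter H, ∑ ξ' : IrrCharacter H,
    (b.indicator 1 ξ * ((mu χ ξ : ℂ) * u ξ)) * (b.indicator 1 ξ' * ((mu ψ ξ' : ℂ) * v ξ')) *
      ((p : ℂ) ^ blockDefect p b * gg p ξ ξ')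

theorem EE_congr [Fact p.Prime] (hM : IsPModular p M)
    {b : Set (IrrCharacter H)} (hb : IsPBlock M b)
    {u v : IrrCharacter H → ℂ} (hu : ∀ ξ, MemLocalIdeal M (u ξ - 1))
    (hv : ∀ ξ, MemLocalIdeal M (v ξ - 1)) (χ ψ : IrrCharacter G)
    {ξ₀ : IrrCharacter H} (hξ₀ : ξ₀ ∈ b) :
    MemLocalIdeal M (EE p b u v χ ψ - TT p b χ * SS p b ξ₀ ψ) := by
  have := IsPModular.isPrime hM
  rw [EE, TT, SS, Finset.sum_mul_sum, ← Finset.sum_sub_distrib]
  refine MemLocalIdeal.sum _ fun ξ _ => ?_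
  rw [← Finset.sum_sub_distrib]
  refine MemLocalIdeal.sum _ fun ξ' _ => ?_
  by_cases hξ : ξ ∈ b
  · by_cases hξ' : ξ' ∈ b
    · rw [Set.indicator_of_mem hξ, Set.indicator_of_mem hξ', pow_mul_gg]
      simp only [Pi.one_apply, one_mul]
      set κ := om (ξ : H → ℂ) (creg p (ξ' : H → ℂ)) with hκ
      set κ₀ := om (ξ₀ : H → ℂ) (creg p (ξ' : H → ℂ)) with hκ₀
      have hκR : MemLocalRing M κ := kap_memLocalRing _ _
      have hvR : MemLocalRing M (v ξ') := by
        have := MemLocalRing.add (MemLocalIdeal.memLocalRing (hv ξ')) (memLocalRing_one (M := M))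
        rwa [sub_add_cancel] at this
      have h1 : (mu χ ξ : ℂ) * u ξ * ((mu ψ ξ' : ℂ) * v ξ') * (tt p b ξ * κ) -
          (mu χ ξ : ℂ) * tt p b ξ * ((mu ψ ξ' : ℂ) * κ₀) =
          ((mu χ ξ : ℂ) * (mu ψ ξ' : ℂ) * tt p b ξ) *
            ((u ξ - 1) * (v ξ' * κ) + (v ξ' - 1) * κ + (κ - κ₀)) := by ring
      rw [h1]
      refine MemLocalIdeal.mul_left (MemLocalRing.mul (MemLocalRing.mul (memLocalRing_natCast _)
        (memLocalRing_natCast _)) (tt_memLocalRing hM hξ)) ?_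
      exact MemLocalIdeal.add (MemLocalIdeal.add
        (MemLocalIdeal.mul_right (hu ξ) (MemLocalRing.mul hvR hκR))
        (MemLocalIdeal.mul_right (hv ξ') hκR)) (kap_congr hb hξ hξ₀ ξ')
    · rw [Set.indicator_of_notMem hξ']
      simp only [zero_mul, mul_zero, sub_zero]
      exact memLocalIdeal_zero
  · rw [Set.indicator_of_notMem hξ]
    simp only [zero_mul, sub_zero]
    exact memLocalIdeal_zero

theorem EE_unit [Fact p.Prime] (hM : IsPModular p M)
    {b : Set (IrrCharacter H)} {B : Set (IrrCharacter G)} (hind : IsInducedBlock M H b B)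
    {u v : IrrCharacter H → ℂ} (hu : ∀ ξ, MemLocalIdeal M (u ξ - 1))
    (hv : ∀ ξ, MemLocalIdeal M (v ξ - 1)) {χ ψ : IrrCharacter G}
    (hχ : χ ∈ B) (h0 : blockHeight p B (χ : G → ℂ) = 0)
    (hψ : ψ ∈ B) (h0' : blockHeight p B (ψ : G → ℂ) = 0) :
    MemLocalRing M (EE p b u v χ ψ) ∧ ¬ MemLocalIdeal M (EE p b u v χ ψ) := by
  have := IsPModular.isPrime hM
  obtain ⟨ξ₀, hξ₀⟩ := IsPBlock.nonempty hind.1
  have h1 := EE_congr hM hind.1 hu hv χ ψ hξ₀
  have hT := TT_memLocalRing hM b χ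
  have hS := SS_memLocalRing (M := M) (p := p) b ξ₀ ψ
  refine ⟨(memLocalRing_congr h1).mpr (MemLocalRing.mul hT hS), fun h => ?_⟩
  exact not_memLocalIdeal_mul hT hS (TT_not_memLocalIdeal hM hind hχ h0)
    (SS_not_memLocalIdeal hM hind hψ h0' hξ₀) ((memLocalIdeal_congr h1).mp h)

end Cfsg.Agent.Lib.Helper23.Contrib
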