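import Mathlib
import Cfsg.Prelude.Def_Blocks
import Cfsg.Agent.Lib.Helper6.LocalRing

/-!
# A norm / AM-GM argument in cyclotomic fields
-/

set_option autoImplicit false

namespace Cfsg.Agent.Lib.Helper23.CycNorm

open Cfsg Cfsg.Agent.Lib.Helper6 Polynomial
open scoped ComplexConjugate

/-- the product of the values of a rational polynomial at all primitive roots is rational -/
theorem exists_rat_prod (N : ℕ) [NeZero N] (P : ℚ[X]) :
    ∃ r : ℚ, ∏ η : primitiveRoots N ℂ, aeval (η : ℂ) P = (r : ℂ) := by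
  have inst : IsCyclotomicExtension {N} ℚ (CyclotomicField N ℚ) :=
    CyclotomicField.isCyclotomicExtension N ℚ
  have hζ : IsPrimitiveRoot (IsCyclotomicExtension.zeta N ℚ (CyclotomicField N ℚ)) N :=
    IsCyclotomicExtension.zeta_spec N ℚ (CyclotomicField N ℚ)
  have hirr : Irreducible (cyclotomic N ℚ) := cyclotomic.irreducible_rat (NeZero.pos N)
  refine ⟨Algebra.norm ℚ (aeval (IsCyclotomicExtension.zeta N ℚ (CyclotomicField N ℚ)) P), ?_⟩
  have h1 := Algebra.norm_eq_prod_embeddings ℚ ℂ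
    (aeval (IsCyclotomicExtension.zeta N ℚ (CyclotomicField N ℚ)) P)
  rw [eq_ratCast] at h1
  rw [h1]
  symm
  refine Fintype.prod_equiv (hζ.embeddingsEquivPrimitiveRoots ℂ hirr) _ _ fun σ => ?_
  rw [IsPrimitiveRoot.embeddingsEquivPrimitiveRoots_apply_coe, aeval_algHom_apply]

theorem aeval_eq_of_primitive {N : ℕ} (hN : 0 < N) {ζ η : ℂ} (hζ : IsPrimitiveRoot ζ N)
    (hη : IsPrimitiveRoot η N) {Q : ℚ[X]} {c : ℚ} (h : aeval ζ Q = (c : ℂ)) :
    aeval η Q = (c : ℂ) := by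
  have h1 : aeval ζ (Q - C c) = 0 := by
    rw [map_sub, h, aeval_C, eq_ratCast, sub_self]
  have h2 : minpoly ℚ ζ ∣ Q - C c := minpoly.dvd ℚ ζ h1
  rw [← cyclotomic_eq_minpoly_rat hζ hN, cyclotomic_eq_minpoly_rat hη hN] at h2
  obtain ⟨R, hR⟩ := h2
  have h3 : aeval η (Q - C c) = 0 := by
    rw [hR, map_mul, minpoly.aeval, zero_mul]
  rw [map_sub, aeval_C, eq_ratCast, sub_eq_zero] at h3
  exact h3

theorem conj_aeval {N : ℕ} (hN : 0 < N) {η : ℂ} (hη : η ^ N = 1) (P : ℚ[X]) :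
    conj (aeval η P) = aeval η (P.comp (X ^ (N - 1))) := by
  have h1 : conj (aeval η P) = aeval (conj η) P := by
    have := aeval_algHom_apply (Complex.conjAe.toAlgHom.restrictScalars ℚ) η P
    exact this.symm
  have h2 : ‖η‖ = 1 := Complex.norm_eq_one_of_pow_eq_one hη hN.ne'
  have h3 : conj η = η ^ (N - 1) := by
    rw [← Complex.inv_eq_conj h2]
    have h4 : η ≠ 0 := by
      intro h; rw [h, norm_zero] at h2; exact zero_ne_one h2
    apply inv_eq_of_mul_eq_one_right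
    rw [← pow_succ', Nat.sub_add_cancel hN, hη]
  rw [h1, h3, aeval_comp, map_pow, aeval_X]

theorem card_le_sum_of_one_le_prod {ι : Type*} (s : Finset ι) (z : ι → ℝ) (hz : ∀ i ∈ s, 0 < z i)
    (h : 1 ≤ ∏ i ∈ s, z i) : (s.card : ℝ) ≤ ∑ i ∈ s, z i := by
  have h1 : ∀ i ∈ s, Real.log (z i) ≤ z i - 1 := fun i hi => Real.log_le_sub_one_of_pos (hz i hi)
  have h2 : Real.log (∏ i ∈ s, z i) = ∑ i ∈ s, Real.log (z i) :=
    Real.log_prod (fun i hi => (hz i hi).ne')
  have h3 : 0 ≤ Real.log (∏ i ∈ s, z i) := Real.log_nonneg h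
  have h4 : ∑ i ∈ s, Real.log (z i) ≤ ∑ i ∈ s, (z i - 1) := Finset.sum_le_sum h1
  rw [Finset.sum_sub_distrib, Finset.sum_const, nsmul_eq_mul, mul_one] at h4
  linarith

variable {M : Ideal AlgInt} {p : ℕ}

theorem pow_dvd_of_memLocalRing (hM : IsPModular p M) (m : ℕ) : ∀ z : ℤ,
    MemLocalRing M ((z : ℂ) / (p : ℂ) ^ m) → (p : ℤ) ^ m ∣ z := by
  have := IsPModular.isPrime hM
  have hp0 : (p : ℂ) ≠ 0 := by exact_mod_cast hM.1.ne_zero
  induction m with
  | zero => intro z _; simp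
  | succ m ih =>
    intro z hz
    have h1 : MemLocalIdeal M (z : ℂ) := by
      have h2 : (z : ℂ) = ((z : ℂ) / (p : ℂ) ^ (m + 1) * (p : ℂ) ^ m) * (p : ℂ) := by
        field_simp
        ring
      rw [h2]
      exact MemLocalIdeal.mul_left (MemLocalRing.mul hz (MemLocalRing.pow (memLocalRing_natCast p) m))
        (memLocalIdeal_p hM)
    obtain ⟨z', rfl⟩ := (memLocalIdeal_intCast_iff hM z).mp h1
    have h3 : MemLocalRing M ((z' : ℂ) / (p : ℂ) ^ m) := by
      have h4 : (z' : ℂ) / (p : ℂ) ^ m = (((p : ℤ) * z' : ℤ) : ℂ) / (p : ℂ) ^ (m + 1) := by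
        push_cast
        field_simp
        ring
      rw [h4]; exact hz
    rw [pow_succ']
    exact mul_dvd_mul_left _ (ih z' h3)

/-- a rational local unit with `p`-power denominator has absolute value at least one -/
theorem one_le_abs_of_unit (hM : IsPModular p M) {r : ℚ} {m : ℕ}
    (hint : IsIntegral ℤ ((p : ℂ) ^ m * (r : ℂ))) (h1 : MemLocalRing M (r : ℂ)) (h0 : r ≠ 0) :
    1 ≤ |r| := by
  have hp0 : (p : ℂ) ≠ 0 := by exact_mod_cast hM.1.ne_zero
  have hpq : (p : ℚ) ≠ 0 := by exact_mod_cast hM.1.ne_zero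
  have h2 : IsIntegral ℤ ((p : ℚ) ^ m * r) := by
    have h3 : ((p : ℂ) ^ m * (r : ℂ)) = algebraMap ℚ ℂ ((p : ℚ) ^ m * r) := by
      rw [eq_ratCast]; push_cast; ring
    rw [h3] at hint
    exact (isIntegral_algebraMap_iff (algebraMap ℚ ℂ).injective).mp hint
  obtain ⟨z, hz⟩ := IsIntegrallyClosed.isIntegral_iff.mp h2
  rw [eq_intCast] at hz
  have h4 : (r : ℂ) = (z : ℂ) / (p : ℂ) ^ m := by
    have : ((z : ℚ) : ℂ) = (((p : ℚ) ^ m * r : ℚ) : ℂ) := by rw [hz]
    push_cast at this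
    rw [this]
    field_simp
  rw [h4] at h1
  obtain ⟨y, rfl⟩ := pow_dvd_of_memLocalRing hM m z h1
  have h5 : r = (y : ℚ) := by
    push_cast at hz
    exact (mul_left_cancel₀ (pow_ne_zero m hpq) hz).symm
  rw [h5] at h0 ⊢
  have h6 : y ≠ 0 := by exact_mod_cast h0
  have h7 : (1 : ℤ) ≤ |y| := Int.one_le_abs h6
  exact_mod_cast h7

/-- **Norm argument.**  A finite family of elements of a `p`-power cyclotomic field all of whose
conjugates are local units has square sum at least the size of the family. -/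
theorem card_le_of_units (hM : IsPModular p M) {N : ℕ} (hN : 0 < N) {ζ : ℂ}
    (hζ : IsPrimitiveRoot ζ N) {ι : Type*} [Fintype ι] (P : ι → ℚ[X]) (m : ℕ) (s : Finset ι)
    (hR : ∀ i ∈ s, ∀ η : ℂ, η ^ N = 1 → MemLocalRing M (aeval η (P i)))
    (hU : ∀ i ∈ s, ∀ η : ℂ, η ^ N = 1 → ¬ MemLocalIdeal M (aeval η (P i)))
    (hI : ∀ i ∈ s, ∀ η : ℂ, η ^ N = 1 → IsIntegral ℤ ((p : ℂ) ^ m * aeval η (P i)))
    {c : ℚ} (hc : ∑ i, aeval ζ (P i) * conj (aeval ζ (P i)) = (c : ℂ)) :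
    (s.card : ℚ) ≤ c := by
  have := IsPModular.isPrime hM
  have : NeZero N := ⟨hN.ne'⟩
  have hpow : ∀ η : primitiveRoots N ℂ, (η : ℂ) ^ N = 1 := fun η =>
    ((mem_primitiveRoots hN).mp η.2).pow_eq_one
  -- the sum is the same at all primitive roots
  have hsum : ∀ η : primitiveRoots N ℂ,
      ∑ i, aeval (η : ℂ) (P i) * conj (aeval (η : ℂ) (P i)) = (c : ℂ) := by
    intro η
    have h1 : ∀ θ : ℂ, θ ^ N = 1 → ∑ i, aeval θ (P i) * conj (aeval θ (P i)) =
        aeval θ (∑ i, P i * (P i).comp (X ^ (N - 1))) := by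
      intro θ hθ
      rw [map_sum]
      refine Finset.sum_congr rfl fun i _ => ?_
      rw [map_mul, conj_aeval hN hθ]
    rw [h1 _ (hpow η)]
    rw [h1 _ hζ.pow_eq_one] at hc
    exact aeval_eq_of_primitive hN hζ ((mem_primitiveRoots hN).mp η.2) hc
  -- each family member
  have hmem : ∀ i ∈ s, (Fintype.card (primitiveRoots N ℂ) : ℝ) ≤
      ∑ η : primitiveRoots N ℂ, ‖aeval (η : ℂ) (P i)‖ ^ 2 := by
    intro i his
    obtain ⟨r, hr⟩ := exists_rat_prod N (P i)
    have hr1 : MemLocalRing M (r : ℂ) := by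
      rw [← hr]; exact MemLocalRing.prod _ fun η _ => hR i his η (hpow η)
    have hr2 : ¬ MemLocalIdeal M (r : ℂ) := by
      rw [← hr]
      exact not_memLocalIdeal_prod _ (fun η _ => hR i his η (hpow η)) (fun η _ => hU i his η (hpow η))
    have hr0 : r ≠ 0 := by
      rintro rfl
      apply hr2
      rw [Rat.cast_zero]
      exact memLocalIdeal_zero
    have hr3 : IsIntegral ℤ ((p : ℂ) ^ (m * Fintype.card (primitiveRoots N ℂ)) * (r : ℂ)) := by
      have h2 : (p : ℂ) ^ (m * Fintype.card (primitiveRoots N ℂ)) * (r : ℂ) =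
          ∏ η : primitiveRoots N ℂ, ((p : ℂ) ^ m * aeval (η : ℂ) (P i)) := by
        rw [Finset.prod_mul_distrib, hr, Finset.prod_const, Finset.card_univ, pow_mul]
      rw [h2]
      exact IsIntegral.prod _ fun η _ => hI i his η (hpow η)
    have hr4 := one_le_abs_of_unit hM hr3 hr1 hr0
    have h5 : (1 : ℝ) ≤ ∏ η : primitiveRoots N ℂ, ‖aeval (η : ℂ) (P i)‖ ^ 2 := by
      rw [Finset.prod_pow, ← norm_prod, hr]
      have h6 : ‖(r : ℂ)‖ = |(r : ℝ)| := by
        rw [← Complex.ofReal_ratCast, Complex.norm_real, Real.norm_eq_abs]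
      rw [h6]
      have h7 : (1 : ℝ) ≤ |(r : ℝ)| := by exact_mod_cast hr4
      nlinarith
    have h8 := card_le_sum_of_one_le_prod Finset.univ
      (fun η : primitiveRoots N ℂ => ‖aeval (η : ℂ) (P i)‖ ^ 2) (fun η _ => by
        have h9 : aeval (η : ℂ) (P i) ≠ 0 := by
          intro h
          apply hU i his η (hpow η)
          rw [h]; exact memLocalIdeal_zero
        positivity) h5
    rwa [Finset.card_univ] at h8
  have hpos : 0 < Fintype.card (primitiveRoots N ℂ) :=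
    Fintype.card_pos_iff.mpr ⟨⟨ζ, (mem_primitiveRoots hN).mpr hζ⟩⟩
  have hreal : ∀ η : primitiveRoots N ℂ, ∑ i, ‖aeval (η : ℂ) (P i)‖ ^ 2 = (c : ℝ) := by
    intro η
    have h1 := hsum η
    have h2 : ∑ i, aeval (η : ℂ) (P i) * conj (aeval (η : ℂ) (P i)) =
        ((∑ i, ‖aeval (η : ℂ) (P i)‖ ^ 2 : ℝ) : ℂ) := by
      push_cast
      refine Finset.sum_congr rfl fun i _ => ?_
      rw [Complex.mul_conj, Complex.normSq_eq_norm_sq]
      push_cast; rfl
    rw [h2] at h1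
    have h3 : ((c : ℚ) : ℂ) = ((c : ℝ) : ℂ) := by push_cast; rfl
    rw [h3] at h1
    exact_mod_cast h1
  have htot : (s.card : ℝ) * (Fintype.card (primitiveRoots N ℂ) : ℝ) ≤
      (Fintype.card (primitiveRoots N ℂ) : ℝ) * (c : ℝ) := by
    calc (s.card : ℝ) * (Fintype.card (primitiveRoots N ℂ) : ℝ)
        = ∑ _i ∈ s, (Fintype.card (primitiveRoots N ℂ) : ℝ) := by
          rw [Finset.sum_const, nsmul_eq_mul]
      _ ≤ ∑ i ∈ s, ∑ η : primitiveRoots N ℂ, ‖aeval (η : ℂ) (P i)‖ ^ 2 :=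
          Finset.sum_le_sum fun i hi => hmem i hi
      _ ≤ ∑ i : ι, ∑ η : primitiveRoots N ℂ, ‖aeval (η : ℂ) (P i)‖ ^ 2 :=
          Finset.sum_le_sum_of_subset_of_nonneg (Finset.subset_univ s) fun i _ _ =>
            Finset.sum_nonneg fun η _ => by positivity
      _ = ∑ η : primitiveRoots N ℂ, ∑ i : ι, ‖aeval (η : ℂ) (P i)‖ ^ 2 := Finset.sum_comm
      _ = ∑ _η : primitiveRoots N ℂ, (c : ℝ) := Finset.sum_congr rfl fun η _ => hreal η
      _ = (Fintype.card (primitiveRoots N ℂ) : ℝ) * (c : ℝ) := by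
          rw [Finset.sum_const, Finset.card_univ, nsmul_eq_mul]
  have hpos' : (0 : ℝ) < (Fintype.card (primitiveRoots N ℂ) : ℝ) := by exact_mod_cast hpos
  have hfin : (s.card : ℝ) ≤ (c : ℝ) := by
    rw [mul_comm] at htot
    exact le_of_mul_le_mul_left htot hpos'
  exact_mod_cast hfin

end Cfsg.Agent.Lib.Helper23.CycNorm
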