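import Mathlib
import Cfsg.Agent.Lib.Helper23.Contrib2
import Cfsg.Agent.Lib.Helper23.CycNorm

/-!
# `k₀(B)² ≤ p^(2q) l(b)` for a subsection `(x, b)` with `b` of defect `q`
-/

set_option autoImplicit false
set_option linter.unusedSectionVars false

namespace Cfsg.Agent.Lib.Helper23.Contrib

open Cfsg Cfsg.Agent.Lib.Helper2 Cfsg.Agent.Lib.Helper6
open Cfsg.Agent.Lib.Helper23.BrauerFeit Cfsg.Agent.Lib.Helper23.RegInner
open Cfsg.Agent.Lib.Helper23.CycNorm Polynomial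
open scoped ComplexConjugate Classical

attribute [local instance] irrFintype

variable {G : Type*} [Group G] [Fintype G] {H : Subgroup G} [Fintype H] {p : ℕ}
  {M : Ideal AlgInt}

theorem gg_eq [Fact p.Prime] (ξ ξ' : IrrCharacter H) :
    gg p ξ ξ' = (nn p ξ ξ' : ℂ) / (p : ℂ) ^ (Nat.card H).factorization p := by
  have hp : p.Prime := Fact.out
  have hp0 : (p : ℂ) ≠ 0 := by exact_mod_cast hp.ne_zero
  have h1 := nn_spec p ξ ξ'
  rw [tilde_eq, classInner_smul_left] at h1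
  have h2 : regF p (ξ : H → ℂ) = regPart p (ξ : H → ℂ) := rfl
  rw [h2] at h1
  rw [gg, ← h1]
  push_cast
  field_simp

/-- rational coefficients -/
noncomputable def rc (p : ℕ) [Fact p.Prime] (b : Set (IrrCharacter H)) (χ ψ : IrrCharacter G)
    (ξ ξ' : IrrCharacter H) : ℚ :=
  (if ξ ∈ b then 1 else 0) * (if ξ' ∈ b then 1 else 0) * (mu χ ξ : ℚ) * (mu ψ ξ' : ℚ) *
    ((p : ℚ) ^ blockDefect p b * (nn p ξ ξ' : ℚ) / (p : ℚ) ^ (Nat.card H).factorization p)

/-- the polynomial representing the contribution -/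
noncomputable def PP (p : ℕ) [Fact p.Prime] (b : Set (IrrCharacter H)) (N : ℕ)
    (idx : IrrCharacter H → ℕ) (χ ψ : IrrCharacter G) : ℚ[X] :=
  ∑ ξ : IrrCharacter H, ∑ ξ' : IrrCharacter H,
    C (rc p b χ ψ ξ ξ') * X ^ (idx ξ + (N - idx ξ'))

theorem indicator_eq_ite (b : Set (IrrCharacter H)) (ξ : IrrCharacter H) :
    b.indicator (1 : IrrCharacter H → ℂ) ξ = if ξ ∈ b then 1 else 0 := by
  by_cases h : ξ ∈ b
  · rw [Set.indicator_of_mem h, if_pos h]; rfl
  · rw [Set.indicator_of_notMem h, if_neg h]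

theorem aeval_PP [Fact p.Prime] (b : Set (IrrCharacter H)) (N : ℕ)
    (idx : IrrCharacter H → ℕ) (χ ψ : IrrCharacter G) (η : ℂ) :
    aeval η (PP p b N idx χ ψ) =
      EE p b (fun ξ => η ^ idx ξ) (fun ξ => η ^ (N - idx ξ)) χ ψ := by
  rw [PP, EE, map_sum]
  refine Finset.sum_congr rfl fun ξ _ => ?_
  rw [map_sum]
  refine Finset.sum_congr rfl fun ξ' _ => ?_
  rw [map_mul, aeval_C, map_pow, aeval_X, eq_ratCast, rc, gg_eq, indicator_eq_ite,
    indicator_eq_ite, pow_add]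
  by_cases h1 : ξ ∈ b <;> by_cases h2 : ξ' ∈ b <;> simp only [h1, h2, if_true, if_false] <;>
    push_cast <;> ring

theorem isIntegral_EE [Fact p.Prime] (b : Set (IrrCharacter H)) {u v : IrrCharacter H → ℂ}
    (hu : ∀ ξ, IsIntegral ℤ (u ξ)) (hv : ∀ ξ, IsIntegral ℤ (v ξ)) (χ ψ : IrrCharacter G) :
    IsIntegral ℤ ((p : ℂ) ^ (Nat.card H).factorization p * EE p b u v χ ψ) := by
  have hp : p.Prime := Fact.out
  have hp0 : (p : ℂ) ≠ 0 := by exact_mod_cast hp.ne_zero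
  rw [EE, Finset.mul_sum]
  refine IsIntegral.sum _ fun ξ _ => ?_
  rw [Finset.mul_sum]
  refine IsIntegral.sum _ fun ξ' _ => ?_
  have h1 : (p : ℂ) ^ (Nat.card H).factorization p *
      ((b.indicator 1 ξ * ((mu χ ξ : ℂ) * u ξ)) * (b.indicator 1 ξ' * ((mu ψ ξ' : ℂ) * v ξ')) *
      ((p : ℂ) ^ blockDefect p b * gg p ξ ξ')) =
      (((if ξ ∈ b then 1 else 0 : ℤ) * (if ξ' ∈ b then 1 else 0 : ℤ) * (mu χ ξ : ℤ) *
        (mu ψ ξ' : ℤ) * (p : ℤ) ^ blockDefect p b * nn p ξ ξ' : ℤ) : ℂ) * (u ξ * v ξ') := by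
    rw [gg_eq, indicator_eq_ite, indicator_eq_ite]
    push_cast
    field_simp
  rw [h1]
  exact IsIntegral.mul isIntegral_algebraMap ((hu ξ).mul (hv ξ'))

theorem pow_mul_mc {x : H} (hx : IsCenOf p x) (b : Set (IrrCharacter H))
    (χ ψ : IrrCharacter G) :
    (p : ℂ) ^ blockDefect p b * mc p b x (χ : G → ℂ) (ψ : G → ℂ) =
      EE p b (fun ξ => centralChar (ξ : H → ℂ) x) (fun ξ => conj (centralChar (ξ : H → ℂ) x))
        χ ψ := by
  rw [mc_eq_sum, EE, Finset.mul_sum]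
  refine Finset.sum_congr rfl fun ξ _ => ?_
  rw [Finset.mul_sum]
  refine Finset.sum_congr rfl fun ξ' _ => ?_
  rw [cf_eq hx, cf_eq hx, map_mul, map_mul, conj_indicator_one, Complex.conj_natCast]
  ring

theorem mc_eq_zero_left (hM : IsPModular p M) {x : H} (hx : IsCenOf p x)
    {b : Set (IrrCharacter H)} {B : Set (IrrCharacter G)} (hind : IsInducedBlock M H b B)
    {χ : IrrCharacter G} (hχ : χ ∉ B) (ψ : G → ℂ) : mc p b x (χ : G → ℂ) ψ = 0 := by
  rw [mc, fpart_eq_zero hM hx hind hχ, classInner_zero_left]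

theorem mc_eq_zero_right (hM : IsPModular p M) {x : H} (hx : IsCenOf p x)
    {b : Set (IrrCharacter H)} {B : Set (IrrCharacter G)} (hind : IsInducedBlock M H b B)
    (χ : G → ℂ) {ψ : IrrCharacter G} (hψ : ψ ∉ B) : mc p b x χ (ψ : G → ℂ) = 0 := by
  rw [mc, fpart_eq_zero hM hx hind hψ, classInner_zero_right]

theorem sum_mc_sq' [Fact p.Prime] (hM : IsPModular p M) {x : H} (hx : IsCenOf p x)
    {b : Set (IrrCharacter H)} {B : Set (IrrCharacter G)} (hind : IsInducedBlock M H b B) :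
    ∑ χ : IrrCharacter G, ∑ ψ : IrrCharacter G,
      (mc p b x (χ : G → ℂ) (ψ : G → ℂ) * conj (mc p b x (χ : G → ℂ) (ψ : G → ℂ))) =
      (blockRank p b : ℂ) := by
  rw [← sum_mc_sq hM hx hind]
  refine Finset.sum_congr rfl fun χ _ => Finset.sum_congr rfl fun ψ _ => ?_
  by_cases hχ : χ ∈ B
  · by_cases hψ : ψ ∈ B
    · rw [Set.indicator_of_mem hχ, Set.indicator_of_mem hψ]
      simp
    · rw [mc_eq_zero_right hM hx hind _ hψ]
      simp
  · rw [mc_eq_zero_left hM hx hind hχ]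
    simp

/-- **Brauer.**  If `(x, b)` is a subsection of `B`, `b` of defect `q`, then the number `k₀` of
characters of height zero in `B` satisfies `k₀² ≤ p^(2q) l(b)`. -/
theorem card_sq_le [Fact p.Prime] (hM : IsPModular p M) {x : H} (hx : IsCenOf p x)
    {b : Set (IrrCharacter H)} {B : Set (IrrCharacter G)} (hind : IsInducedBlock M H b B)
    (S : Finset (IrrCharacter G)) (hS : ∀ χ ∈ S, χ ∈ B ∧ blockHeight p B (χ : G → ℂ) = 0) :
    S.card ^ 2 ≤ p ^ (2 * blockDefect p b) * blockRank p b := by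
  have := IsPModular.isPrime hM
  obtain ⟨k, hk⟩ := hx.pow
  have hN : 0 < p ^ k := pow_pos hM.1.pos k
  have hNe : p ^ k ≠ 0 := hN.ne'
  have : NeZero (p ^ k) := ⟨hNe⟩
  set ζ : ℂ := Complex.exp (2 * Real.pi * Complex.I / ((p ^ k : ℕ) : ℂ)) with hζdef
  have hζ : IsPrimitiveRoot ζ (p ^ k) := Complex.isPrimitiveRoot_exp _ hNe
  have hw : ∀ ξ : IrrCharacter H, centralChar (ξ : H → ℂ) x ^ (p ^ k) = 1 := by
    intro ξ
    have h1 := centralChar_pow_of_central ξ.2 (mem_center hx) (p ^ k)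
    have h2 : x ^ (p ^ k) = 1 := by
      apply Subtype.ext
      rw [Subgroup.coe_pow, ← hk, pow_orderOf_eq_one]; rfl
    rw [h2] at h1
    have h0 := irr_one_ne_zero ξ.2
    have : centralChar (ξ : H → ℂ) x ^ (p ^ k) * (ξ : H → ℂ) 1 = 1 * (ξ : H → ℂ) 1 := by
      rw [← h1, one_mul]
    exact mul_right_cancel₀ h0 this
  have hidx : ∀ ξ : IrrCharacter H, ∃ i < p ^ k, ζ ^ i = centralChar (ξ : H → ℂ) x :=
    fun ξ => hζ.eq_pow_of_pow_eq_one (hw ξ)
  choose idx hidx1 hidx2 using hidx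
  have hconj : ∀ ξ : IrrCharacter H, ζ ^ (p ^ k - idx ξ) = conj (centralChar (ξ : H → ℂ) x) := by
    intro ξ
    have h1 : ‖centralChar (ξ : H → ℂ) x‖ = 1 := Complex.norm_eq_one_of_pow_eq_one (hw ξ) hNe
    rw [← Complex.inv_eq_conj h1, ← hidx2 ξ]
    apply eq_inv_of_mul_eq_one_left
    rw [← pow_add, Nat.sub_add_cancel (hidx1 ξ).le, hζ.pow_eq_one]
  have hroot : ∀ η : ℂ, η ^ (p ^ k) = 1 → ∀ i : ℕ, MemLocalIdeal M (η ^ i - 1) := by
    intro η hη i
    apply sub_one_memLocalIdeal_of_pow_eq_one hM (k := k)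
    rw [← pow_mul, mul_comm, pow_mul, hη, one_pow]
  have hint : ∀ η : ℂ, η ^ (p ^ k) = 1 → ∀ i : ℕ, IsIntegral ℤ (η ^ i) := by
    intro η hη i
    apply IsIntegral.pow
    apply IsIntegral.of_pow hN
    rw [hη]
    exact isIntegral_one
  have key := card_le_of_units hM hN hζ
    (fun i : IrrCharacter G × IrrCharacter G => PP p b (p ^ k) idx i.1 i.2)
    ((Nat.card H).factorization p) (S ×ˢ S)
    (fun i hi η hη => by
      rw [aeval_PP]
      obtain ⟨h1, h2⟩ := Finset.mem_product.mp hi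
      exact (EE_unit hM hind (fun ξ => hroot η hη _) (fun ξ => hroot η hη _)
        (hS _ h1).1 (hS _ h1).2 (hS _ h2).1 (hS _ h2).2).1)
    (fun i hi η hη => by
      rw [aeval_PP]
      obtain ⟨h1, h2⟩ := Finset.mem_product.mp hi
      exact (EE_unit hM hind (fun ξ => hroot η hη _) (fun ξ => hroot η hη _)
        (hS _ h1).1 (hS _ h1).2 (hS _ h2).1 (hS _ h2).2).2)
    (fun i _ η hη => by
      rw [aeval_PP]
      exact isIntegral_EE b (fun ξ => hint η hη _) (fun ξ => hint η hη _) _ _)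
    (c := ((p ^ (2 * blockDefect p b) * blockRank p b : ℕ) : ℚ)) (by
      rw [Fintype.sum_prod_type]
      have h1 : ∀ χ ψ : IrrCharacter G, aeval ζ (PP p b (p ^ k) idx χ ψ) =
          (p : ℂ) ^ blockDefect p b * mc p b x (χ : G → ℂ) (ψ : G → ℂ) := by
        intro χ ψ
        rw [aeval_PP, pow_mul_mc hx]
        congr 1
        · funext ξ; exact hidx2 ξ
        · funext ξ; exact hconj ξ
      simp only [h1]
      have h2 := sum_mc_sq' hM hx hind
      push_cast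
      rw [← h2, Finset.mul_sum]
      refine Finset.sum_congr rfl fun χ _ => ?_
      rw [Finset.mul_sum]
      refine Finset.sum_congr rfl fun ψ _ => ?_
      rw [map_mul, map_pow, Complex.conj_natCast]
      ring)
  rw [Finset.card_product] at key
  have key' : ((S.card * S.card : ℕ) : ℚ) ≤ ((p ^ (2 * blockDefect p b) * blockRank p b : ℕ) : ℚ) :=
    key
  rw [sq]
  exact_mod_cast key'

end Cfsg.Agent.Lib.Helper23.Contrib
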