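import Mathlib
import Cfsg.Agent.Lib.Helper23.CycNorm

/-!
# More on the norm argument; traces in `2`-power cyclotomic fields
-/

set_option autoImplicit false

namespace Cfsg.Agent.Lib.Helper23.CycNorm

open Cfsg Cfsg.Agent.Lib.Helper6 Polynomial
open scoped ComplexConjugate

theorem aeval_eq_aeval_of_primitive {N : ℕ} (hN : 0 < N) {ζ η : ℂ} (hζ : IsPrimitiveRoot ζ N)
    (hη : IsPrimitiveRoot η N) {Q D : ℚ[X]} (h : aeval ζ Q = aeval ζ D) :
    aeval η Q = aeval η D := by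
  have h1 : aeval ζ (Q - D) = ((0 : ℚ) : ℂ) := by
    rw [map_sub, h, sub_self, Rat.cast_zero]
  have h2 := aeval_eq_of_primitive hN hζ hη h1
  rw [map_sub, Rat.cast_zero, sub_eq_zero] at h2
  exact h2

variable {M : Ideal AlgInt} {p : ℕ}

theorem exists_int_of_memLocalRing (hM : IsPModular p M) {r : ℚ} {m : ℕ}
    (hint : IsIntegral ℤ ((p : ℂ) ^ m * (r : ℂ))) (h1 : MemLocalRing M (r : ℂ)) :
    ∃ y : ℤ, r = (y : ℚ) := by
  have hp0 : (p : ℂ) ≠ 0 := by exact_mod_cast hM.1.ne_zero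
  have hpq : (p : ℚ) ≠ 0 := by exact_mod_cast hM.1.ne_zero
  have h2 : IsIntegral ℤ ((p : ℚ) ^ m * r) := by
    have h3 : ((p : ℂ) ^ m * (r : ℂ)) = algebraMap ℚ ℂ ((p : ℚ) ^ m * r) := by
      rw [eq_ratCast]; push_cast; ring
    rw [h3] at hint
    exact (isIntegral_algebraMap_iff (algebraMap ℚ ℂ).injective).mp hint
  obtain ⟨z, hz⟩ := IsIntegrallyClosed.isIntegral_iff.mp h2
  rw [eq_intCast] at hz
  have h4 : (r : ℂ) = (z : ℂ) / (p : ℂ) ^ m := by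
    have : ((z : ℚ) : ℂ) = (((p : ℚ) ^ m * r : ℚ) : ℂ) := by rw [hz]
    push_cast at this
    rw [this]
    field_simp
  rw [h4] at h1
  obtain ⟨y, rfl⟩ := pow_dvd_of_memLocalRing hM m z h1
  refine ⟨y, ?_⟩
  push_cast at hz
  exact (mul_left_cancel₀ (pow_ne_zero m hpq) hz).symm

/-- **Norm argument**, trace version. -/
theorem card_le_of_units' (hM : IsPModular p M) {N : ℕ} (hN : 0 < N) {ζ : ℂ}
    (hζ : IsPrimitiveRoot ζ N) {ι : Type*} [Fintype ι] (P : ι → ℚ[X]) (m : ℕ) (s : Finset ι)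
    (hR : ∀ i ∈ s, ∀ η : ℂ, η ^ N = 1 → MemLocalRing M (aeval η (P i)))
    (hU : ∀ i ∈ s, ∀ η : ℂ, η ^ N = 1 → ¬ MemLocalIdeal M (aeval η (P i)))
    (hI : ∀ i ∈ s, ∀ η : ℂ, η ^ N = 1 → IsIntegral ℤ ((p : ℂ) ^ m * aeval η (P i)))
    (D : ℚ[X]) (hD : ∑ i, aeval ζ (P i) * conj (aeval ζ (P i)) = aeval ζ D)
    {c : ℚ} (hc : ∑ η : primitiveRoots N ℂ, aeval (η : ℂ) D =
      (Fintype.card (primitiveRoots N ℂ) : ℂ) * (c : ℂ)) :
    (s.card : ℚ) ≤ c := by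
  have := IsPModular.isPrime hM
  have : NeZero N := ⟨hN.ne'⟩
  have hpow : ∀ η : primitiveRoots N ℂ, (η : ℂ) ^ N = 1 := fun η =>
    ((mem_primitiveRoots hN).mp η.2).pow_eq_one
  have hsum : ∀ η : primitiveRoots N ℂ,
      ∑ i, aeval (η : ℂ) (P i) * conj (aeval (η : ℂ) (P i)) = aeval (η : ℂ) D := by
    intro η
    have h1 : ∀ θ : ℂ, θ ^ N = 1 → ∑ i, aeval θ (P i) * conj (aeval θ (P i)) =
        aeval θ (∑ i, P i * (P i).comp (X ^ (N - 1))) := by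
      intro θ hθ
      rw [map_sum]
      refine Finset.sum_congr rfl fun i _ => ?_
      rw [map_mul, conj_aeval hN hθ]
    rw [h1 _ (hpow η)]
    rw [h1 _ hζ.pow_eq_one] at hD
    exact aeval_eq_aeval_of_primitive hN hζ ((mem_primitiveRoots hN).mp η.2) hD
  have hmem : ∀ i ∈ s, (Fintype.card (primitiveRoots N ℂ) : ℝ) ≤
      ∑ η : primitiveRoots N ℂ, ‖aeval (η : ℂ) (P i)‖ ^ 2 := by
    intro i his
    obtain ⟨r, hr⟩ := exists_rat_prod N (P i)
    have hr1 : MemLocalRing M (r : ℂ) := by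
      rw [← hr]; exact MemLocalRing.prod _ fun η _ => hR i his η (hpow η)
    have hr2 : ¬ MemLocalIdeal M (r : ℂ) := by
      rw [← hr]
      exact not_memLocalIdeal_prod _ (fun η _ => hR i his η (hpow η))
        (fun η _ => hU i his η (hpow η))
    have hr0 : r ≠ 0 := by
      rintro rfl
      apply hr2
      rw [Rat.cast_zero]
      exact memLocalIdeal_zero
    have hr3 : IsIntegral ℤ ((p : ℂ) ^ (m * Fintype.card (primitiveRoots N ℂ)) * (r : ℂ)) := by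
      have h2 : (p : ℂ) ^ (m * Fintype.card (primitiveRoots N ℂ)) * (r : ℂ) =
          ∏ η : primitiveRoots N ℂ, ((p : ℂ) ^ m * aeval (η : ℂ) (P i)) := by
        rw [Finset.prod_mul_distrib, hr, Finset.prod_const, Finset.card_univ, pow_mul]
      rw [h2]
      exact IsIntegral.prod _ fun η _ => hI i his η (hpow η)
    have hr4 := one_le_abs_of_unit hM hr3 hr1 hr0
    have h5 : (1 : ℝ) ≤ ∏ η : primitiveRoots N ℂ, ‖aeval (η : ℂ) (P i)‖ ^ 2 := by
      rw [Finset.prod_pow, ← norm_prod, hr]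
      have h6 : ‖(r : ℂ)‖ = |(r : ℝ)| := by
        rw [← Complex.ofReal_ratCast, Complex.norm_real, Real.norm_eq_abs]
      rw [h6]
      have h7 : (1 : ℝ) ≤ |(r : ℝ)| := by exact_mod_cast hr4
      nlinarith
    have h8 := card_le_sum_of_one_le_prod Finset.univ
      (fun η : primitiveRoots N ℂ => ‖aeval (η : ℂ) (P i)‖ ^ 2) (fun η _ => by
        have h9 : aeval (η : ℂ) (P i) ≠ 0 := by
          intro h
          apply hU i his η (hpow η)
          rw [h]; exact memLocalIdeal_zero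
        positivity) h5
    rwa [Finset.card_univ] at h8
  have hpos : 0 < Fintype.card (primitiveRoots N ℂ) :=
    Fintype.card_pos_iff.mpr ⟨⟨ζ, (mem_primitiveRoots hN).mpr hζ⟩⟩
  have hreal : ((∑ η : primitiveRoots N ℂ, ∑ i, ‖aeval (η : ℂ) (P i)‖ ^ 2 : ℝ) : ℂ) =
      (((Fintype.card (primitiveRoots N ℂ) : ℝ) * (c : ℝ) : ℝ) : ℂ) := by
    have h3 : (((Fintype.card (primitiveRoots N ℂ) : ℝ) * (c : ℝ) : ℝ) : ℂ) =
        (Fintype.card (primitiveRoots N ℂ) : ℂ) * (c : ℂ) := by push_cast; rfl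
    rw [h3, ← hc]
    push_cast
    refine Finset.sum_congr rfl fun η _ => ?_
    rw [← hsum η]
    refine Finset.sum_congr rfl fun i _ => ?_
    rw [Complex.mul_conj, Complex.normSq_eq_norm_sq]
    push_cast; rfl
  have hreal' : (∑ η : primitiveRoots N ℂ, ∑ i, ‖aeval (η : ℂ) (P i)‖ ^ 2 : ℝ) =
      (Fintype.card (primitiveRoots N ℂ) : ℝ) * (c : ℝ) := by exact_mod_cast hreal
  have htot : (s.card : ℝ) * (Fintype.card (primitiveRoots N ℂ) : ℝ) ≤
      (Fintype.card (primitiveRoots N ℂ) : ℝ) * (c : ℝ) := by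
    calc (s.card : ℝ) * (Fintype.card (primitiveRoots N ℂ) : ℝ)
        = ∑ _i ∈ s, (Fintype.card (primitiveRoots N ℂ) : ℝ) := by
          rw [Finset.sum_const, nsmul_eq_mul]
      _ ≤ ∑ i ∈ s, ∑ η : primitiveRoots N ℂ, ‖aeval (η : ℂ) (P i)‖ ^ 2 :=
          Finset.sum_le_sum fun i hi => hmem i hi
      _ ≤ ∑ i : ι, ∑ η : primitiveRoots N ℂ, ‖aeval (η : ℂ) (P i)‖ ^ 2 :=
          Finset.sum_le_sum_of_subset_of_nonneg (Finset.subset_univ s) fun i _ _ =>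
            Finset.sum_nonneg fun η _ => by positivity
      _ = ∑ η : primitiveRoots N ℂ, ∑ i : ι, ‖aeval (η : ℂ) (P i)‖ ^ 2 := Finset.sum_comm
      _ = (Fintype.card (primitiveRoots N ℂ) : ℝ) * (c : ℝ) := hreal'
  have hpos' : (0 : ℝ) < (Fintype.card (primitiveRoots N ℂ) : ℝ) := by exact_mod_cast hpos
  have hfin : (s.card : ℝ) ≤ (c : ℝ) := by
    rw [mul_comm] at htot
    exact le_of_mul_le_mul_left htot hpos'
  exact_mod_cast hfin

/-! ### `2`-power roots of unity -/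

theorem isPrimitiveRoot_two_pow_iff (k : ℕ) (η : ℂ) :
    IsPrimitiveRoot η (2 ^ (k + 1)) ↔ η ^ (2 ^ k) = -1 := by
  constructor
  · intro h
    have h1 : (η ^ (2 ^ k)) ^ 2 = 1 := by rw [← pow_mul, ← pow_succ, h.pow_eq_one]
    have h2 : η ^ (2 ^ k) ≠ 1 := by
      intro h3
      have h4 := h.dvd_of_pow_eq_one _ h3
      have h5 : 2 ^ (k + 1) ≤ 2 ^ k := Nat.le_of_dvd (by positivity) h4
      rw [pow_succ] at h5
      have : 0 < 2 ^ k := by positivity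
      omega
    have h3 : (η ^ (2 ^ k) - 1) * (η ^ (2 ^ k) + 1) = 0 := by
      have : (η ^ (2 ^ k) - 1) * (η ^ (2 ^ k) + 1) = (η ^ (2 ^ k)) ^ 2 - 1 := by ring
      rw [this, h1, sub_self]
    rcases mul_eq_zero.mp h3 with h4 | h4
    · exact absurd (sub_eq_zero.mp h4) h2
    · exact eq_neg_of_add_eq_zero_left h4
  · intro h
    have h1 : ¬ η ^ 2 ^ k = 1 := by
      rw [h]; norm_num
    have h2 : η ^ 2 ^ (k + 1) = 1 := by
      rw [pow_succ, pow_mul, h]; norm_num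
    have h3 := orderOf_eq_prime_pow (p := 2) h1 h2
    rw [← h3]
    exact IsPrimitiveRoot.orderOf η

theorem sum_pow_of_not_dvd (k m : ℕ) (hm : ¬ 2 ^ k ∣ m) :
    ∑ η : primitiveRoots (2 ^ (k + 1)) ℂ, (η : ℂ) ^ m = 0 := by
  have hN : 0 < 2 ^ (k + 1) := by positivity
  obtain ⟨ζ, hζ⟩ : ∃ ζ : ℂ, IsPrimitiveRoot ζ (2 ^ (k + 1)) :=
    ⟨_, Complex.isPrimitiveRoot_exp _ hN.ne'⟩
  set ω : ℂ := ζ ^ 2 with hω
  have hω0 : ω ≠ 0 := pow_ne_zero _ (hζ.ne_zero hN.ne')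
  have hω1 : ω ^ (2 ^ k) = 1 := by
    rw [hω, ← pow_mul, mul_comm, ← pow_succ, hζ.pow_eq_one]
  have hωm : ω ^ m ≠ 1 := by
    intro h
    rw [hω, ← pow_mul] at h
    have h1 := hζ.dvd_of_pow_eq_one _ h
    rw [pow_succ, mul_comm] at h1
    exact hm (Nat.dvd_of_mul_dvd_mul_left (by norm_num) h1)
  let e : primitiveRoots (2 ^ (k + 1)) ℂ ≃ primitiveRoots (2 ^ (k + 1)) ℂ :=
    (Equiv.mulRight₀ ω hω0).subtypeEquiv (fun η => by
      rw [mem_primitiveRoots hN, mem_primitiveRoots hN, isPrimitiveRoot_two_pow_iff,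
        isPrimitiveRoot_two_pow_iff]
      have : (Equiv.mulRight₀ ω hω0) η = η * ω := rfl
      rw [this, mul_pow, hω1, mul_one])
  have h1 : ∑ η : primitiveRoots (2 ^ (k + 1)) ℂ, (η : ℂ) ^ m =
      ∑ η : primitiveRoots (2 ^ (k + 1)) ℂ, ((e η : primitiveRoots (2 ^ (k + 1)) ℂ) : ℂ) ^ m :=
    (Equiv.sum_comp e (fun η : primitiveRoots (2 ^ (k + 1)) ℂ => (η : ℂ) ^ m)).symm
  have h2 : ∑ η : primitiveRoots (2 ^ (k + 1)) ℂ,
      ((e η : primitiveRoots (2 ^ (k + 1)) ℂ) : ℂ) ^ m =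
      ω ^ m * ∑ η : primitiveRoots (2 ^ (k + 1)) ℂ, (η : ℂ) ^ m := by
    rw [Finset.mul_sum]
    refine Finset.sum_congr rfl fun η _ => ?_
    have : ((e η : primitiveRoots (2 ^ (k + 1)) ℂ) : ℂ) = (η : ℂ) * ω := rfl
    rw [this, mul_pow, mul_comm]
  rw [h2] at h1
  have h3 : (1 - ω ^ m) * ∑ η : primitiveRoots (2 ^ (k + 1)) ℂ, (η : ℂ) ^ m = 0 := by
    rw [sub_mul, one_mul, ← h1, sub_self]
  rcases mul_eq_zero.mp h3 with h4 | h4
  · exact absurd (sub_eq_zero.mp h4).symm hωm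
  · exact h4

end Cfsg.Agent.Lib.Helper23.CycNorm
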