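import Mathlib
import Cfsg.Agent.Lib.Helper23.Contrib3
import Cfsg.Agent.Lib.Helper23.CycNorm2

/-!
# `2`-blocks: the averaged diagonal contributions are odd integers
-/

set_option autoImplicit false
set_option linter.unusedSectionVars false

namespace Cfsg.Agent.Lib.Helper23.Contrib

open Cfsg Cfsg.Agent.Lib.Helper2 Cfsg.Agent.Lib.Helper6
open Cfsg.Agent.Lib.Helper23.BrauerFeit Cfsg.Agent.Lib.Helper23.RegInner
open Cfsg.Agent.Lib.Helper23.CycNorm Polynomial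
open scoped ComplexConjugate Classical

attribute [local instance] irrFintype

variable {G : Type*} [Group G] [Fintype G] {H : Subgroup G} [Fintype H] {p : ℕ}
  {M : Ideal AlgInt}

theorem rc_cast [Fact p.Prime] (b : Set (IrrCharacter H)) (χ ψ : IrrCharacter G)
    (ξ ξ' : IrrCharacter H) :
    ((rc p b χ ψ ξ ξ' : ℚ) : ℂ) = b.indicator 1 ξ * b.indicator 1 ξ' * (mu χ ξ : ℂ) *
      (mu ψ ξ' : ℂ) * ((p : ℂ) ^ blockDefect p b * gg p ξ ξ') := by
  rw [rc, gg_eq, indicator_eq_ite, indicator_eq_ite]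
  by_cases h1 : ξ ∈ b <;> by_cases h2 : ξ' ∈ b <;> simp only [h1, h2, if_true, if_false] <;>
    push_cast <;> ring

theorem rc_memLocalRing [Fact p.Prime] (hM : IsPModular p M) (b : Set (IrrCharacter H))
    (χ ψ : IrrCharacter G) (ξ ξ' : IrrCharacter H) :
    MemLocalRing M ((rc p b χ ψ ξ ξ' : ℚ) : ℂ) := by
  have := IsPModular.isPrime hM
  rw [rc_cast]
  by_cases hξ : ξ ∈ b
  · rw [pow_mul_gg]
    refine MemLocalRing.mul (MemLocalRing.mul (MemLocalRing.mul (MemLocalRing.mul ?_ ?_)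
      (memLocalRing_natCast _)) (memLocalRing_natCast _))
      (MemLocalRing.mul (tt_memLocalRing hM hξ) (kap_memLocalRing _ _))
    · rw [Set.indicator_of_mem hξ]; exact memLocalRing_one
    · by_cases hξ' : ξ' ∈ b
      · rw [Set.indicator_of_mem hξ']; exact memLocalRing_one
      · rw [Set.indicator_of_notMem hξ']; exact memLocalRing_zero
  · rw [Set.indicator_of_notMem hξ]
    simp only [zero_mul]
    exact memLocalRing_zero

theorem rc_symm [Fact p.Prime] (b : Set (IrrCharacter H)) (χ : IrrCharacter G)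
    (ξ ξ' : IrrCharacter H) : rc p b χ χ ξ ξ' = rc p b χ χ ξ' ξ := by
  rw [rc, rc, nn_symm]
  ring

theorem rc_isIntegral [Fact p.Prime] (b : Set (IrrCharacter H)) (χ ψ : IrrCharacter G)
    (ξ ξ' : IrrCharacter H) :
    IsIntegral ℤ ((p : ℂ) ^ (Nat.card H).factorization p * ((rc p b χ ψ ξ ξ' : ℚ) : ℂ)) := by
  have hp : p.Prime := Fact.out
  have hp0 : (p : ℂ) ≠ 0 := by exact_mod_cast hp.ne_zero
  have h1 : (p : ℂ) ^ (Nat.card H).factorization p * ((rc p b χ ψ ξ ξ' : ℚ) : ℂ) =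
      (((if ξ ∈ b then 1 else 0 : ℤ) * (if ξ' ∈ b then 1 else 0 : ℤ) * (mu χ ξ : ℤ) *
        (mu ψ ξ' : ℤ) * (p : ℤ) ^ blockDefect p b * nn p ξ ξ' : ℤ) : ℂ) := by
    rw [rc_cast, gg_eq, indicator_eq_ite, indicator_eq_ite]
    push_cast
    field_simp
  rw [h1]
  exact isIntegral_algebraMap

theorem aeval_PP' [Fact p.Prime] (b : Set (IrrCharacter H)) (N : ℕ)
    (idx : IrrCharacter H → ℕ) (χ ψ : IrrCharacter G) (η : ℂ) :
    aeval η (PP p b N idx χ ψ) = ∑ ξ : IrrCharacter H, ∑ ξ' : IrrCharacter H,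
      ((rc p b χ ψ ξ ξ' : ℚ) : ℂ) * η ^ (idx ξ + (N - idx ξ')) := by
  rw [PP, map_sum]
  refine Finset.sum_congr rfl fun ξ _ => ?_
  rw [map_sum]
  refine Finset.sum_congr rfl fun ξ' _ => ?_
  rw [map_mul, aeval_C, map_pow, aeval_X, eq_ratCast]

theorem EE_eq_sum_rc [Fact p.Prime] (b : Set (IrrCharacter H)) (u v : IrrCharacter H → ℂ)
    (χ ψ : IrrCharacter G) :
    EE p b u v χ ψ = ∑ ξ : IrrCharacter H, ∑ ξ' : IrrCharacter H,
      ((rc p b χ ψ ξ ξ' : ℚ) : ℂ) * (u ξ * v ξ') := by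
  rw [EE]
  refine Finset.sum_congr rfl fun ξ _ => Finset.sum_congr rfl fun ξ' _ => ?_
  rw [rc_cast]
  ring

/-- existence of exponents -/
theorem exists_idx {x : H} (hx : IsCenOf p x) {N : ℕ} (hN : 0 < N) (hxN : x ^ N = 1) {ζ : ℂ}
    (hζ : IsPrimitiveRoot ζ N) : ∃ idx : IrrCharacter H → ℕ, (∀ ξ, idx ξ < N) ∧
      (∀ ξ : IrrCharacter H, ζ ^ idx ξ = centralChar (ξ : H → ℂ) x) ∧
      (∀ ξ : IrrCharacter H, ζ ^ (N - idx ξ) = conj (centralChar (ξ : H → ℂ) x)) := by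
  have : NeZero N := ⟨hN.ne'⟩
  have hw : ∀ ξ : IrrCharacter H, centralChar (ξ : H → ℂ) x ^ N = 1 := by
    intro ξ
    have h1 := centralChar_pow_of_central ξ.2 (mem_center hx) N
    rw [hxN] at h1
    have h0 := irr_one_ne_zero ξ.2
    have : centralChar (ξ : H → ℂ) x ^ N * (ξ : H → ℂ) 1 = 1 * (ξ : H → ℂ) 1 := by
      rw [← h1, one_mul]
    exact mul_right_cancel₀ h0 this
  have hidx : ∀ ξ : IrrCharacter H, ∃ i < N, ζ ^ i = centralChar (ξ : H → ℂ) x :=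
    fun ξ => hζ.eq_pow_of_pow_eq_one (hw ξ)
  choose idx hidx1 hidx2 using hidx
  refine ⟨idx, hidx1, hidx2, fun ξ => ?_⟩
  have h1 : ‖centralChar (ξ : H → ℂ) x‖ = 1 := Complex.norm_eq_one_of_pow_eq_one (hw ξ) hN.ne'
  rw [← Complex.inv_eq_conj h1, ← hidx2 ξ]
  apply eq_inv_of_mul_eq_one_left
  rw [← pow_add, Nat.sub_add_cancel (hidx1 ξ).le, hζ.pow_eq_one]

theorem aeval_PP_zeta [Fact p.Prime] {x : H} (hx : IsCenOf p x) (b : Set (IrrCharacter H))
    {N : ℕ} {ζ : ℂ} {idx : IrrCharacter H → ℕ}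
    (h2 : ∀ ξ : IrrCharacter H, ζ ^ idx ξ = centralChar (ξ : H → ℂ) x)
    (h3 : ∀ ξ : IrrCharacter H, ζ ^ (N - idx ξ) = conj (centralChar (ξ : H → ℂ) x))
    (χ ψ : IrrCharacter G) : aeval ζ (PP p b N idx χ ψ) =
      (p : ℂ) ^ blockDefect p b * mc p b x (χ : G → ℂ) (ψ : G → ℂ) := by
  rw [aeval_PP, pow_mul_mc hx]
  congr 1
  · funext ξ; exact h2 ξ
  · funext ξ; exact h3 ξ

section two

variable (k : ℕ) (idx : IrrCharacter H → ℕ)

/-- sign of an exponent -/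
noncomputable def sg (ξ : IrrCharacter H) : ℚ := if idx ξ < 2 ^ k then 1 else -1

/-- reduced exponent -/
def rd (ξ : IrrCharacter H) : ℕ := if idx ξ < 2 ^ k then idx ξ else idx ξ - 2 ^ k

/-- the averaged diagonal contribution -/
noncomputable def av (b : Set (IrrCharacter H)) (χ : IrrCharacter G) : ℚ :=
  ∑ ξ : IrrCharacter H, ∑ ξ' : IrrCharacter H, rc 2 b χ χ ξ ξ' *
    (if rd k idx ξ = rd k idx ξ' then sg k idx ξ * sg k idx ξ' else 0)

variable {k idx}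

theorem rd_lt (hidx : ∀ ξ, idx ξ < 2 ^ (k + 1)) (ξ : IrrCharacter H) : rd k idx ξ < 2 ^ k := by
  have := hidx ξ
  rw [pow_succ] at this
  unfold rd
  split_ifs with h
  · exact h
  · omega

theorem pow_idx {η : ℂ} (hη : η ^ (2 ^ k) = -1) (ξ : IrrCharacter H) :
    η ^ idx ξ = (sg k idx ξ : ℂ) * η ^ rd k idx ξ := by
  unfold sg rd
  split_ifs with h
  · simp
  · have h1 : idx ξ = 2 ^ k + (idx ξ - 2 ^ k) := by omega
    conv_lhs => rw [h1, pow_add, hη]
    push_cast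
    ring

theorem pow_sub_idx (hidx : ∀ ξ, idx ξ < 2 ^ (k + 1)) {η : ℂ} (hη : η ^ (2 ^ k) = -1)
    (ξ : IrrCharacter H) :
    η ^ (2 ^ (k + 1) - idx ξ) = (sg k idx ξ : ℂ) * η ^ (2 ^ (k + 1) - rd k idx ξ) := by
  have h0 := hidx ξ
  rw [pow_succ] at h0
  unfold sg rd
  split_ifs with h
  · simp
  · have h1 : 2 ^ (k + 1) - (idx ξ - 2 ^ k) = 2 ^ k + (2 ^ (k + 1) - idx ξ) := by
      rw [pow_succ]; omega
    rw [h1, pow_add (a := η) (m := 2 ^ k), hη]
    push_cast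
    ring

theorem sum_pow_rd (hidx : ∀ ξ, idx ξ < 2 ^ (k + 1)) (ξ ξ' : IrrCharacter H) :
    ∑ η : primitiveRoots (2 ^ (k + 1)) ℂ, (η : ℂ) ^ (idx ξ + (2 ^ (k + 1) - idx ξ')) =
      (Fintype.card (primitiveRoots (2 ^ (k + 1)) ℂ) : ℂ) *
        (((if rd k idx ξ = rd k idx ξ' then sg k idx ξ * sg k idx ξ' else 0 : ℚ)) : ℂ) := by
  have hN : 0 < 2 ^ (k + 1) := by positivity
  have hη : ∀ η : primitiveRoots (2 ^ (k + 1)) ℂ, (η : ℂ) ^ (2 ^ k) = -1 := fun η =>
    (isPrimitiveRoot_two_pow_iff k _).mp ((mem_primitiveRoots hN).mp η.2)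
  have h1 : ∀ η : primitiveRoots (2 ^ (k + 1)) ℂ,
      (η : ℂ) ^ (idx ξ + (2 ^ (k + 1) - idx ξ')) = ((sg k idx ξ * sg k idx ξ' : ℚ) : ℂ) *
        (η : ℂ) ^ (rd k idx ξ + (2 ^ (k + 1) - rd k idx ξ')) := by
    intro η
    rw [pow_add, pow_idx (hη η), pow_sub_idx hidx (hη η),
      pow_add (a := (η : ℂ)) (m := rd k idx ξ)]
    push_cast
    ring
  rw [Finset.sum_congr rfl (fun η _ => h1 η), ← Finset.mul_sum]
  have hr := rd_lt hidx ξ
  have hr' := rd_lt hidx ξ'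
  by_cases h : rd k idx ξ = rd k idx ξ'
  · rw [if_pos h, h]
    have h2 : rd k idx ξ' + (2 ^ (k + 1) - rd k idx ξ') = 2 ^ (k + 1) := by
      rw [pow_succ]; omega
    rw [h2]
    have h3 : ∀ η : primitiveRoots (2 ^ (k + 1)) ℂ, (η : ℂ) ^ (2 ^ (k + 1)) = 1 := fun η =>
      ((mem_primitiveRoots hN).mp η.2).pow_eq_one
    rw [Finset.sum_congr rfl (fun η _ => h3 η), Finset.sum_const, Finset.card_univ, nsmul_eq_mul,
      mul_one, mul_comm]
  · rw [if_neg h, sum_pow_of_not_dvd, Rat.cast_zero, mul_zero, mul_zero]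
    rintro ⟨c, hc⟩
    rw [pow_succ] at hc
    have hpos : 0 < 2 ^ k := by positivity
    have hc1 : 1 < c := by
      by_contra hcon
      have : c ≤ 1 := by omega
      have : 2 ^ k * c ≤ 2 ^ k * 1 := Nat.mul_le_mul_left _ this
      omega
    have hc2 : c < 3 := by
      by_contra hcon
      have : 3 ≤ c := by omega
      have : 2 ^ k * 3 ≤ 2 ^ k * c := Nat.mul_le_mul_left _ this
      omega
    have hc3 : c = 2 := by omega
    subst hc3
    omega

theorem sum_aeval_PP (hidx : ∀ ξ, idx ξ < 2 ^ (k + 1)) (b : Set (IrrCharacter H))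
    (χ : IrrCharacter G) :
    ∑ η : primitiveRoots (2 ^ (k + 1)) ℂ, aeval (η : ℂ) (PP 2 b (2 ^ (k + 1)) idx χ χ) =
      (Fintype.card (primitiveRoots (2 ^ (k + 1)) ℂ) : ℂ) * ((av k idx b χ : ℚ) : ℂ) := by
  simp only [aeval_PP']
  rw [Finset.sum_comm, av]
  push_cast
  rw [Finset.mul_sum]
  refine Finset.sum_congr rfl fun ξ _ => ?_
  rw [Finset.sum_comm, Finset.mul_sum]
  refine Finset.sum_congr rfl fun ξ' _ => ?_
  rw [← Finset.mul_sum, sum_pow_rd hidx]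
  push_cast
  ring

theorem sg_sub_one (hM : IsPModular 2 M) (ξ : IrrCharacter H) :
    MemLocalIdeal M ((sg k idx ξ : ℂ) - 1) := by
  have := IsPModular.isPrime hM
  unfold sg
  split_ifs
  · simp only [Rat.cast_one, sub_self]
    exact memLocalIdeal_zero
  · have h1 : (((-1 : ℚ) : ℂ) - 1) = -((2 : ℕ) : ℂ) := by push_cast; ring
    rw [h1]
    exact MemLocalIdeal.neg (memLocalIdeal_p hM)

theorem sg_memLocalRing [M.IsPrime] (ξ : IrrCharacter H) : MemLocalRing M (sg k idx ξ : ℂ) := by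
  unfold sg
  split_ifs
  · rw [Rat.cast_one]; exact memLocalRing_one
  · have h1 : ((-1 : ℚ) : ℂ) = -1 := by push_cast; ring
    rw [h1]
    exact MemLocalRing.neg memLocalRing_one

theorem av_congr (hM : IsPModular 2 M) (b : Set (IrrCharacter H)) (χ : IrrCharacter G) :
    MemLocalIdeal M (EE 2 b (fun ξ => (sg k idx ξ : ℂ)) (fun ξ => (sg k idx ξ : ℂ)) χ χ -
      ((av k idx b χ : ℚ) : ℂ)) := by
  have := IsPModular.isPrime hM
  set f : IrrCharacter H → IrrCharacter H → ℂ := fun ξ ξ' =>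
    ((rc 2 b χ χ ξ ξ' : ℚ) : ℂ) * ((sg k idx ξ : ℂ) * (sg k idx ξ' : ℂ)) with hf
  have hfs : ∀ ξ ξ', f ξ ξ' = f ξ' ξ := by
    intro ξ ξ'
    simp only [hf]
    rw [rc_symm]
    ring
  have hfR : ∀ ξ ξ', MemLocalRing M (f ξ ξ') := fun ξ ξ' =>
    MemLocalRing.mul (rc_memLocalRing hM b χ χ ξ ξ')
      (MemLocalRing.mul (sg_memLocalRing ξ) (sg_memLocalRing ξ'))
  have h1 : EE 2 b (fun ξ => (sg k idx ξ : ℂ)) (fun ξ => (sg k idx ξ : ℂ)) χ χ -
      ((av k idx b χ : ℚ) : ℂ) = ∑ ξ : IrrCharacter H, ∑ ξ' : IrrCharacter H,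
        ((if rd k idx ξ < rd k idx ξ' then f ξ ξ' else 0) +
          (if rd k idx ξ' < rd k idx ξ then f ξ ξ' else 0)) := by
    rw [EE_eq_sum_rc, av]
    push_cast
    rw [← Finset.sum_sub_distrib]
    refine Finset.sum_congr rfl fun ξ _ => ?_
    rw [← Finset.sum_sub_distrib]
    refine Finset.sum_congr rfl fun ξ' _ => ?_
    rcases lt_trichotomy (rd k idx ξ) (rd k idx ξ') with h | h | h
    · rw [if_neg h.ne, if_pos h, if_neg (by omega)]
      simp only [hf]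
      ring
    · rw [if_pos h, if_neg (by omega), if_neg (by omega)]
      push_cast
      ring
    · rw [if_neg h.ne', if_neg (by omega), if_pos h]
      simp only [hf]
      ring
  have h2 : ∑ ξ : IrrCharacter H, ∑ ξ' : IrrCharacter H,
        ((if rd k idx ξ < rd k idx ξ' then f ξ ξ' else 0) +
          (if rd k idx ξ' < rd k idx ξ then f ξ ξ' else 0)) =
      ((2 : ℕ) : ℂ) * ∑ ξ : IrrCharacter H, ∑ ξ' : IrrCharacter H,
        (if rd k idx ξ < rd k idx ξ' then f ξ ξ' else 0) := by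
    simp only [Finset.sum_add_distrib]
    have h3 : ∑ ξ : IrrCharacter H, ∑ ξ' : IrrCharacter H,
        (if rd k idx ξ' < rd k idx ξ then f ξ ξ' else 0) =
        ∑ ξ : IrrCharacter H, ∑ ξ' : IrrCharacter H,
        (if rd k idx ξ < rd k idx ξ' then f ξ ξ' else 0) := by
      rw [Finset.sum_comm]
      refine Finset.sum_congr rfl fun ξ _ => Finset.sum_congr rfl fun ξ' _ => ?_
      rw [hfs]
    rw [h3]
    push_cast
    ring
  rw [h1, h2]
  refine MemLocalIdeal.mul_right (memLocalIdeal_p hM) ?_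
  refine MemLocalRing.sum _ fun ξ _ => MemLocalRing.sum _ fun ξ' _ => ?_
  split_ifs
  · exact hfR ξ ξ'
  · exact memLocalRing_zero

theorem av_isIntegral (b : Set (IrrCharacter H)) (χ : IrrCharacter G) :
    IsIntegral ℤ (((2 : ℕ) : ℂ) ^ (Nat.card H).factorization 2 * ((av k idx b χ : ℚ) : ℂ)) := by
  rw [av]
  push_cast
  rw [Finset.mul_sum]
  refine IsIntegral.sum _ fun ξ _ => ?_
  rw [Finset.mul_sum]
  refine IsIntegral.sum _ fun ξ' _ => ?_
  rw [← mul_assoc]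
  have h1 := rc_isIntegral (p := 2) b χ χ ξ ξ'
  push_cast at h1
  refine IsIntegral.mul h1 ?_
  have hs : ∀ ξ : IrrCharacter H, IsIntegral ℤ (sg k idx ξ : ℂ) := by
    intro ξ
    unfold sg
    split_ifs
    · rw [Rat.cast_one]; exact isIntegral_one
    · have h1 : ((-1 : ℚ) : ℂ) = -1 := by push_cast; ring
      rw [h1]
      exact isIntegral_one.neg
  split_ifs
  · rw [Rat.cast_mul]; exact (hs ξ).mul (hs ξ')
  · rw [Rat.cast_zero]; exact isIntegral_zero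

/-- the averaged diagonal contribution of a height zero character is an odd integer -/
theorem exists_odd_av (hM : IsPModular 2 M)
    {b : Set (IrrCharacter H)} {B : Set (IrrCharacter G)} (hind : IsInducedBlock M H b B)
    {χ : IrrCharacter G} (hχ : χ ∈ B) (h0 : blockHeight 2 B (χ : G → ℂ) = 0) :
    ∃ y : ℤ, Odd y ∧ av k idx b χ = (y : ℚ) := by
  have := IsPModular.isPrime hM
  have h1 := av_congr (k := k) (idx := idx) hM b χ
  obtain ⟨h2, h3⟩ := EE_unit hM hind (u := fun ξ => (sg k idx ξ : ℂ))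
    (v := fun ξ => (sg k idx ξ : ℂ)) (fun ξ => sg_sub_one hM ξ) (fun ξ => sg_sub_one hM ξ)
    hχ h0 hχ h0
  have h4 : MemLocalRing M ((av k idx b χ : ℚ) : ℂ) := (memLocalRing_congr h1).mp h2
  have h5 : ¬ MemLocalIdeal M ((av k idx b χ : ℚ) : ℂ) := fun h => h3 ((memLocalIdeal_congr h1).mpr h)
  obtain ⟨y, hy⟩ := exists_int_of_memLocalRing hM (av_isIntegral b χ) h4
  refine ⟨y, ?_, hy⟩
  rw [hy] at h5
  rw [← Int.not_even_iff_odd, even_iff_two_dvd]
  intro hdvd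
  apply h5
  have h6 : (((y : ℚ)) : ℂ) = (y : ℂ) := by push_cast; rfl
  rw [h6]
  exact (memLocalIdeal_intCast_iff hM y).mpr (by exact_mod_cast hdvd)

end two

end Cfsg.Agent.Lib.Helper23.Contrib
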