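import Mathlib
import Cfsg.Agent.Lib.Helper23.Contrib4

/-!
# `2`-blocks: bounds for the number of characters of height zero
-/

set_option autoImplicit false
set_option linter.unusedSectionVars false

namespace Cfsg.Agent.Lib.Helper23.Contrib

open Cfsg Cfsg.Agent.Lib.Helper2 Cfsg.Agent.Lib.Helper6
open Cfsg.Agent.Lib.Helper23.BrauerFeit Cfsg.Agent.Lib.Helper23.RegInner
open Cfsg.Agent.Lib.Helper23.CycNorm Polynomial
open scoped ComplexConjugate Classical

attribute [local instance] irrFintype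

variable {G : Type*} [Group G] [Fintype G] {H : Subgroup G} [Fintype H]
  {M : Ideal AlgInt}

theorem sum_mc_sq_row' {p : ℕ} (hM : IsPModular p M) {x : H} (hx : IsCenOf p x)
    {b : Set (IrrCharacter H)} {B : Set (IrrCharacter G)} (hind : IsInducedBlock M H b B)
    (χ : G → ℂ) :
    ∑ ψ : IrrCharacter G,
      (mc p b x χ (ψ : G → ℂ) * conj (mc p b x χ (ψ : G → ℂ))) = mc p b x χ χ := by
  rw [← sum_mc_sq_row hM hx hind χ]
  refine Finset.sum_congr rfl fun ψ _ => ?_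
  by_cases hψ : ψ ∈ B
  · rw [Set.indicator_of_mem hψ]; simp
  · rw [mc_eq_zero_right hM hx hind _ hψ]; simp

theorem sum_mc_diag' {p : ℕ} [Fact p.Prime] (hM : IsPModular p M) {x : H} (hx : IsCenOf p x)
    {b : Set (IrrCharacter H)} {B : Set (IrrCharacter G)} (hind : IsInducedBlock M H b B) :
    ∑ χ : IrrCharacter G, mc p b x (χ : G → ℂ) (χ : G → ℂ) = (blockRank p b : ℂ) := by
  rw [← sum_mc_diag hM hx hind]
  refine Finset.sum_congr rfl fun χ _ => ?_
  by_cases hχ : χ ∈ B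
  · rw [Set.indicator_of_mem hχ]; simp
  · rw [mc_eq_zero_left hM hx hind hχ]; simp

theorem two_block_bounds (hM : IsPModular 2 M) {x : H} (hx : IsCenOf 2 x)
    {b : Set (IrrCharacter H)} {B : Set (IrrCharacter G)} (hind : IsInducedBlock M H b B)
    (S : Finset (IrrCharacter G)) (hS : ∀ χ ∈ S, χ ∈ B ∧ blockHeight 2 B (χ : G → ℂ) = 0)
    (hne : S.Nonempty) :
    ∃ z : ℕ, Odd z ∧ S.card ≤ 2 ^ blockDefect 2 b * z ∧
      S.card * z ≤ 2 ^ blockDefect 2 b * blockRank 2 b := by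
  have := IsPModular.isPrime hM
  obtain ⟨k, hk⟩ := hx.pow
  have hN : 0 < 2 ^ (k + 1) := by positivity
  set ζ : ℂ := Complex.exp (2 * Real.pi * Complex.I / ((2 ^ (k + 1) : ℕ) : ℂ)) with hζdef
  have hζ : IsPrimitiveRoot ζ (2 ^ (k + 1)) := Complex.isPrimitiveRoot_exp _ hN.ne'
  have hxN : x ^ (2 ^ (k + 1)) = 1 := by
    apply Subtype.ext
    rw [Subgroup.coe_pow, pow_succ, pow_mul, ← hk, pow_orderOf_eq_one, one_pow]; rfl
  obtain ⟨idx, hidx1, hidx2, hidx3⟩ := exists_idx hx hN hxN hζ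
  have hz : ∀ χ ψ : IrrCharacter G, aeval ζ (PP 2 b (2 ^ (k + 1)) idx χ ψ) =
      ((2 : ℕ) : ℂ) ^ blockDefect 2 b * mc 2 b x (χ : G → ℂ) (ψ : G → ℂ) :=
    fun χ ψ => aeval_PP_zeta hx b hidx2 hidx3 χ ψ
  have hroot : ∀ η : ℂ, η ^ (2 ^ (k + 1)) = 1 → ∀ i : ℕ, MemLocalIdeal M (η ^ i - 1) := by
    intro η hη i
    apply sub_one_memLocalIdeal_of_pow_eq_one hM (k := k + 1)
    rw [← pow_mul, mul_comm, pow_mul, hη, one_pow]
  have hint : ∀ η : ℂ, η ^ (2 ^ (k + 1)) = 1 → ∀ i : ℕ, IsIntegral ℤ (η ^ i) := by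
    intro η hη i
    apply IsIntegral.pow
    apply IsIntegral.of_pow hN
    rw [hη]
    exact isIntegral_one
  set q := blockDefect 2 b with hq
  have hφ : (Fintype.card (primitiveRoots (2 ^ (k + 1)) ℂ) : ℂ) ≠ 0 := by
    have : 0 < Fintype.card (primitiveRoots (2 ^ (k + 1)) ℂ) :=
      Fintype.card_pos_iff.mpr ⟨⟨ζ, (mem_primitiveRoots hN).mpr hζ⟩⟩
    exact_mod_cast this.ne'
  -- claim B
  have keyB : ∀ (χ : IrrCharacter G) (s : Finset (IrrCharacter G)),
      (∀ ψ ∈ s, (χ ∈ B ∧ blockHeight 2 B (χ : G → ℂ) = 0) ∧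
        (ψ ∈ B ∧ blockHeight 2 B (ψ : G → ℂ) = 0)) →
      (s.card : ℚ) ≤ (2 : ℚ) ^ q * av k idx b χ := by
    intro χ s hs
    refine card_le_of_units' hM hN hζ (fun ψ : IrrCharacter G => PP 2 b (2 ^ (k + 1)) idx χ ψ)
      ((Nat.card H).factorization 2) s ?_ ?_ ?_
      (C ((2 : ℚ) ^ q) * PP 2 b (2 ^ (k + 1)) idx χ χ) ?_ ?_
    · intro ψ hψ η hη
      rw [aeval_PP]
      exact (EE_unit hM hind (fun ξ => hroot η hη _) (fun ξ => hroot η hη _)
        (hs ψ hψ).1.1 (hs ψ hψ).1.2 (hs ψ hψ).2.1 (hs ψ hψ).2.2).1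
    · intro ψ hψ η hη
      rw [aeval_PP]
      exact (EE_unit hM hind (fun ξ => hroot η hη _) (fun ξ => hroot η hη _)
        (hs ψ hψ).1.1 (hs ψ hψ).1.2 (hs ψ hψ).2.1 (hs ψ hψ).2.2).2
    · intro ψ _ η hη
      rw [aeval_PP]
      exact isIntegral_EE b (fun ξ => hint η hη _) (fun ξ => hint η hη _) _ _
    · simp only [hz]
      rw [map_mul, aeval_C, hz, eq_ratCast, ← sum_mc_sq_row' hM hx hind (χ : G → ℂ)]
      push_cast
      rw [Finset.mul_sum, Finset.mul_sum]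
      refine Finset.sum_congr rfl fun ψ _ => ?_
      rw [map_mul, map_pow]
      have : conj (2 : ℂ) = 2 := Complex.conj_ofNat 2
      rw [this]
      ring
    · simp only [map_mul, aeval_C, eq_ratCast]
      rw [← Finset.mul_sum, sum_aeval_PP hidx1]
      push_cast
      ring
  -- claim C
  have keyC : ∑ χ : IrrCharacter G, av k idx b χ = (2 : ℚ) ^ q * (blockRank 2 b : ℚ) := by
    have h1 : aeval ζ (∑ χ : IrrCharacter G, PP 2 b (2 ^ (k + 1)) idx χ χ) =
        (((2 : ℚ) ^ q * (blockRank 2 b : ℚ) : ℚ) : ℂ) := by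
      rw [map_sum]
      simp only [hz]
      rw [← Finset.mul_sum, sum_mc_diag' hM hx hind]
      push_cast
      rfl
    have h2 : ∀ η : primitiveRoots (2 ^ (k + 1)) ℂ,
        ∑ χ : IrrCharacter G, aeval (η : ℂ) (PP 2 b (2 ^ (k + 1)) idx χ χ) =
        (((2 : ℚ) ^ q * (blockRank 2 b : ℚ) : ℚ) : ℂ) := by
      intro η
      rw [← map_sum]
      exact aeval_eq_of_primitive hN hζ ((mem_primitiveRoots hN).mp η.2) h1
    have h3 : (Fintype.card (primitiveRoots (2 ^ (k + 1)) ℂ) : ℂ) *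
        ((∑ χ : IrrCharacter G, av k idx b χ : ℚ) : ℂ) =
        (Fintype.card (primitiveRoots (2 ^ (k + 1)) ℂ) : ℂ) *
        (((2 : ℚ) ^ q * (blockRank 2 b : ℚ) : ℚ) : ℂ) := by
      rw [Rat.cast_sum, Finset.mul_sum]
      simp only [← sum_aeval_PP hidx1]
      rw [Finset.sum_comm, Finset.sum_congr rfl (fun η _ => h2 η), Finset.sum_const,
        Finset.card_univ, nsmul_eq_mul]
    have h4 := mul_left_cancel₀ hφ h3
    exact_mod_cast h4
  have hnonneg : ∀ χ : IrrCharacter G, 0 ≤ av k idx b χ := by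
    intro χ
    have h1 := keyB χ ∅ (by simp)
    rw [Finset.card_empty, Nat.cast_zero] at h1
    have h2 : (0 : ℚ) < (2 : ℚ) ^ q := by positivity
    exact nonneg_of_mul_nonneg_right h1 h2
  obtain ⟨χ₀, hχ₀, hmin⟩ := Finset.exists_min_image S (fun χ => av k idx b χ) hne
  obtain ⟨y, hyodd, hy⟩ := exists_odd_av (k := k) (idx := idx) hM hind (hS χ₀ hχ₀).1 (hS χ₀ hχ₀).2
  have hB := keyB χ₀ S (fun ψ hψ => ⟨hS χ₀ hχ₀, hS ψ hψ⟩)
  rw [hy] at hB
  have hcard : 0 < S.card := Finset.card_pos.mpr hne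
  have hypos : 0 < y := by
    by_contra hcon
    have h1 : (y : ℚ) ≤ 0 := by exact_mod_cast (not_lt.mp hcon)
    have h2 : (0 : ℚ) < (2 : ℚ) ^ q := by positivity
    have h3 : (2 : ℚ) ^ q * (y : ℚ) ≤ 0 := mul_nonpos_of_nonneg_of_nonpos h2.le h1
    have h4 : (0 : ℚ) < (S.card : ℚ) := by exact_mod_cast hcard
    linarith
  obtain ⟨z, rfl⟩ : ∃ z : ℕ, y = (z : ℤ) := ⟨y.toNat, (Int.toNat_of_nonneg hypos.le).symm⟩
  refine ⟨z, by exact_mod_cast hyodd, ?_, ?_⟩
  · have : (S.card : ℚ) ≤ ((2 ^ q * z : ℕ) : ℚ) := by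
      push_cast
      exact_mod_cast hB
    exact_mod_cast this
  · have h1 : (S.card : ℚ) * (z : ℚ) ≤ ∑ χ ∈ S, av k idx b χ := by
      rw [← nsmul_eq_mul]
      apply Finset.card_nsmul_le_sum
      intro χ hχ
      have := hmin χ hχ
      simp only [hy] at this
      exact_mod_cast this
    have h2 : ∑ χ ∈ S, av k idx b χ ≤ ∑ χ : IrrCharacter G, av k idx b χ :=
      Finset.sum_le_sum_of_subset_of_nonneg (Finset.subset_univ S) fun χ _ _ => hnonneg χ
    rw [keyC] at h2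
    have h3 : ((S.card * z : ℕ) : ℚ) ≤ ((2 ^ q * blockRank 2 b : ℕ) : ℚ) := by
      push_cast
      linarith
    exact_mod_cast h3

theorem arith_bounds (K Q l z : ℕ) (hz : Odd z) (h1 : K ≤ Q * z) (h2 : K * z ≤ Q * l) :
    (Odd (Nat.sqrt l) → K ≤ Nat.sqrt l * Q) ∧
      (¬ Odd (Nat.sqrt l) → (Nat.sqrt l + 1) * K ≤ l * Q) := by
  set s := Nat.sqrt l with hs
  have hs1 : s * s ≤ l := Nat.sqrt_le l
  have hs2 : l < (s + 1) * (s + 1) := Nat.lt_succ_sqrt l
  constructor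
  · intro hodd
    by_cases hzs : z ≤ s
    · calc K ≤ Q * z := h1
        _ ≤ Q * s := Nat.mul_le_mul_left _ hzs
        _ = s * Q := mul_comm _ _
    · have h3 : s + 2 ≤ z := by
        obtain ⟨a, ha⟩ := hz
        obtain ⟨c, hc⟩ := hodd
        omega
      have h4 : K * (s + 2) ≤ (s * Q) * (s + 2) := by
        calc K * (s + 2) ≤ K * z := Nat.mul_le_mul_left _ h3
          _ ≤ Q * l := h2
          _ ≤ Q * (s * (s + 2)) := Nat.mul_le_mul_left _ (by nlinarith)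
          _ = (s * Q) * (s + 2) := by ring
      exact Nat.le_of_mul_le_mul_right h4 (by omega)
  · intro hodd
    rw [Nat.not_odd_iff_even] at hodd
    by_cases hzs : z ≤ s
    · have h3 : z + 1 ≤ s := by
        obtain ⟨a, ha⟩ := hz
        obtain ⟨c, hc⟩ := hodd
        omega
      calc (s + 1) * K ≤ (s + 1) * (Q * z) := Nat.mul_le_mul_left _ h1
        _ = Q * ((s + 1) * z) := by ring
        _ ≤ Q * l := Nat.mul_le_mul_left _ (by nlinarith)
        _ = l * Q := mul_comm _ _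
    · calc (s + 1) * K ≤ z * K := Nat.mul_le_mul_right _ (by omega)
        _ = K * z := mul_comm _ _
        _ ≤ Q * l := h2
        _ = l * Q := mul_comm _ _

end Cfsg.Agent.Lib.Helper23.Contrib
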