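import Mathlib
import Cfsg.Agent.Lib.Helper23.CycNorm2
import Cfsg.Agent.Lib.Helper6.Height

/-!
# Weighted norm arguments and the integral basis of a `2`-power cyclotomic field
-/

set_option autoImplicit false

namespace Cfsg.Agent.Lib.Helper23.CycNorm

open Cfsg Cfsg.Agent.Lib.Helper6 Polynomial
open scoped ComplexConjugate

variable {M : Ideal AlgInt} {p : ℕ}

/-- single polynomial version of the norm argument -/
theorem card_le_sum_normSq (hM : IsPModular p M) {N : ℕ} (hN : 0 < N) (P : ℚ[X]) (m : ℕ)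
    (hR : ∀ η : primitiveRoots N ℂ, MemLocalRing M (aeval (η : ℂ) P))
    (hU : ∀ η : primitiveRoots N ℂ, ¬ MemLocalIdeal M (aeval (η : ℂ) P))
    (hI : ∀ η : primitiveRoots N ℂ, IsIntegral ℤ ((p : ℂ) ^ m * aeval (η : ℂ) P)) :
    (Fintype.card (primitiveRoots N ℂ) : ℝ) ≤
      ∑ η : primitiveRoots N ℂ, ‖aeval (η : ℂ) P‖ ^ 2 := by
  have := IsPModular.isPrime hM
  have : NeZero N := ⟨hN.ne'⟩
  obtain ⟨r, hr⟩ := exists_rat_prod N P
  have hr1 : MemLocalRing M (r : ℂ) := by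
    rw [← hr]; exact MemLocalRing.prod _ fun η _ => hR η
  have hr2 : ¬ MemLocalIdeal M (r : ℂ) := by
    rw [← hr]
    exact not_memLocalIdeal_prod _ (fun η _ => hR η) (fun η _ => hU η)
  have hr0 : r ≠ 0 := by
    rintro rfl
    apply hr2
    rw [Rat.cast_zero]
    exact memLocalIdeal_zero
  have hr3 : IsIntegral ℤ ((p : ℂ) ^ (m * Fintype.card (primitiveRoots N ℂ)) * (r : ℂ)) := by
    have h2 : (p : ℂ) ^ (m * Fintype.card (primitiveRoots N ℂ)) * (r : ℂ) =
        ∏ η : primitiveRoots N ℂ, ((p : ℂ) ^ m * aeval (η : ℂ) P) := by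
      rw [Finset.prod_mul_distrib, hr, Finset.prod_const, Finset.card_univ, pow_mul]
    rw [h2]
    exact IsIntegral.prod _ fun η _ => hI η
  have hr4 := one_le_abs_of_unit hM hr3 hr1 hr0
  have h5 : (1 : ℝ) ≤ ∏ η : primitiveRoots N ℂ, ‖aeval (η : ℂ) P‖ ^ 2 := by
    rw [Finset.prod_pow, ← norm_prod, hr]
    have h6 : ‖(r : ℂ)‖ = |(r : ℝ)| := by
      rw [← Complex.ofReal_ratCast, Complex.norm_real, Real.norm_eq_abs]
    rw [h6]
    have h7 : (1 : ℝ) ≤ |(r : ℝ)| := by exact_mod_cast hr4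
    nlinarith
  have h8 := card_le_sum_of_one_le_prod Finset.univ
    (fun η : primitiveRoots N ℂ => ‖aeval (η : ℂ) P‖ ^ 2) (fun η _ => by
      have h9 : aeval (η : ℂ) P ≠ 0 := by
        intro h
        apply hU η
        rw [h]; exact memLocalIdeal_zero
      positivity) h5
  rwa [Finset.card_univ] at h8

/-- **Norm argument**, weighted trace version. -/
theorem sum_weights_le (hM : IsPModular p M) {N : ℕ} (hN : 0 < N) {ζ : ℂ}
    (hζ : IsPrimitiveRoot ζ N) {ι : Type*} [Fintype ι] (P : ι → ℚ[X]) (m : ℕ) (s : Finset ι)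
    (w : ι → ℕ)
    (hR : ∀ i ∈ s, ∀ η : primitiveRoots N ℂ,
      MemLocalRing M (aeval (η : ℂ) (P i) / (p : ℂ) ^ w i))
    (hU : ∀ i ∈ s, ∀ η : primitiveRoots N ℂ,
      ¬ MemLocalIdeal M (aeval (η : ℂ) (P i) / (p : ℂ) ^ w i))
    (hI : ∀ i ∈ s, ∀ η : primitiveRoots N ℂ, IsIntegral ℤ ((p : ℂ) ^ m * aeval (η : ℂ) (P i)))
    (D : ℚ[X]) (hD : ∑ i, aeval ζ (P i) * conj (aeval ζ (P i)) = aeval ζ D)
    {c : ℚ} (hc : ∑ η : primitiveRoots N ℂ, aeval (η : ℂ) D =
      (Fintype.card (primitiveRoots N ℂ) : ℂ) * (c : ℂ)) :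
    ∑ i ∈ s, ((p : ℚ) ^ w i) ^ 2 ≤ c := by
  have := IsPModular.isPrime hM
  have : NeZero N := ⟨hN.ne'⟩
  have hp0 : (p : ℂ) ≠ 0 := by exact_mod_cast hM.1.ne_zero
  have hpR : (0 : ℝ) < (p : ℝ) := by exact_mod_cast hM.1.pos
  have hpow : ∀ η : primitiveRoots N ℂ, (η : ℂ) ^ N = 1 := fun η =>
    ((mem_primitiveRoots hN).mp η.2).pow_eq_one
  have hsum : ∀ η : primitiveRoots N ℂ,
      ∑ i, aeval (η : ℂ) (P i) * conj (aeval (η : ℂ) (P i)) = aeval (η : ℂ) D := by
    intro η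
    have h1 : ∀ θ : ℂ, θ ^ N = 1 → ∑ i, aeval θ (P i) * conj (aeval θ (P i)) =
        aeval θ (∑ i, P i * (P i).comp (X ^ (N - 1))) := by
      intro θ hθ
      rw [map_sum]
      refine Finset.sum_congr rfl fun i _ => ?_
      rw [map_mul, conj_aeval hN hθ]
    rw [h1 _ (hpow η)]
    rw [h1 _ hζ.pow_eq_one] at hD
    exact aeval_eq_aeval_of_primitive hN hζ ((mem_primitiveRoots hN).mp η.2) hD
  have hmem : ∀ i ∈ s, (Fintype.card (primitiveRoots N ℂ) : ℝ) * ((p : ℝ) ^ w i) ^ 2 ≤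
      ∑ η : primitiveRoots N ℂ, ‖aeval (η : ℂ) (P i)‖ ^ 2 := by
    intro i his
    have hev : ∀ η : ℂ, aeval η (C (1 / (p : ℚ) ^ w i) * P i) = aeval η (P i) / (p : ℂ) ^ w i := by
      intro η
      rw [map_mul, aeval_C, eq_ratCast]
      push_cast
      field_simp
    have h1 := card_le_sum_normSq hM hN (C (1 / (p : ℚ) ^ w i) * P i) (m + w i)
      (fun η => by rw [hev]; exact hR i his η) (fun η => by rw [hev]; exact hU i his η)
      (fun η => by
        rw [hev]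
        have : (p : ℂ) ^ (m + w i) * (aeval (η : ℂ) (P i) / (p : ℂ) ^ w i) =
            (p : ℂ) ^ m * aeval (η : ℂ) (P i) := by
          rw [pow_add]; field_simp
        rw [this]
        exact hI i his η)
    have h2 : ∑ η : primitiveRoots N ℂ, ‖aeval (η : ℂ) (C (1 / (p : ℚ) ^ w i) * P i)‖ ^ 2 =
        (∑ η : primitiveRoots N ℂ, ‖aeval (η : ℂ) (P i)‖ ^ 2) / ((p : ℝ) ^ w i) ^ 2 := by
      rw [Finset.sum_div]
      refine Finset.sum_congr rfl fun η _ => ?_
      rw [hev, norm_div, norm_pow, Complex.norm_natCast, div_pow]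
    rw [h2, le_div_iff₀ (by positivity)] at h1
    exact h1
  have hpos : 0 < Fintype.card (primitiveRoots N ℂ) :=
    Fintype.card_pos_iff.mpr ⟨⟨ζ, (mem_primitiveRoots hN).mpr hζ⟩⟩
  have hreal : ((∑ η : primitiveRoots N ℂ, ∑ i, ‖aeval (η : ℂ) (P i)‖ ^ 2 : ℝ) : ℂ) =
      (((Fintype.card (primitiveRoots N ℂ) : ℝ) * (c : ℝ) : ℝ) : ℂ) := by
    have h3 : (((Fintype.card (primitiveRoots N ℂ) : ℝ) * (c : ℝ) : ℝ) : ℂ) =
        (Fintype.card (primitiveRoots N ℂ) : ℂ) * (c : ℂ) := by push_cast; rfl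
    rw [h3, ← hc]
    push_cast
    refine Finset.sum_congr rfl fun η _ => ?_
    rw [← hsum η]
    refine Finset.sum_congr rfl fun i _ => ?_
    rw [Complex.mul_conj, Complex.normSq_eq_norm_sq]
    push_cast; rfl
  have hreal' : (∑ η : primitiveRoots N ℂ, ∑ i, ‖aeval (η : ℂ) (P i)‖ ^ 2 : ℝ) =
      (Fintype.card (primitiveRoots N ℂ) : ℝ) * (c : ℝ) := by exact_mod_cast hreal
  have htot : (Fintype.card (primitiveRoots N ℂ) : ℝ) * (∑ i ∈ s, ((p : ℝ) ^ w i) ^ 2) ≤
      (Fintype.card (primitiveRoots N ℂ) : ℝ) * (c : ℝ) := by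
    calc (Fintype.card (primitiveRoots N ℂ) : ℝ) * (∑ i ∈ s, ((p : ℝ) ^ w i) ^ 2)
        = ∑ i ∈ s, (Fintype.card (primitiveRoots N ℂ) : ℝ) * ((p : ℝ) ^ w i) ^ 2 := by
          rw [Finset.mul_sum]
      _ ≤ ∑ i ∈ s, ∑ η : primitiveRoots N ℂ, ‖aeval (η : ℂ) (P i)‖ ^ 2 :=
          Finset.sum_le_sum fun i hi => hmem i hi
      _ ≤ ∑ i : ι, ∑ η : primitiveRoots N ℂ, ‖aeval (η : ℂ) (P i)‖ ^ 2 :=
          Finset.sum_le_sum_of_subset_of_nonneg (Finset.subset_univ s) fun i _ _ =>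
            Finset.sum_nonneg fun η _ => by positivity
      _ = ∑ η : primitiveRoots N ℂ, ∑ i : ι, ‖aeval (η : ℂ) (P i)‖ ^ 2 := Finset.sum_comm
      _ = (Fintype.card (primitiveRoots N ℂ) : ℝ) * (c : ℝ) := hreal'
  have hpos' : (0 : ℝ) < (Fintype.card (primitiveRoots N ℂ) : ℝ) := by exact_mod_cast hpos
  have hfin : (∑ i ∈ s, ((p : ℝ) ^ w i) ^ 2) ≤ (c : ℝ) := le_of_mul_le_mul_left htot hpos'
  have hfin' : (((∑ i ∈ s, ((p : ℚ) ^ w i) ^ 2 : ℚ)) : ℝ) ≤ (c : ℝ) := by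
    push_cast
    exact hfin
  exact_mod_cast hfin'

theorem card_lt_sum_of_one_lt_prod {ι : Type*} (s : Finset ι) (z : ι → ℝ)
    (hz : ∀ i ∈ s, 0 < z i) (h : 1 < ∏ i ∈ s, z i) : (s.card : ℝ) < ∑ i ∈ s, z i := by
  have h1 : ∀ i ∈ s, Real.log (z i) ≤ z i - 1 := fun i hi => Real.log_le_sub_one_of_pos (hz i hi)
  have h2 : Real.log (∏ i ∈ s, z i) = ∑ i ∈ s, Real.log (z i) :=
    Real.log_prod (fun i hi => (hz i hi).ne')
  have h3 : 0 < Real.log (∏ i ∈ s, z i) := Real.log_pos h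
  have h4 : ∑ i ∈ s, Real.log (z i) ≤ ∑ i ∈ s, (z i - 1) := Finset.sum_le_sum h1
  rw [Finset.sum_sub_distrib, Finset.sum_const, nsmul_eq_mul, mul_one] at h4
  linarith

/-- a totally positive element all of whose conjugates lie in the maximal ideal has
average trace bigger than one -/
theorem one_lt_of_ideal (hM : IsPModular p M) {N : ℕ} (hN : 0 < N) (P : ℚ[X]) (m : ℕ)
    (z : primitiveRoots N ℂ → ℝ) (hz : ∀ η, 0 < z η)
    (hPz : ∀ η : primitiveRoots N ℂ, aeval (η : ℂ) P = (z η : ℂ))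
    (hne : Nonempty (primitiveRoots N ℂ))
    (hR : ∀ η : primitiveRoots N ℂ, MemLocalIdeal M (aeval (η : ℂ) P))
    (hI : ∀ η : primitiveRoots N ℂ, IsIntegral ℤ ((p : ℂ) ^ m * aeval (η : ℂ) P))
    {c : ℚ} (hc : ∑ η : primitiveRoots N ℂ, aeval (η : ℂ) P =
      (Fintype.card (primitiveRoots N ℂ) : ℂ) * (c : ℂ)) : 1 < c := by
  have := IsPModular.isPrime hM
  have : NeZero N := ⟨hN.ne'⟩
  obtain ⟨r, hr⟩ := exists_rat_prod N P
  obtain ⟨η₀⟩ := hne
  have hr1 : MemLocalIdeal M (r : ℂ) := by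
    rw [← hr, ← Finset.mul_prod_erase Finset.univ _ (Finset.mem_univ η₀)]
    exact MemLocalIdeal.mul_right (hR η₀)
      (MemLocalRing.prod _ fun η _ => MemLocalIdeal.memLocalRing (hR η))
  have hr3 : IsIntegral ℤ ((p : ℂ) ^ (m * Fintype.card (primitiveRoots N ℂ)) * (r : ℂ)) := by
    have h2 : (p : ℂ) ^ (m * Fintype.card (primitiveRoots N ℂ)) * (r : ℂ) =
        ∏ η : primitiveRoots N ℂ, ((p : ℂ) ^ m * aeval (η : ℂ) P) := by
      rw [Finset.prod_mul_distrib, hr, Finset.prod_const, Finset.card_univ, pow_mul]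
    rw [h2]
    exact IsIntegral.prod _ fun η _ => hI η
  obtain ⟨y, hy⟩ := exists_int_of_memLocalRing hM hr3 (MemLocalIdeal.memLocalRing hr1)
  have hy1 : (p : ℤ) ∣ y := by
    apply (memLocalIdeal_intCast_iff hM y).mp
    have : ((y : ℤ) : ℂ) = (r : ℂ) := by rw [hy]; push_cast; rfl
    rw [this]; exact hr1
  have hprod : ((∏ η : primitiveRoots N ℂ, z η : ℝ) : ℂ) = ((y : ℝ) : ℂ) := by
    push_cast
    rw [← Finset.prod_congr rfl (fun η _ => hPz η), hr, hy]
    push_cast; rfl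
  have hprod' : (∏ η : primitiveRoots N ℂ, z η : ℝ) = (y : ℝ) := by exact_mod_cast hprod
  have hpos : (0 : ℝ) < ∏ η : primitiveRoots N ℂ, z η := Finset.prod_pos fun η _ => hz η
  have hy2 : 0 < y := by
    rw [hprod'] at hpos
    exact_mod_cast hpos
  have hy3 : (p : ℤ) ≤ y := Int.le_of_dvd hy2 hy1
  have hy4 : (2 : ℤ) ≤ y := by
    have : (2 : ℤ) ≤ (p : ℤ) := by exact_mod_cast hM.1.two_le
    omega
  have h1 : (1 : ℝ) < ∏ η : primitiveRoots N ℂ, z η := by
    rw [hprod']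
    have : ((2 : ℤ) : ℝ) ≤ (y : ℝ) := by exact_mod_cast hy4
    push_cast at this
    linarith
  have h2 := card_lt_sum_of_one_lt_prod Finset.univ z (fun η _ => hz η) h1
  rw [Finset.card_univ] at h2
  have h3 : ((∑ η : primitiveRoots N ℂ, z η : ℝ) : ℂ) =
      (((Fintype.card (primitiveRoots N ℂ) : ℝ) * (c : ℝ) : ℝ) : ℂ) := by
    push_cast
    rw [← Finset.sum_congr rfl (fun η _ => hPz η), hc]
  have h3' : (∑ η : primitiveRoots N ℂ, z η : ℝ) =
      (Fintype.card (primitiveRoots N ℂ) : ℝ) * (c : ℝ) := by exact_mod_cast h3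
  rw [h3'] at h2
  have hcard : (0 : ℝ) < (Fintype.card (primitiveRoots N ℂ) : ℝ) := by
    have : 0 < Fintype.card (primitiveRoots N ℂ) := Fintype.card_pos_iff.mpr ⟨η₀⟩
    exact_mod_cast this
  have h4 : (1 : ℝ) < (c : ℝ) := by
    by_contra hcon
    have : (c : ℝ) ≤ 1 := not_lt.mp hcon
    nlinarith
  exact_mod_cast h4

/-! ### the integral basis -/

theorem two_div_pow (hM : IsPModular 2 M) {k : ℕ} {η : ℂ} (hη : η ^ (2 ^ k) = -1) :
    MemLocalRing M (2 / (η - 1) ^ (2 ^ k)) := by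
  have := IsPModular.isPrime hM
  have hint : IsIntegral ℤ η := by
    apply IsIntegral.of_pow (n := 2 ^ k) (by positivity)
    rw [hη]
    exact isIntegral_one.neg
  have hπM : MemLocalIdeal M (η - 1) := by
    apply sub_one_memLocalIdeal_of_pow_eq_one hM (k := k + 1)
    rw [pow_succ, pow_mul, hη]; norm_num
  obtain ⟨r, hr⟩ := exists_add_pow_prime_pow_eq Nat.prime_two
    (⟨η - 1, hint.sub isIntegral_one⟩ : AlgInt) 1 k
  have hr' := congrArg (fun a : AlgInt => (a : ℂ)) hr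
  push_cast at hr'
  rw [sub_add_cancel, hη, one_pow] at hr'
  have e2 : ((2 : AlgInt) : ℂ) = 2 := rfl
  rw [e2] at hr'
  set u : ℂ := 1 + (η - 1) * (r : ℂ) with hu
  have hu1 : MemLocalIdeal M (u - 1) := by
    have : u - 1 = (η - 1) * (r : ℂ) := by rw [hu]; ring
    rw [this]
    exact MemLocalIdeal.mul_right hπM (memLocalRing_coe r)
  have huR : MemLocalRing M u := (memLocalRing_congr hu1).mpr memLocalRing_one
  have huU : ¬ MemLocalIdeal M u := fun h => not_memLocalIdeal_one ((memLocalIdeal_congr hu1).mp h)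
  have hu0 : u ≠ 0 := by
    intro h
    apply huU
    rw [h]; exact memLocalIdeal_zero
  have h1 : (η - 1) ^ (2 ^ k) = -2 * u := by
    rw [hu]
    linear_combination -hr'
  rw [h1]
  have h2 : (2 : ℂ) / (-2 * u) = -u⁻¹ := by
    field_simp
  rw [h2]
  exact MemLocalRing.neg (MemLocalRing.inv huR huU)

theorem even_coeff (hM : IsPModular 2 M) {k : ℕ} {η : ℂ} (hη : η ^ (2 ^ k) = -1) (P : ℤ[X])
    (hdeg : P.natDegree < 2 ^ k) (h : MemLocalRing M (aeval η P / 2)) : (C 2 : ℤ[X]) ∣ P := by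
  have := IsPModular.isPrime hM
  by_contra hnd
  set Q : ℤ[X] := taylor 1 P with hQ
  have hPQ : P = taylor (-1) Q := by
    rw [hQ, taylor_taylor]
    simp
  have hQnd : ¬ (C 2 : ℤ[X]) ∣ Q := by
    rintro ⟨Q', hQ'⟩
    apply hnd
    rw [hPQ, hQ', taylor_mul, taylor_C]
    exact Dvd.intro _ rfl
  rw [C_dvd_iff_dvd_coeff] at hQnd
  push Not at hQnd
  classical
  set j := Nat.find hQnd with hj
  have hj1 : ¬ (2 : ℤ) ∣ Q.coeff j := Nat.find_spec hQnd
  have hj2 : ∀ i < j, (2 : ℤ) ∣ Q.coeff i := fun i hi => by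
    have := Nat.find_min hQnd hi
    push Not at this
    exact this
  have hQdeg : Q.natDegree < 2 ^ k := by rw [hQ, natDegree_taylor]; exact hdeg
  have hjn : j < 2 ^ k := by
    by_contra hcon
    apply hj1
    rw [coeff_eq_zero_of_natDegree_lt (by omega)]
    exact dvd_zero _
  set π : ℂ := η - 1 with hπ
  have hπM : MemLocalIdeal M π := by
    apply sub_one_memLocalIdeal_of_pow_eq_one hM (k := k + 1)
    rw [pow_succ, pow_mul, hη]; norm_num
  have hπR : MemLocalRing M π := MemLocalIdeal.memLocalRing hπM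
  have hπ0 : π ≠ 0 := by
    intro h0
    have h1 : η = 1 := by
      have : η - 1 = 0 := h0
      linear_combination this
    rw [h1, one_pow] at hη
    norm_num at hη
  have hev : aeval η P = ∑ i ∈ Finset.range (2 ^ k), (Q.coeff i : ℂ) * π ^ i := by
    have h1 : aeval π Q = aeval η P := by
      rw [hQ, taylor_apply, aeval_comp]
      simp [hπ]
    rw [← h1, aeval_eq_sum_range' hQdeg]
    refine Finset.sum_congr rfl fun i _ => ?_
    rw [zsmul_eq_mul]
  have h2π := two_div_pow hM hη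
  rw [← hπ] at h2π
  -- `2 / π ^ (j+1)` is local
  have h2j : MemLocalRing M (2 / π ^ (j + 1)) := by
    have : (2 : ℂ) / π ^ (j + 1) = 2 / π ^ (2 ^ k) * π ^ (2 ^ k - (j + 1)) := by
      have h3 : π ^ (2 ^ k) = π ^ (2 ^ k - (j + 1)) * π ^ (j + 1) := by
        rw [← pow_add]; congr 1; omega
      rw [h3]
      field_simp
    rw [this]
    exact MemLocalRing.mul h2π (MemLocalRing.pow hπR _)
  have hS : MemLocalRing M (aeval η P / π ^ (j + 1)) := by
    have : aeval η P / π ^ (j + 1) = aeval η P / 2 * (2 / π ^ (j + 1)) := by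
      field_simp
    rw [this]
    exact MemLocalRing.mul h h2j
  have hothers : ∀ i ∈ (Finset.range (2 ^ k)).erase j,
      MemLocalRing M ((Q.coeff i : ℂ) * π ^ i / π ^ (j + 1)) := by
    intro i hi
    have hij : i ≠ j := (Finset.mem_erase.mp hi).1
    rcases lt_or_gt_of_ne hij with hlt | hgt
    · obtain ⟨c, hc⟩ := hj2 i hlt
      have : (Q.coeff i : ℂ) * π ^ i / π ^ (j + 1) = (c : ℂ) * π ^ i * (2 / π ^ (j + 1)) := by
        rw [hc]; push_cast; field_simp
      rw [this]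
      exact MemLocalRing.mul (MemLocalRing.mul (memLocalRing_intCast _) (MemLocalRing.pow hπR _)) h2j
    · have : (Q.coeff i : ℂ) * π ^ i / π ^ (j + 1) = (Q.coeff i : ℂ) * π ^ (i - (j + 1)) := by
        have h3 : π ^ i = π ^ (i - (j + 1)) * π ^ (j + 1) := by
          rw [← pow_add]; congr 1; omega
        rw [h3]
        field_simp
      rw [this]
      exact MemLocalRing.mul (memLocalRing_intCast _) (MemLocalRing.pow hπR _)
  have hsplit : (Q.coeff j : ℂ) / π = aeval η P / π ^ (j + 1) -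
      ∑ i ∈ (Finset.range (2 ^ k)).erase j, (Q.coeff i : ℂ) * π ^ i / π ^ (j + 1) := by
    rw [hev, ← Finset.add_sum_erase _ _ (Finset.mem_range.mpr hjn), add_div, Finset.sum_div,
      add_sub_cancel_right, pow_succ]
    field_simp
  have hq : MemLocalRing M ((Q.coeff j : ℂ) / π) := by
    rw [hsplit]
    exact MemLocalRing.sub hS (MemLocalRing.sum _ hothers)
  apply hj1
  have h5 : MemLocalIdeal M ((Q.coeff j : ℤ) : ℂ) := by
    have : ((Q.coeff j : ℤ) : ℂ) = (Q.coeff j : ℂ) / π * π := by field_simp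
    rw [this]
    exact MemLocalIdeal.mul_left hq hπM
  exact_mod_cast (memLocalIdeal_intCast_iff hM _).mp h5

theorem pow_dvd_coeff (hM : IsPModular 2 M) {k : ℕ} {η : ℂ} (hη : η ^ (2 ^ k) = -1) :
    ∀ (m : ℕ) (P : ℤ[X]), P.natDegree < 2 ^ k → MemLocalRing M (aeval η P / 2 ^ m) →
      ∀ r, (2 : ℤ) ^ m ∣ P.coeff r := by
  have := IsPModular.isPrime hM
  intro m
  induction m with
  | zero => intro P _ _ r; simp
  | succ m ih =>
    intro P hdeg h r
    have h1 : MemLocalRing M (aeval η P / 2) := by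
      have : aeval η P / 2 = aeval η P / 2 ^ (m + 1) * ((2 : ℕ) : ℂ) ^ m := by
        push_cast
        rw [pow_succ]; field_simp
      rw [this]
      exact MemLocalRing.mul h (MemLocalRing.pow (memLocalRing_natCast _) _)
    obtain ⟨P', hP'⟩ := even_coeff hM hη P hdeg h1
    have hdeg' : P'.natDegree < 2 ^ k := by
      rw [hP', natDegree_C_mul (by norm_num)] at hdeg
      exact hdeg
    have h2 : MemLocalRing M (aeval η P' / 2 ^ m) := by
      have : aeval η P' / 2 ^ m = aeval η P / 2 ^ (m + 1) := by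
        rw [hP', map_mul, aeval_C, pow_succ]
        simp only [eq_intCast, Int.cast_ofNat]
        field_simp
      rw [this]; exact h
    have h3 := ih P' hdeg' h2 r
    rw [hP', coeff_C_mul, pow_succ, mul_comm]
    exact mul_dvd_mul_left _ h3

end Cfsg.Agent.Lib.Helper23.CycNorm
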