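import Mathlib
import Cfsg.Agent.Lib.Helper23.Contrib5
import Cfsg.Agent.Lib.Helper23.CycNorm3
import Cfsg.Agent.Lib.Helper23.RealBlock
import Cfsg.Agent.Lib.Helper6.Subsection3
import Cfsg.Agent.Lib.Helper6.Trace

/-!
# Major subsections: heights and contributions
-/

set_option autoImplicit false
set_option linter.unusedSectionVars false

namespace Cfsg.Agent.Lib.Helper23.Contrib

open Cfsg Cfsg.Agent.Lib.Helper2 Cfsg.Agent.Lib.Helper6
open Cfsg.Agent.Lib.Helper23.BrauerFeit Cfsg.Agent.Lib.Helper23.RegInner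
open Cfsg.Agent.Lib.Helper23.RealBlock Cfsg.Agent.Lib.Helper24
open scoped ComplexConjugate Classical

attribute [local instance] irrFintype

variable {G : Type*} [Group G] [Fintype G] {H : Subgroup G} [Fintype H] {p : ℕ}
  {M : Ideal AlgInt}

theorem isCenOf_pow {x : H} (hx : IsCenOf p x) {t : ℕ} (ht : (orderOf (x : G)).Coprime t) :
    IsCenOf p (x ^ t) where
  pow := by
    obtain ⟨k, hk⟩ := hx.pow
    exact ⟨k, by rw [Subgroup.coe_pow, ht.orderOf_pow, hk]⟩
  comm := fun h => (Commute.pow_right (show Commute h x from hx.comm h) t).eq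
  le := by
    intro g hg
    apply hx.le
    obtain ⟨s, hs⟩ := exists_pow_eq_self_of_coprime ht.symm
    rw [Subgroup.mem_centralizer_singleton_iff] at hg ⊢
    rw [Subgroup.coe_pow] at hg
    have h1 : Commute g ((x : G) ^ t) := hg
    have h2 : Commute g (((x : G) ^ t) ^ s) := h1.pow_right s
    rw [hs] at h2
    exact h2.eq

theorem lift_cases (hp : p.Prime) {x : H} (hx : IsCenOf p x) {f : H → ℂ}
    (hf : IsClassFunction H f) (hf0 : ∀ c, p ∣ orderOf c → f c = 0) (g : G) :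
    lift x f g = 0 ∨ ∃ c : H, lift x f g = f c := by
  obtain ⟨z, hz⟩ := exists_isPPart hp g
  by_cases hc : IsConj z (x : G)
  · right
    obtain ⟨r, hr⟩ := isConj_iff.mp hc
    obtain ⟨y, hzy, hcomm, -, hy⟩ := hz
    have hcm : r * y * r⁻¹ ∈ H := by
      apply hx.le
      rw [Subgroup.mem_centralizer_singleton_iff, ← hr]
      calc r * y * r⁻¹ * (r * z * r⁻¹) = r * (y * z) * r⁻¹ := by group
        _ = r * (z * y) * r⁻¹ := by rw [hcomm.eq]
        _ = r * z * r⁻¹ * (r * y * r⁻¹) := by group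
    set c : H := ⟨r * y * r⁻¹, hcm⟩ with hcdef
    have hco : ¬ p ∣ orderOf c := by
      rw [← Subgroup.orderOf_coe]
      show ¬ p ∣ orderOf (r * y * r⁻¹)
      rw [Cfsg.Agent.Lib.Helper6.orderOf_conj_eq]
      exact hy
    have hg : r * g * r⁻¹ = (x : G) * (c : G) := by
      rw [← hr, ← hzy]
      show r * (z * y) * r⁻¹ = r * z * r⁻¹ * (r * y * r⁻¹)
      group
    exact ⟨c, by rw [← isClassFunction_lift x _ g r, hg, lift_apply hp hx hf hf0 hco]⟩
  · left
    exact lift_eq_zero hp hx hf0 hz hc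

theorem lift_isIntegral (hp : p.Prime) {x : H} (hx : IsCenOf p x) {f : H → ℂ}
    (hf : IsClassFunction H f) (hf0 : ∀ c, p ∣ orderOf c → f c = 0)
    (hint : ∀ c, IsIntegral ℤ (f c)) (g : G) : IsIntegral ℤ (lift x f g) := by
  rcases lift_cases hp hx hf hf0 g with h | ⟨c, h⟩
  · rw [h]; exact isIntegral_zero
  · rw [h]; exact hint c

/-- the complex conjugate of the lift -/
noncomputable def clift (x : H) (f : H → ℂ) : G → ℂ := fun g => conj (lift x f g)

theorem isClassFunction_clift (x : H) (f : H → ℂ) : IsClassFunction G (clift x f) := by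
  intro g h
  rw [clift, clift, isClassFunction_lift x f g h]

theorem classInner_tw_eq (x : H) (f : H → ℂ) (χ : IrrCharacter G) :
    classInner (tw x (χ : G → ℂ)) f =
      (χ : G → ℂ) 1 / (Nat.card G : ℂ) * om (χ : G → ℂ) (clift x f) := by
  rw [← classInner_conj_symm, ← classInner_lift x f (irr_isClassFunction χ.2),
    classInner_conj_symm, classInner, om]
  have h1 := irr_one_ne_zero χ.2
  have h2 : ∑ g, clift x f g * (χ : G → ℂ) g = ∑ g, (χ : G → ℂ) g * conj (lift x f g) :=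
    Finset.sum_congr rfl fun g _ => mul_comm _ _
  rw [h2]
  field_simp

theorem classInner_tw_eq' (x : H) (f : H → ℂ) (χ : IrrCharacter G) :
    classInner f (tw x (χ : G → ℂ)) =
      (χ : G → ℂ) 1 / (Nat.card G : ℂ) * om (conjI χ : G → ℂ) (lift x f) := by
  rw [← classInner_lift x f (irr_isClassFunction χ.2), classInner, om]
  have h1 := irr_one_ne_zero χ.2
  have h3 : (conjI χ : G → ℂ) 1 = (χ : G → ℂ) 1 := by rw [conjI_apply, inv_one]
  have h2 : ∑ g, lift x f g * (conjI χ : G → ℂ) g = ∑ g, lift x f g * conj ((χ : G → ℂ) g) := rfl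
  rw [h2, h3]
  field_simp

/-- `p^d χ(1) / (|G| p^h)` -/
noncomputable def uu (p : ℕ) (B : Set (IrrCharacter G)) (χ : IrrCharacter G) : ℂ :=
  (p : ℂ) ^ blockDefect p B * (χ : G → ℂ) 1 /
    ((Nat.card G : ℂ) * (p : ℂ) ^ blockHeight p B (χ : G → ℂ))

theorem uu_eq (B : Set (IrrCharacter G)) (χ : IrrCharacter G) :
    uu p B χ = ((p ^ blockDefect p B * charDegree (χ : G → ℂ) : ℕ) : ℂ) /
      ((Nat.card G * p ^ blockHeight p B (χ : G → ℂ) : ℕ) : ℂ) := by
  rw [uu, Nat.cast_mul, Nat.cast_pow, Nat.cast_mul, Nat.cast_pow,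
    charDegree_cast (IsIrrCharacter.isCharacter χ.2)]

theorem uu_fact [Fact p.Prime] {B : Set (IrrCharacter G)} {χ : IrrCharacter G} (hχ : χ ∈ B) :
    (Nat.card G * p ^ blockHeight p B (χ : G → ℂ)).factorization p =
      (p ^ blockDefect p B * charDegree (χ : G → ℂ)).factorization p := by
  have hp : p.Prime := Fact.out
  rw [Nat.factorization_mul (pow_ne_zero _ hp.ne_zero) (charDegree_pos χ.2).ne',
    Nat.factorization_mul Nat.card_pos.ne' (pow_ne_zero _ hp.ne_zero),
    Finsupp.add_apply, Finsupp.add_apply, Nat.Prime.factorization_pow hp,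
    Nat.Prime.factorization_pow hp, Finsupp.single_eq_same, Finsupp.single_eq_same,
    defect_eq, height_eq]
  have h1 := smin_le p hχ
  have h2 := factorization_le p χ
  omega

theorem uu_memLocalRing [Fact p.Prime] (hM : IsPModular p M) {B : Set (IrrCharacter G)}
    {χ : IrrCharacter G} (hχ : χ ∈ B) : MemLocalRing M (uu p B χ) := by
  rw [uu_eq]
  exact memLocalRing_natCast_div hM
    (mul_ne_zero (pow_ne_zero _ hM.1.ne_zero) (charDegree_pos χ.2).ne')
    (mul_ne_zero Nat.card_pos.ne' (pow_ne_zero _ hM.1.ne_zero)) (uu_fact hχ).le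

theorem uu_not_memLocalIdeal [Fact p.Prime] (hM : IsPModular p M) {B : Set (IrrCharacter G)}
    {χ : IrrCharacter G} (hχ : χ ∈ B) : ¬ MemLocalIdeal M (uu p B χ) := by
  rw [uu_eq]
  exact not_memLocalIdeal_natCast_div hM
    (mul_ne_zero (pow_ne_zero _ hM.1.ne_zero) (charDegree_pos χ.2).ne')
    (mul_ne_zero Nat.card_pos.ne' (pow_ne_zero _ hM.1.ne_zero)) (uu_fact hχ)

theorem pow_mul_classInner_tw [Fact p.Prime] (B : Set (IrrCharacter G)) (x : H) (f : H → ℂ)
    (χ : IrrCharacter G) :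
    (p : ℂ) ^ blockDefect p B * classInner (tw x (χ : G → ℂ)) f /
      (p : ℂ) ^ blockHeight p B (χ : G → ℂ) = uu p B χ * om (χ : G → ℂ) (clift x f) := by
  have hp : p.Prime := Fact.out
  have hp0 : (p : ℂ) ≠ 0 := by exact_mod_cast hp.ne_zero
  have hG : (Nat.card G : ℂ) ≠ 0 := by exact_mod_cast Nat.card_pos.ne'
  rw [classInner_tw_eq, uu]
  field_simp

theorem pow_mul_classInner_tw' [Fact p.Prime] (B : Set (IrrCharacter G)) (x : H) (f : H → ℂ)
    (χ : IrrCharacter G) :
    (p : ℂ) ^ blockDefect p B * classInner f (tw x (χ : G → ℂ)) /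
      (p : ℂ) ^ blockHeight p B (χ : G → ℂ) = uu p B χ * om (conjI χ : G → ℂ) (lift x f) := by
  have hp : p.Prime := Fact.out
  have hp0 : (p : ℂ) ≠ 0 := by exact_mod_cast hp.ne_zero
  have hG : (Nat.card G : ℂ) ≠ 0 := by exact_mod_cast Nat.card_pos.ne'
  rw [classInner_tw_eq', uu]
  field_simp

/-- divisibility by the height -/
theorem classInner_tw_memLocalRing [Fact p.Prime] (hM : IsPModular p M) {x : H}
    (hx : IsCenOf p x) {B : Set (IrrCharacter G)} {χ : IrrCharacter G} (hχ : χ ∈ B)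
    {f : H → ℂ} (hf : IsClassFunction H f) (hf0 : ∀ c, p ∣ orderOf c → f c = 0)
    (hint : ∀ c, IsIntegral ℤ (f c)) :
    MemLocalRing M ((p : ℂ) ^ blockDefect p B * classInner (tw x (χ : G → ℂ)) f /
      (p : ℂ) ^ blockHeight p B (χ : G → ℂ)) := by
  have := IsPModular.isPrime hM
  rw [pow_mul_classInner_tw]
  exact MemLocalRing.mul (uu_memLocalRing hM hχ) (om_memLocalRing χ.2 (isClassFunction_clift x f)
    fun g => memLocalRing_of_isIntegral (isIntegral_conj (lift_isIntegral hM.1 hx hf hf0 hint g)))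

theorem classInner_tw_memLocalRing' [Fact p.Prime] (hM : IsPModular p M) {x : H}
    (hx : IsCenOf p x) {B : Set (IrrCharacter G)} {χ : IrrCharacter G} (hχ : χ ∈ B)
    {f : H → ℂ} (hf : IsClassFunction H f) (hf0 : ∀ c, p ∣ orderOf c → f c = 0)
    (hint : ∀ c, IsIntegral ℤ (f c)) :
    MemLocalRing M ((p : ℂ) ^ blockDefect p B * classInner f (tw x (χ : G → ℂ)) /
      (p : ℂ) ^ blockHeight p B (χ : G → ℂ)) := by
  have := IsPModular.isPrime hM
  rw [pow_mul_classInner_tw']
  exact MemLocalRing.mul (uu_memLocalRing hM hχ) (om_memLocalRing (conjI χ).2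
    (isClassFunction_lift x f)
    fun g => memLocalRing_of_isIntegral (lift_isIntegral hM.1 hx hf hf0 hint g))

theorem mc_conj (b : Set (IrrCharacter H)) (x : H) (χ ψ : G → ℂ) :
    conj (mc p b x χ ψ) = mc p b x ψ χ := classInner_conj_symm _ _

theorem mc_eq_tw_left (hM : IsPModular p M) {x : H} (hx : IsCenOf p x)
    {b : Set (IrrCharacter H)} (hb : IsPBlock M b) {χ : G → ℂ} (hχ : IsClassFunction G χ)
    (ψ : G → ℂ) : mc p b x χ ψ = classInner (tw x χ) (fpart p b x ψ) := by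
  rw [← mc_conj, ← classInner_fpart_tw hM hx hb ψ hχ, classInner_conj_symm]

theorem fpart_isIntegral {x : H} (hx : IsCenOf p x) (b : Set (IrrCharacter H))
    (ψ : IrrCharacter G) (c : H) : IsIntegral ℤ (fpart p b x (ψ : G → ℂ) c) := by
  rw [fpart, regPart_apply]
  split_ifs
  · exact isIntegral_zero
  · simp only [bPart, Finset.sum_apply, Pi.smul_apply, smul_eq_mul]
    refine IsIntegral.sum _ fun ξ _ => ?_
    rw [classInner_tw hx]
    refine IsIntegral.mul (IsIntegral.mul ?_ (IsIntegral.mul isIntegral_algebraMap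
      (centralChar_isIntegral ξ.2 x))) (irr_isIntegral ξ.2 c)
    by_cases hξ : ξ ∈ b
    · rw [Set.indicator_of_mem hξ]; exact isIntegral_one
    · rw [Set.indicator_of_notMem hξ]; exact isIntegral_zero

/-- the scaled contribution -/
theorem mc_div_eq [Fact p.Prime] (hM : IsPModular p M) {x : H} (hx : IsCenOf p x)
    {b : Set (IrrCharacter H)} (hb : IsPBlock M b) (B : Set (IrrCharacter G))
    (χ ψ : IrrCharacter G) :
    (p : ℂ) ^ blockDefect p B * mc p b x (χ : G → ℂ) (ψ : G → ℂ) /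
      (p : ℂ) ^ blockHeight p B (χ : G → ℂ) =
      uu p B χ * om (χ : G → ℂ) (clift x (fpart p b x (ψ : G → ℂ))) := by
  rw [mc_eq_tw_left hM hx hb (irr_isClassFunction χ.2), pow_mul_classInner_tw]

theorem clift_fpart_memLocalRing (hM : IsPModular p M) {x : H} (hx : IsCenOf p x)
    (b : Set (IrrCharacter H)) (ψ : IrrCharacter G) (g : G) :
    MemLocalRing M (clift x (fpart p b x (ψ : G → ℂ)) g) := by
  have := IsPModular.isPrime hM
  exact memLocalRing_of_isIntegral (isIntegral_conj (lift_isIntegral hM.1 hx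
    (isClassFunction_fpart hx b _) (fpart_of_dvd b x _) (fpart_isIntegral hx b ψ) g))

/-- **Brauer.**  For a major subsection and `ψ` of height zero, `p^d m_{χψ} / p^{h(χ)}` is a local
unit. -/
theorem mc_unit [Fact p.Prime] (hM : IsPModular p M) {x : H} (hx : IsCenOf p x)
    {b : Set (IrrCharacter H)} {B : Set (IrrCharacter G)} (hind : IsInducedBlock M H b B)
    (hd : blockDefect p b = blockDefect p B) {χ ψ : IrrCharacter G} (hχ : χ ∈ B) (hψ : ψ ∈ B)
    (h0 : blockHeight p B (ψ : G → ℂ) = 0) :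
    MemLocalRing M ((p : ℂ) ^ blockDefect p B * mc p b x (χ : G → ℂ) (ψ : G → ℂ) /
      (p : ℂ) ^ blockHeight p B (χ : G → ℂ)) ∧
    ¬ MemLocalIdeal M ((p : ℂ) ^ blockDefect p B * mc p b x (χ : G → ℂ) (ψ : G → ℂ) /
      (p : ℂ) ^ blockHeight p B (χ : G → ℂ)) := by
  have := IsPModular.isPrime hM
  have hB := hind.2.1
  set F := clift x (fpart p b x (ψ : G → ℂ)) with hF
  have hFcl : IsClassFunction G F := isClassFunction_clift x _
  have hFR : ∀ g, MemLocalRing M (F g) := clift_fpart_memLocalRing hM hx b ψ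
  rw [mc_div_eq hM hx hind.1 B χ ψ]
  have hom : MemLocalRing M (om (χ : G → ℂ) F) := om_memLocalRing χ.2 hFcl hFR
  refine ⟨MemLocalRing.mul (uu_memLocalRing hM hχ) hom, ?_⟩
  apply not_memLocalIdeal_mul (uu_memLocalRing hM hχ) hom (uu_not_memLocalIdeal hM hχ)
  intro hcon
  -- compare with `ψ` itself
  have h1 : MemLocalIdeal M (om (ψ : G → ℂ) F) :=
    (memLocalIdeal_congr (om_sub_memLocalIdeal χ.2 ψ.2 (IsPBlock.sameBlock hB hχ hψ) hFcl hFR)).mp
      hcon
  have h2 := mc_div_eq hM hx hind.1 B ψ ψ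
  rw [h0, pow_zero, div_one, ← hd, pow_mul_mc hx] at h2
  obtain ⟨k, hk⟩ := hx.pow
  have hroot : ∀ ξ : IrrCharacter H, centralChar (ξ : H → ℂ) x ^ (p ^ k) = 1 := by
    intro ξ
    have h1 := centralChar_pow_of_central ξ.2 (mem_center hx) (p ^ k)
    have h2 : x ^ (p ^ k) = 1 := by
      apply Subtype.ext
      rw [Subgroup.coe_pow, ← hk, pow_orderOf_eq_one]; rfl
    rw [h2] at h1
    have h0 := irr_one_ne_zero ξ.2
    have : centralChar (ξ : H → ℂ) x ^ (p ^ k) * (ξ : H → ℂ) 1 = 1 * (ξ : H → ℂ) 1 := by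
      rw [← h1, one_mul]
    exact mul_right_cancel₀ h0 this
  have h3 := (EE_unit hM hind (u := fun ξ => centralChar (ξ : H → ℂ) x)
    (v := fun ξ => conj (centralChar (ξ : H → ℂ) x))
    (fun ξ => sub_one_memLocalIdeal_of_pow_eq_one hM (hroot ξ))
    (fun ξ => sub_one_memLocalIdeal_of_pow_eq_one hM (k := k) (by
      rw [← map_pow, hroot ξ, map_one])) hψ h0 hψ h0).2
  apply h3
  rw [h2]
  exact MemLocalIdeal.mul_left (uu_memLocalRing hM hψ) h1

/-- For a major subsection and `χ` of positive height, `p^d m_{χχ} / p^{h(χ)}` lies in the maximal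
ideal. -/
theorem mc_diag_memLocalIdeal [Fact p.Prime] (hM : IsPModular p M) {x : H} (hx : IsCenOf p x)
    {b : Set (IrrCharacter H)} {B : Set (IrrCharacter G)} (hind : IsInducedBlock M H b B)
    {χ : IrrCharacter G} (hχ : χ ∈ B) (hpos : 0 < blockHeight p B (χ : G → ℂ)) :
    MemLocalIdeal M ((p : ℂ) ^ blockDefect p B * mc p b x (χ : G → ℂ) (χ : G → ℂ) /
      (p : ℂ) ^ blockHeight p B (χ : G → ℂ)) := by
  have := IsPModular.isPrime hM
  have hp0 : (p : ℂ) ≠ 0 := by exact_mod_cast hM.1.ne_zero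
  have hB := hind.2.1
  obtain ⟨χ₀, hχ₀, h0⟩ := BrauerFeit.exists_height_zero p (IsPBlock.nonempty hB)
  set F := clift x (fpart p b x (χ : G → ℂ)) with hF
  have hFcl : IsClassFunction G F := isClassFunction_clift x _
  have hFR : ∀ g, MemLocalRing M (F g) := clift_fpart_memLocalRing hM hx b χ
  rw [mc_div_eq hM hx hind.1 B χ χ]
  apply MemLocalIdeal.mul_left (uu_memLocalRing hM hχ)
  apply (memLocalIdeal_congr (om_sub_memLocalIdeal χ.2 χ₀.2 (IsPBlock.sameBlock hB hχ hχ₀)
    hFcl hFR)).mpr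
  have h2 := mc_div_eq hM hx hind.1 B χ₀ χ
  rw [h0, pow_zero, div_one] at h2
  -- the left hand side lies in the ideal
  have h3 : MemLocalIdeal M ((p : ℂ) ^ blockDefect p B * mc p b x (χ₀ : G → ℂ) (χ : G → ℂ)) := by
    have h4 := classInner_tw_memLocalRing' hM hx hχ (isClassFunction_fpart hx b (χ₀ : G → ℂ))
      (fpart_of_dvd b x _) (fpart_isIntegral hx b χ₀)
    rw [classInner_fpart_tw hM hx hind.1 _ (irr_isClassFunction χ.2)] at h4
    have h5 : (p : ℂ) ^ blockDefect p B * mc p b x (χ₀ : G → ℂ) (χ : G → ℂ) =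
        (p : ℂ) ^ blockDefect p B * mc p b x (χ₀ : G → ℂ) (χ : G → ℂ) /
          (p : ℂ) ^ blockHeight p B (χ : G → ℂ) *
          ((p : ℂ) ^ (blockHeight p B (χ : G → ℂ) - 1) * (p : ℂ)) := by
      rw [← pow_succ, Nat.sub_add_cancel hpos]
      field_simp
    rw [h5]
    exact MemLocalIdeal.mul_left h4 (MemLocalIdeal.mul_left
      (MemLocalRing.pow (memLocalRing_natCast p) _) (memLocalIdeal_p hM))
  rw [h2] at h3
  rcases MemLocalIdeal.of_mul (uu_memLocalRing hM hχ₀) (om_memLocalRing χ₀.2 hFcl hFR) h3 with h | h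
  · exact absurd h (uu_not_memLocalIdeal hM hχ₀)
  · exact h

end Cfsg.Agent.Lib.Helper23.Contrib
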