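import Mathlib
import Cfsg.Agent.Lib.Helper23.Contrib6

/-!
# Major subsections of `2`-blocks: bounds from the contribution matrix
-/

set_option autoImplicit false
set_option linter.unusedSectionVars false

namespace Cfsg.Agent.Lib.Helper23.Contrib

open Cfsg Cfsg.Agent.Lib.Helper2 Cfsg.Agent.Lib.Helper6
open Cfsg.Agent.Lib.Helper23.BrauerFeit Cfsg.Agent.Lib.Helper23.RegInner
open Cfsg.Agent.Lib.Helper23.CycNorm Polynomial
open scoped ComplexConjugate Classical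

attribute [local instance] irrFintype

variable {G : Type*} [Group G] [Fintype G] {H : Subgroup G} [Fintype H]
  {M : Ideal AlgInt}

theorem centralChar_pow {p : ℕ} {x : H} (hx : IsCenOf p x) (ξ : IrrCharacter H) (t : ℕ) :
    centralChar (ξ : H → ℂ) (x ^ t) = centralChar (ξ : H → ℂ) x ^ t := by
  have h1 := centralChar_pow_of_central ξ.2 (mem_center hx) t
  have hc : x ^ t ∈ Subgroup.center H := Subgroup.pow_mem _ (mem_center hx) t
  have h2 := irr_central_mul ξ.2 hc (1 : H)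
  rw [mul_one, h1] at h2
  exact (mul_right_cancel₀ (irr_one_ne_zero ξ.2) h2).symm

theorem exists_twist {p : ℕ} [Fact p.Prime] {x : H} (hx : IsCenOf p x)
    (b : Set (IrrCharacter H)) {N : ℕ} (hN : 0 < N) (hxN : x ^ N = 1) {ζ : ℂ}
    (hζ : IsPrimitiveRoot ζ N) {idx : IrrCharacter H → ℕ}
    (h2 : ∀ ξ : IrrCharacter H, ζ ^ idx ξ = centralChar (ξ : H → ℂ) x)
    (h3 : ∀ ξ : IrrCharacter H, ζ ^ (N - idx ξ) = conj (centralChar (ξ : H → ℂ) x))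
    {η : ℂ} (hη : IsPrimitiveRoot η N) :
    ∃ x' : H, IsCenOf p x' ∧ ∀ χ ψ : IrrCharacter G, aeval η (PP p b N idx χ ψ) =
      (p : ℂ) ^ blockDefect p b * mc p b x' (χ : G → ℂ) (ψ : G → ℂ) := by
  have : NeZero N := ⟨hN.ne'⟩
  obtain ⟨t, -, hcop, rfl⟩ := (hζ.isPrimitiveRoot_iff).mp hη
  have hord : orderOf (x : G) ∣ N := by
    apply orderOf_dvd_of_pow_eq_one
    have := congrArg Subtype.val hxN
    simpa using this
  have hx' : IsCenOf p (x ^ t) := isCenOf_pow hx (Nat.Coprime.coprime_dvd_left hord hcop.symm)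
  refine ⟨x ^ t, hx', fun χ ψ => aeval_PP_zeta hx' b (fun ξ => ?_) (fun ξ => ?_) χ ψ⟩
  · rw [centralChar_pow hx, ← h2, ← pow_mul, ← pow_mul, mul_comm]
  · rw [centralChar_pow hx, map_pow, ← h3, ← pow_mul, ← pow_mul, mul_comm]

theorem sum_mc_sq_col {p : ℕ} (hM : IsPModular p M) {x : H} (hx : IsCenOf p x)
    {b : Set (IrrCharacter H)} {B : Set (IrrCharacter G)} (hind : IsInducedBlock M H b B)
    (ψ : G → ℂ) :
    ∑ χ : IrrCharacter G,
      (mc p b x (χ : G → ℂ) ψ * conj (mc p b x (χ : G → ℂ) ψ)) = mc p b x ψ ψ := by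
  rw [← sum_mc_sq_row' hM hx hind ψ]
  refine Finset.sum_congr rfl fun χ _ => ?_
  rw [mc_conj, mc_conj, mul_comm]

theorem mc_self_eq {p : ℕ} (hM : IsPModular p M) {x : H} (hx : IsCenOf p x)
    {b : Set (IrrCharacter H)} {B : Set (IrrCharacter G)} (hind : IsInducedBlock M H b B)
    (χ : G → ℂ) :
    mc p b x χ χ = ((∑ ψ : IrrCharacter G, ‖mc p b x χ (ψ : G → ℂ)‖ ^ 2 : ℝ) : ℂ) := by
  rw [← sum_mc_sq_row' hM hx hind χ]
  push_cast
  refine Finset.sum_congr rfl fun ψ _ => ?_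
  rw [Complex.mul_conj, Complex.normSq_eq_norm_sq]
  push_cast; rfl

theorem mc_self_bounds {p : ℕ} [Fact p.Prime] (hM : IsPModular p M) {x : H} (hx : IsCenOf p x)
    {b : Set (IrrCharacter H)} {B : Set (IrrCharacter G)} (hind : IsInducedBlock M H b B)
    (hd : blockDefect p b = blockDefect p B) {χ : IrrCharacter G} (hχ : χ ∈ B)
    (hpos : 0 < blockHeight p B (χ : G → ℂ)) :
    ∃ t : ℝ, 0 < t ∧ t < 1 ∧ mc p b x (χ : G → ℂ) (χ : G → ℂ) = (t : ℂ) := by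
  have := IsPModular.isPrime hM
  obtain ⟨ψ₀, hψ₀, h0⟩ := BrauerFeit.exists_height_zero p (IsPBlock.nonempty hind.2.1)
  have hne : χ ≠ ψ₀ := by
    rintro rfl
    omega
  have hnz : mc p b x (χ : G → ℂ) (ψ₀ : G → ℂ) ≠ 0 := by
    intro h
    apply (mc_unit hM hx hind hd hχ hψ₀ h0).2
    rw [h, mul_zero, zero_div]
    exact memLocalIdeal_zero
  set t : ℝ := ∑ ψ : IrrCharacter G, ‖mc p b x (χ : G → ℂ) (ψ : G → ℂ)‖ ^ 2 with ht
  have hmt : mc p b x (χ : G → ℂ) (χ : G → ℂ) = (t : ℂ) := mc_self_eq hM hx hind _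
  have h1 : ‖mc p b x (χ : G → ℂ) (χ : G → ℂ)‖ ^ 2 + ‖mc p b x (χ : G → ℂ) (ψ₀ : G → ℂ)‖ ^ 2 ≤ t := by
    rw [ht, ← Finset.sum_pair (f := fun ψ : IrrCharacter G =>
      ‖mc p b x (χ : G → ℂ) (ψ : G → ℂ)‖ ^ 2) hne]
    exact Finset.sum_le_sum_of_subset_of_nonneg (Finset.subset_univ _) fun i _ _ => by positivity
  have h2 : ‖mc p b x (χ : G → ℂ) (χ : G → ℂ)‖ ^ 2 = t ^ 2 := by
    rw [hmt, Complex.norm_real, Real.norm_eq_abs, sq_abs]
  have h3 : 0 < ‖mc p b x (χ : G → ℂ) (ψ₀ : G → ℂ)‖ ^ 2 := by positivity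
  rw [h2] at h1
  have h4 : 0 < t := by nlinarith [sq_nonneg t]
  refine ⟨t, h4, ?_, hmt⟩
  by_contra hcon
  have : 1 ≤ t := not_lt.mp hcon
  nlinarith

/-- the data attached to a major subsection of a `2`-block -/
structure MajorSetup (M : Ideal AlgInt) (x : H) (b : Set (IrrCharacter H))
    (B : Set (IrrCharacter G)) (k : ℕ) (ζ : ℂ) (idx : IrrCharacter H → ℕ) : Prop where
  hM : IsPModular 2 M
  hx : IsCenOf 2 x
  hind : IsInducedBlock M H b B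
  hd : blockDefect 2 b = blockDefect 2 B
  hζ : IsPrimitiveRoot ζ (2 ^ (k + 1))
  hxN : x ^ (2 ^ (k + 1)) = 1
  h1 : ∀ ξ, idx ξ < 2 ^ (k + 1)
  h2 : ∀ ξ : IrrCharacter H, ζ ^ idx ξ = centralChar (ξ : H → ℂ) x
  h3 : ∀ ξ : IrrCharacter H, ζ ^ (2 ^ (k + 1) - idx ξ) = conj (centralChar (ξ : H → ℂ) x)

theorem exists_majorSetup (hM : IsPModular 2 M) {x : H} (hx : IsCenOf 2 x)
    {b : Set (IrrCharacter H)} {B : Set (IrrCharacter G)} (hind : IsInducedBlock M H b B)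
    (hd : blockDefect 2 b = blockDefect 2 B) :
    ∃ (k : ℕ) (ζ : ℂ) (idx : IrrCharacter H → ℕ), MajorSetup M x b B k ζ idx := by
  obtain ⟨k, hk⟩ := hx.pow
  have hN : 0 < 2 ^ (k + 1) := by positivity
  have hζ : IsPrimitiveRoot (Complex.exp (2 * Real.pi * Complex.I / ((2 ^ (k + 1) : ℕ) : ℂ)))
    (2 ^ (k + 1)) := Complex.isPrimitiveRoot_exp _ hN.ne'
  have hxN : x ^ (2 ^ (k + 1)) = 1 := by
    apply Subtype.ext
    rw [Subgroup.coe_pow, pow_succ, pow_mul, ← hk, pow_orderOf_eq_one, one_pow]; rfl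
  obtain ⟨idx, hidx1, hidx2, hidx3⟩ := exists_idx hx hN hxN hζ
  exact ⟨k, _, idx, hM, hx, hind, hd, hζ, hxN, hidx1, hidx2, hidx3⟩

namespace MajorSetup

variable {x : H} {b : Set (IrrCharacter H)} {B : Set (IrrCharacter G)} {k : ℕ} {ζ : ℂ}
  {idx : IrrCharacter H → ℕ}

theorem hN : 0 < 2 ^ (k + 1) := by positivity

theorem twist (S : MajorSetup M x b B k ζ idx) (η : primitiveRoots (2 ^ (k + 1)) ℂ) :
    ∃ x' : H, IsCenOf 2 x' ∧ ∀ χ ψ : IrrCharacter G,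
      aeval (η : ℂ) (PP 2 b (2 ^ (k + 1)) idx χ ψ) =
      ((2 : ℕ) : ℂ) ^ blockDefect 2 B * mc 2 b x' (χ : G → ℂ) (ψ : G → ℂ) := by
  have := exists_twist S.hx b hN S.hxN S.hζ S.h2 S.h3 ((mem_primitiveRoots hN).mp η.2)
  rwa [S.hd] at this

theorem eval_zeta (S : MajorSetup M x b B k ζ idx) (χ ψ : IrrCharacter G) :
    aeval ζ (PP 2 b (2 ^ (k + 1)) idx χ ψ) =
      ((2 : ℕ) : ℂ) ^ blockDefect 2 B * mc 2 b x (χ : G → ℂ) (ψ : G → ℂ) := by
  rw [aeval_PP_zeta S.hx b S.h2 S.h3 χ ψ, S.hd]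

theorem integral (S : MajorSetup M x b B k ζ idx) (η : primitiveRoots (2 ^ (k + 1)) ℂ)
    (χ ψ : IrrCharacter G) :
    IsIntegral ℤ (((2 : ℕ) : ℂ) ^ (Nat.card H).factorization 2 *
      aeval (η : ℂ) (PP 2 b (2 ^ (k + 1)) idx χ ψ)) := by
  have hη : (η : ℂ) ^ (2 ^ (k + 1)) = 1 := ((mem_primitiveRoots hN).mp η.2).pow_eq_one
  have hint : ∀ i : ℕ, IsIntegral ℤ ((η : ℂ) ^ i) := by
    intro i
    apply IsIntegral.pow
    apply IsIntegral.of_pow (hN (k := k))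
    rw [hη]
    exact isIntegral_one
  rw [aeval_PP]
  exact isIntegral_EE b (fun ξ => hint _) (fun ξ => hint _) _ _

theorem card_ne_zero (S : MajorSetup M x b B k ζ idx) :
    (Fintype.card (primitiveRoots (2 ^ (k + 1)) ℂ) : ℂ) ≠ 0 := by
  have : 0 < Fintype.card (primitiveRoots (2 ^ (k + 1)) ℂ) :=
    Fintype.card_pos_iff.mpr ⟨⟨ζ, (mem_primitiveRoots hN).mpr S.hζ⟩⟩
  exact_mod_cast this.ne'

theorem sum_le (S : MajorSetup M x b B k ζ idx) (ψ₀ : IrrCharacter G)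
    (s : Finset (IrrCharacter G))
    (hs : ∀ χ ∈ s, χ ∈ B ∧ ψ₀ ∈ B ∧ blockHeight 2 B (ψ₀ : G → ℂ) = 0) :
    ∑ χ ∈ s, (((2 : ℕ) : ℚ) ^ blockHeight 2 B (χ : G → ℂ)) ^ 2 ≤
      (2 : ℚ) ^ blockDefect 2 B * av k idx b ψ₀ := by
  refine sum_weights_le S.hM hN S.hζ (fun χ : IrrCharacter G => PP 2 b (2 ^ (k + 1)) idx χ ψ₀)
    ((Nat.card H).factorization 2) s (fun χ => blockHeight 2 B (χ : G → ℂ)) ?_ ?_ ?_
    (C ((2 : ℚ) ^ blockDefect 2 B) * PP 2 b (2 ^ (k + 1)) idx ψ₀ ψ₀) ?_ ?_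
  · intro χ hχ η
    obtain ⟨x', hx', hev⟩ := S.twist η
    rw [hev]
    exact (mc_unit S.hM hx' S.hind S.hd (hs χ hχ).1 (hs χ hχ).2.1 (hs χ hχ).2.2).1
  · intro χ hχ η
    obtain ⟨x', hx', hev⟩ := S.twist η
    rw [hev]
    exact (mc_unit S.hM hx' S.hind S.hd (hs χ hχ).1 (hs χ hχ).2.1 (hs χ hχ).2.2).2
  · intro χ _ η
    exact S.integral η χ ψ₀
  · simp only [S.eval_zeta]
    rw [map_mul, aeval_C, S.eval_zeta, eq_ratCast, ← sum_mc_sq_col S.hM S.hx S.hind (ψ₀ : G → ℂ)]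
    push_cast
    rw [Finset.mul_sum, Finset.mul_sum]
    refine Finset.sum_congr rfl fun ψ _ => ?_
    rw [map_mul, map_pow]
    have : conj (2 : ℂ) = 2 := Complex.conj_ofNat 2
    rw [this]
    ring
  · simp only [map_mul, aeval_C, eq_ratCast]
    rw [← Finset.mul_sum, sum_aeval_PP S.h1]
    push_cast
    ring

theorem sum_av (S : MajorSetup M x b B k ζ idx) :
    ∑ χ : IrrCharacter G, av k idx b χ = (2 : ℚ) ^ blockDefect 2 B * (blockRank 2 b : ℚ) := by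
  have h1 : aeval ζ (∑ χ : IrrCharacter G, PP 2 b (2 ^ (k + 1)) idx χ χ) =
      (((2 : ℚ) ^ blockDefect 2 B * (blockRank 2 b : ℚ) : ℚ) : ℂ) := by
    rw [map_sum]
    simp only [S.eval_zeta]
    rw [← Finset.mul_sum, sum_mc_diag' S.hM S.hx S.hind]
    push_cast
    rfl
  have h2 : ∀ η : primitiveRoots (2 ^ (k + 1)) ℂ,
      ∑ χ : IrrCharacter G, aeval (η : ℂ) (PP 2 b (2 ^ (k + 1)) idx χ χ) =
      (((2 : ℚ) ^ blockDefect 2 B * (blockRank 2 b : ℚ) : ℚ) : ℂ) := by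
    intro η
    rw [← map_sum]
    exact aeval_eq_of_primitive hN S.hζ ((mem_primitiveRoots hN).mp η.2) h1
  have h3 : (Fintype.card (primitiveRoots (2 ^ (k + 1)) ℂ) : ℂ) *
      ((∑ χ : IrrCharacter G, av k idx b χ : ℚ) : ℂ) =
      (Fintype.card (primitiveRoots (2 ^ (k + 1)) ℂ) : ℂ) *
      (((2 : ℚ) ^ blockDefect 2 B * (blockRank 2 b : ℚ) : ℚ) : ℂ) := by
    rw [Rat.cast_sum, Finset.mul_sum]
    simp only [← sum_aeval_PP S.h1]
    rw [Finset.sum_comm, Finset.sum_congr rfl (fun η _ => h2 η), Finset.sum_const,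
      Finset.card_univ, nsmul_eq_mul]
  have h4 := mul_left_cancel₀ S.card_ne_zero h3
  exact_mod_cast h4

theorem av_eq_zero (S : MajorSetup M x b B k ζ idx) {χ : IrrCharacter G} (hχ : χ ∉ B) :
    av k idx b χ = 0 := by
  have h1 := sum_aeval_PP S.h1 b χ
  have h2 : ∑ η : primitiveRoots (2 ^ (k + 1)) ℂ,
      aeval (η : ℂ) (PP 2 b (2 ^ (k + 1)) idx χ χ) = 0 := by
    refine Finset.sum_eq_zero fun η _ => ?_
    obtain ⟨x', hx', hev⟩ := S.twist η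
    rw [hev, mc_eq_zero_left S.hM hx' S.hind hχ, mul_zero]
  rw [h2] at h1
  rcases mul_eq_zero.mp h1.symm with h | h
  · exact absurd h S.card_ne_zero
  · exact_mod_cast h

theorem lt_av (S : MajorSetup M x b B k ζ idx) {χ : IrrCharacter G} (hχ : χ ∈ B)
    (hpos : 0 < blockHeight 2 B (χ : G → ℂ)) :
    (2 : ℚ) ^ blockHeight 2 B (χ : G → ℂ) < av k idx b χ := by
  set h := blockHeight 2 B (χ : G → ℂ) with hh
  set d := blockDefect 2 B with hd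
  have hev : ∀ η : ℂ, aeval η (C (1 / (2 : ℚ) ^ h) * PP 2 b (2 ^ (k + 1)) idx χ χ) =
      aeval η (PP 2 b (2 ^ (k + 1)) idx χ χ) / ((2 : ℕ) : ℂ) ^ h := by
    intro η
    rw [map_mul, aeval_C, eq_ratCast]
    push_cast
    field_simp
  have hex : ∀ η : primitiveRoots (2 ^ (k + 1)) ℂ, ∃ t : ℝ, 0 < t ∧
      aeval (η : ℂ) (C (1 / (2 : ℚ) ^ h) * PP 2 b (2 ^ (k + 1)) idx χ χ) = (t : ℂ) := by
    intro η
    obtain ⟨x', hx', hev'⟩ := S.twist η
    obtain ⟨t, ht0, -, ht⟩ := mc_self_bounds S.hM hx' S.hind S.hd hχ hpos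
    refine ⟨2 ^ d * t / 2 ^ h, by positivity, ?_⟩
    rw [hev, hev', ht]
    push_cast
    rfl
  choose z hz hPz using hex
  have key := one_lt_of_ideal S.hM hN (C (1 / (2 : ℚ) ^ h) * PP 2 b (2 ^ (k + 1)) idx χ χ)
    ((Nat.card H).factorization 2 + h) z hz hPz ⟨⟨ζ, (mem_primitiveRoots hN).mpr S.hζ⟩⟩
    (fun η => by
      obtain ⟨x', hx', hev'⟩ := S.twist η
      rw [hev, hev']
      exact mc_diag_memLocalIdeal S.hM hx' S.hind hχ hpos)
    (fun η => by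
      rw [hev]
      have : ((2 : ℕ) : ℂ) ^ ((Nat.card H).factorization 2 + h) *
          (aeval (η : ℂ) (PP 2 b (2 ^ (k + 1)) idx χ χ) / ((2 : ℕ) : ℂ) ^ h) =
          ((2 : ℕ) : ℂ) ^ (Nat.card H).factorization 2 *
            aeval (η : ℂ) (PP 2 b (2 ^ (k + 1)) idx χ χ) := by
        rw [pow_add]
        have : ((2 : ℕ) : ℂ) ≠ 0 := by norm_num
        field_simp
      rw [this]
      exact S.integral η χ χ)
    (c := av k idx b χ / (2 : ℚ) ^ h) (by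
      simp only [hev]
      rw [← Finset.sum_div, sum_aeval_PP S.h1]
      push_cast
      ring)
  rwa [lt_div_iff₀ (by positivity), one_mul] at key

/-- the complementary idempotent -/
theorem sum_le' (S : MajorSetup M x b B k ζ idx) (ψ₀ : IrrCharacter G)
    (s : Finset (IrrCharacter G))
    (hs : ∀ χ ∈ s, χ ∈ B ∧ ψ₀ ∈ B ∧ blockHeight 2 B (ψ₀ : G → ℂ) = 0 ∧ 0 < blockDefect 2 B) :
    ∑ χ ∈ s, (((2 : ℕ) : ℚ) ^ blockHeight 2 B (χ : G → ℂ)) ^ 2 ≤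
      (2 : ℚ) ^ blockDefect 2 B * ((2 : ℚ) ^ blockDefect 2 B - av k idx b ψ₀) := by
  have := IsPModular.isPrime S.hM
  set d := blockDefect 2 B with hd
  have hev : ∀ (η : ℂ) (χ : IrrCharacter G),
      aeval η (C (if χ = ψ₀ then (2 : ℚ) ^ d else 0) - PP 2 b (2 ^ (k + 1)) idx χ ψ₀) =
      (if χ = ψ₀ then ((2 : ℕ) : ℂ) ^ d else 0) - aeval η (PP 2 b (2 ^ (k + 1)) idx χ ψ₀) := by
    intro η χ
    rw [map_sub, aeval_C, eq_ratCast]
    split_ifs <;> push_cast <;> rfl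
  have hunit : ∀ χ ∈ s, ∀ η : primitiveRoots (2 ^ (k + 1)) ℂ,
      MemLocalRing M (aeval (η : ℂ) (C (if χ = ψ₀ then (2 : ℚ) ^ d else 0) -
        PP 2 b (2 ^ (k + 1)) idx χ ψ₀) / ((2 : ℕ) : ℂ) ^ blockHeight 2 B (χ : G → ℂ)) ∧
      ¬ MemLocalIdeal M (aeval (η : ℂ) (C (if χ = ψ₀ then (2 : ℚ) ^ d else 0) -
        PP 2 b (2 ^ (k + 1)) idx χ ψ₀) / ((2 : ℕ) : ℂ) ^ blockHeight 2 B (χ : G → ℂ)) := by
    intro χ hχ η
    obtain ⟨x', hx', hev'⟩ := S.twist η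
    obtain ⟨hu1, hu2⟩ := mc_unit S.hM hx' S.hind S.hd (hs χ hχ).1 (hs χ hχ).2.1 (hs χ hχ).2.2.1
    rw [hev, hev']
    set u := ((2 : ℕ) : ℂ) ^ blockDefect 2 B * mc 2 b x' (χ : G → ℂ) (ψ₀ : G → ℂ) /
      ((2 : ℕ) : ℂ) ^ blockHeight 2 B (χ : G → ℂ) with hu
    have hcong : MemLocalIdeal M (((if χ = ψ₀ then ((2 : ℕ) : ℂ) ^ d else 0) -
        ((2 : ℕ) : ℂ) ^ blockDefect 2 B * mc 2 b x' (χ : G → ℂ) (ψ₀ : G → ℂ)) /
        ((2 : ℕ) : ℂ) ^ blockHeight 2 B (χ : G → ℂ) - (-u)) := by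
      by_cases hc : χ = ψ₀
      · have h0 : blockHeight 2 B (χ : G → ℂ) = 0 := by rw [hc]; exact (hs χ hχ).2.2.1
        have h1 : ((if χ = ψ₀ then ((2 : ℕ) : ℂ) ^ d else 0) -
            ((2 : ℕ) : ℂ) ^ blockDefect 2 B * mc 2 b x' (χ : G → ℂ) (ψ₀ : G → ℂ)) /
            ((2 : ℕ) : ℂ) ^ blockHeight 2 B (χ : G → ℂ) - (-u) =
            ((2 : ℕ) : ℂ) ^ (d - 1) * ((2 : ℕ) : ℂ) := by
          rw [← pow_succ, Nat.sub_add_cancel (hs χ hχ).2.2.2, hu, if_pos hc, h0]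
          ring
        rw [h1]
        exact MemLocalIdeal.mul_left (MemLocalRing.pow (memLocalRing_natCast 2) _)
          (memLocalIdeal_p S.hM)
      · have h1 : ((if χ = ψ₀ then ((2 : ℕ) : ℂ) ^ d else 0) -
            ((2 : ℕ) : ℂ) ^ blockDefect 2 B * mc 2 b x' (χ : G → ℂ) (ψ₀ : G → ℂ)) /
            ((2 : ℕ) : ℂ) ^ blockHeight 2 B (χ : G → ℂ) - (-u) = 0 := by
          rw [hu, if_neg hc]
          ring
        rw [h1]
        exact memLocalIdeal_zero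
    refine ⟨(memLocalRing_congr hcong).mpr (MemLocalRing.neg hu1), fun hcon => ?_⟩
    have h2 := MemLocalIdeal.neg ((memLocalIdeal_congr hcong).mp hcon)
    rw [neg_neg] at h2
    exact hu2 h2
  refine sum_weights_le S.hM hN S.hζ (fun χ : IrrCharacter G =>
      C (if χ = ψ₀ then (2 : ℚ) ^ d else 0) - PP 2 b (2 ^ (k + 1)) idx χ ψ₀)
    ((Nat.card H).factorization 2) s (fun χ => blockHeight 2 B (χ : G → ℂ))
    (fun χ hχ η => (hunit χ hχ η).1) (fun χ hχ η => (hunit χ hχ η).2) ?_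
    (C ((2 : ℚ) ^ d) * (C ((2 : ℚ) ^ d) - PP 2 b (2 ^ (k + 1)) idx ψ₀ ψ₀)) ?_ ?_
  · intro χ _ η
    rw [hev, mul_sub]
    refine IsIntegral.sub ?_ (S.integral η χ ψ₀)
    refine IsIntegral.mul (IsIntegral.pow isIntegral_algebraMap _) ?_
    split_ifs
    · exact IsIntegral.pow isIntegral_algebraMap _
    · exact isIntegral_zero
  · simp only [hev, S.eval_zeta]
    rw [map_mul, map_sub, aeval_C, S.eval_zeta, eq_ratCast]
    have hcol := sum_mc_sq_col S.hM S.hx S.hind (ψ₀ : G → ℂ)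
    have hreal : conj (mc 2 b x (ψ₀ : G → ℂ) (ψ₀ : G → ℂ)) = mc 2 b x (ψ₀ : G → ℂ) (ψ₀ : G → ℂ) :=
      mc_conj _ _ _ _
    have hc2 : conj (2 : ℂ) = 2 := Complex.conj_ofNat 2
    have hexp : ∀ χ : IrrCharacter G,
        ((if χ = ψ₀ then ((2 : ℕ) : ℂ) ^ d else 0) -
          ((2 : ℕ) : ℂ) ^ d * mc 2 b x (χ : G → ℂ) (ψ₀ : G → ℂ)) *
        conj ((if χ = ψ₀ then ((2 : ℕ) : ℂ) ^ d else 0) -
          ((2 : ℕ) : ℂ) ^ d * mc 2 b x (χ : G → ℂ) (ψ₀ : G → ℂ)) =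
        (if χ = ψ₀ then ((2 : ℂ) ^ d) ^ 2 * (1 - 2 * mc 2 b x (ψ₀ : G → ℂ) (ψ₀ : G → ℂ)) else 0) +
          ((2 : ℂ) ^ d) ^ 2 * (mc 2 b x (χ : G → ℂ) (ψ₀ : G → ℂ) *
            conj (mc 2 b x (χ : G → ℂ) (ψ₀ : G → ℂ))) := by
      intro χ
      by_cases hc : χ = ψ₀
      · subst hc
        simp only [if_true, map_sub, map_mul, map_pow, hreal]
        push_cast
        rw [hc2]
        ring
      · simp only [hc, if_false, map_sub, map_mul, map_pow, map_zero]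
        push_cast
        rw [hc2]
        ring
    rw [Finset.sum_congr rfl (fun χ _ => hexp χ), Finset.sum_add_distrib, ← Finset.mul_sum, hcol,
      Finset.sum_ite_eq' Finset.univ ψ₀, if_pos (Finset.mem_univ _)]
    push_cast
    ring
  · simp only [map_mul, map_sub, aeval_C, eq_ratCast]
    rw [← Finset.mul_sum, Finset.sum_sub_distrib, sum_aeval_PP S.h1, Finset.sum_const,
      Finset.card_univ, nsmul_eq_mul]
    push_cast
    ring

theorem lt_av' (S : MajorSetup M x b B k ζ idx) {χ : IrrCharacter G} (hχ : χ ∈ B)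
    (hpos : 0 < blockHeight 2 B (χ : G → ℂ))
    (hlt : blockHeight 2 B (χ : G → ℂ) < blockDefect 2 B) :
    (2 : ℚ) ^ blockHeight 2 B (χ : G → ℂ) < (2 : ℚ) ^ blockDefect 2 B - av k idx b χ := by
  have := IsPModular.isPrime S.hM
  set h := blockHeight 2 B (χ : G → ℂ) with hh
  set d := blockDefect 2 B with hd
  have h20 : ((2 : ℕ) : ℂ) ≠ 0 := by norm_num
  have hev : ∀ η : ℂ, aeval η (C (1 / (2 : ℚ) ^ h) *
      (C ((2 : ℚ) ^ d) - PP 2 b (2 ^ (k + 1)) idx χ χ)) =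
      (((2 : ℕ) : ℂ) ^ d - aeval η (PP 2 b (2 ^ (k + 1)) idx χ χ)) / ((2 : ℕ) : ℂ) ^ h := by
    intro η
    rw [map_mul, map_sub, aeval_C, aeval_C, eq_ratCast, eq_ratCast]
    push_cast
    field_simp
  have hex : ∀ η : primitiveRoots (2 ^ (k + 1)) ℂ, ∃ t : ℝ, 0 < t ∧
      aeval (η : ℂ) (C (1 / (2 : ℚ) ^ h) *
        (C ((2 : ℚ) ^ d) - PP 2 b (2 ^ (k + 1)) idx χ χ)) = (t : ℂ) := by
    intro η
    obtain ⟨x', hx', hev'⟩ := S.twist η
    obtain ⟨t, -, ht1, ht⟩ := mc_self_bounds S.hM hx' S.hind S.hd hχ hpos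
    refine ⟨2 ^ d * (1 - t) / 2 ^ h, ?_, ?_⟩
    · have : 0 < 1 - t := by linarith
      positivity
    · rw [hev, hev', ht]
      push_cast
      ring
  choose z hz hPz using hex
  have key := one_lt_of_ideal S.hM hN (C (1 / (2 : ℚ) ^ h) *
      (C ((2 : ℚ) ^ d) - PP 2 b (2 ^ (k + 1)) idx χ χ))
    ((Nat.card H).factorization 2 + h) z hz hPz ⟨⟨ζ, (mem_primitiveRoots hN).mpr S.hζ⟩⟩
    (fun η => by
      obtain ⟨x', hx', hev'⟩ := S.twist η
      rw [hev, hev', sub_div]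
      refine MemLocalIdeal.sub ?_ (mc_diag_memLocalIdeal S.hM hx' S.hind hχ hpos)
      have : ((2 : ℕ) : ℂ) ^ d / ((2 : ℕ) : ℂ) ^ h = ((2 : ℕ) : ℂ) ^ (d - h - 1) * ((2 : ℕ) : ℂ) := by
        rw [← pow_succ, div_eq_iff (pow_ne_zero _ h20), ← pow_add]
        congr 1
        omega
      rw [this]
      exact MemLocalIdeal.mul_left (MemLocalRing.pow (memLocalRing_natCast 2) _)
        (memLocalIdeal_p S.hM))
    (fun η => by
      rw [hev]
      have : ((2 : ℕ) : ℂ) ^ ((Nat.card H).factorization 2 + h) *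
          ((((2 : ℕ) : ℂ) ^ d - aeval (η : ℂ) (PP 2 b (2 ^ (k + 1)) idx χ χ)) /
            ((2 : ℕ) : ℂ) ^ h) =
          ((2 : ℕ) : ℂ) ^ (Nat.card H).factorization 2 * ((2 : ℕ) : ℂ) ^ d -
          ((2 : ℕ) : ℂ) ^ (Nat.card H).factorization 2 *
            aeval (η : ℂ) (PP 2 b (2 ^ (k + 1)) idx χ χ) := by
        rw [pow_add]
        field_simp
      rw [this]
      exact IsIntegral.sub (IsIntegral.mul (IsIntegral.pow isIntegral_algebraMap _)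
        (IsIntegral.pow isIntegral_algebraMap _)) (S.integral η χ χ))
    (c := ((2 : ℚ) ^ d - av k idx b χ) / (2 : ℚ) ^ h) (by
      simp only [hev]
      rw [← Finset.sum_div, Finset.sum_sub_distrib, sum_aeval_PP S.h1, Finset.sum_const,
        Finset.card_univ, nsmul_eq_mul]
      push_cast
      ring)
  rwa [lt_div_iff₀ (by positivity), one_mul] at key

end MajorSetup

end Cfsg.Agent.Lib.Helper23.Contrib
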