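import Mathlib
import Cfsg.Agent.Lib.Helper23.Contrib7

/-!
# Major subsections of `2`-blocks: the averaged diagonal contribution is divisible by `2 ^ height`
-/

set_option autoImplicit false
set_option linter.unusedSectionVars false

namespace Cfsg.Agent.Lib.Helper23.Contrib

open Cfsg Cfsg.Agent.Lib.Helper2 Cfsg.Agent.Lib.Helper6
open Cfsg.Agent.Lib.Helper23.BrauerFeit Cfsg.Agent.Lib.Helper23.RegInner
open Cfsg.Agent.Lib.Helper23.CycNorm Polynomial
open scoped ComplexConjugate Classical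

attribute [local instance] irrFintype

variable {G : Type*} [Group G] [Fintype G] {H : Subgroup G} [Fintype H]
  {M : Ideal AlgInt}

theorem classInner_regPart_right {p : ℕ} (f f' : H → ℂ) :
    classInner f (regPart p f') = classInner (regPart p f) f' := by
  rw [classInner, classInner]
  congr 1
  refine Finset.sum_congr rfl fun s _ => ?_
  simp only [regPart_apply]
  split_ifs <;> simp

theorem sum_cf_mul_gg {p : ℕ} (hM : IsPModular p M) {x : H} (hx : IsCenOf p x)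
    {b : Set (IrrCharacter H)} (hb : IsPBlock M b) {χ : G → ℂ} (hχ : IsClassFunction G χ)
    {ξ' : IrrCharacter H} (hξ' : ξ' ∈ b) :
    ∑ ξ : IrrCharacter H, cf b x χ ξ * gg p ξ ξ' =
      classInner (tw x χ) (regPart p (ξ' : H → ℂ)) := by
  conv_rhs => rw [classFunction_eq_sum (isClassFunction_tw hx hχ)]
  rw [classInner_sum_left]
  refine Finset.sum_congr rfl fun ξ _ => ?_
  rw [classInner_smul_left, classInner_regPart_right, cf, gg]
  by_cases hξ : ξ ∈ b
  · rw [Set.indicator_of_mem hξ, Pi.one_apply, one_mul]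
  · rw [classInner_regPart_symm, classInner_regPart_eq_zero hM hb hξ' hξ, mul_zero, mul_zero]

section two

variable (k : ℕ) (idx : IrrCharacter H → ℕ)

/-- integer sign -/
def sgZ (ξ : IrrCharacter H) : ℤ := if idx ξ < 2 ^ k then 1 else -1

/-- integer coefficients -/
noncomputable def qc (b : Set (IrrCharacter H)) (χ : IrrCharacter G) (ξ ξ' : IrrCharacter H) : ℤ :=
  (if ξ ∈ b then 1 else 0) * (mu χ ξ : ℤ) * sgZ k idx ξ * 2 ^ blockDefect 2 b * nn 2 ξ ξ'

/-- the integer polynomial of a column -/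
noncomputable def QQ (b : Set (IrrCharacter H)) (χ : IrrCharacter G) (ξ' : IrrCharacter H) : ℤ[X] :=
  ∑ ξ : IrrCharacter H, C (qc k idx b χ ξ ξ') * X ^ rd k idx ξ

variable {k idx}

theorem sg_eq_sgZ (ξ : IrrCharacter H) : sg k idx ξ = (sgZ k idx ξ : ℚ) := by
  unfold sg sgZ
  split_ifs <;> simp

theorem natDegree_QQ (hidx : ∀ ξ, idx ξ < 2 ^ (k + 1)) (b : Set (IrrCharacter H))
    (χ : IrrCharacter G) (ξ' : IrrCharacter H) : (QQ k idx b χ ξ').natDegree < 2 ^ k := by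
  have h1 : (QQ k idx b χ ξ').natDegree ≤ 2 ^ k - 1 := by
    apply natDegree_sum_le_of_forall_le
    intro ξ _
    refine (natDegree_C_mul_X_pow_le _ _).trans ?_
    have := rd_lt hidx ξ
    omega
  have : 0 < 2 ^ k := by positivity
  omega

theorem coeff_QQ (b : Set (IrrCharacter H)) (χ : IrrCharacter G) (ξ' : IrrCharacter H) (r : ℕ) :
    (QQ k idx b χ ξ').coeff r =
      ∑ ξ : IrrCharacter H, if rd k idx ξ = r then qc k idx b χ ξ ξ' else 0 := by
  rw [QQ, finsetSum_coeff]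
  refine Finset.sum_congr rfl fun ξ _ => ?_
  rw [coeff_C_mul_X_pow]
  by_cases h : rd k idx ξ = r
  · rw [if_pos h, if_pos h.symm]
  · rw [if_neg h, if_neg (fun h' => h h'.symm)]

theorem aeval_QQ {x : H} (hx : IsCenOf 2 x) {ζ : ℂ} (hζ : ζ ^ (2 ^ k) = -1)
    (h2 : ∀ ξ : IrrCharacter H, ζ ^ idx ξ = centralChar (ξ : H → ℂ) x)
    (b : Set (IrrCharacter H)) (χ : IrrCharacter G) (ξ' : IrrCharacter H) :
    aeval ζ (QQ k idx b χ ξ') = (2 : ℂ) ^ (Nat.card H).factorization 2 *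
      ((2 : ℂ) ^ blockDefect 2 b * ∑ ξ : IrrCharacter H, cf b x (χ : G → ℂ) ξ * gg 2 ξ ξ') := by
  rw [QQ, map_sum, Finset.mul_sum, Finset.mul_sum]
  refine Finset.sum_congr rfl fun ξ _ => ?_
  rw [map_mul, aeval_C, map_pow, aeval_X, eq_intCast, cf_eq hx, ← h2, pow_idx (idx := idx) hζ ξ, gg_eq,
    indicator_eq_ite, qc, sg_eq_sgZ]
  have h20 : (2 : ℂ) ≠ 0 := by norm_num
  by_cases h1 : ξ ∈ b <;> simp only [h1, if_true, if_false] <;> push_cast <;> field_simp

end two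

namespace MajorSetup

variable {x : H} {b : Set (IrrCharacter H)} {B : Set (IrrCharacter G)} {k : ℕ} {ζ : ℂ}
  {idx : IrrCharacter H → ℕ}

theorem dvd_coeff (S : MajorSetup M x b B k ζ idx) {χ : IrrCharacter G} (hχ : χ ∈ B)
    {ξ' : IrrCharacter H} (hξ' : ξ' ∈ b) (r : ℕ) :
    (2 : ℤ) ^ ((Nat.card H).factorization 2 + blockHeight 2 B (χ : G → ℂ)) ∣
      (QQ k idx b χ ξ').coeff r := by
  have hζ : ζ ^ (2 ^ k) = -1 := (isPrimitiveRoot_two_pow_iff k ζ).mp S.hζ
  apply pow_dvd_coeff S.hM hζ _ _ (natDegree_QQ S.h1 b χ ξ')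
  rw [aeval_QQ S.hx hζ S.h2, sum_cf_mul_gg S.hM S.hx S.hind.1 (irr_isClassFunction χ.2) hξ', S.hd]
  have h1 := classInner_tw_memLocalRing S.hM S.hx hχ
    (f := regPart 2 (ξ' : H → ℂ)) (isClassFunction_regPart (irr_isClassFunction ξ'.2))
    (fun c hc => regPart_of_dvd _ hc) (fun c => by
      rw [regPart_apply]
      split_ifs
      · exact isIntegral_zero
      · exact irr_isIntegral ξ'.2 c)
  have h20 : (2 : ℂ) ≠ 0 := by norm_num
  have h2 : (2 : ℂ) ^ (Nat.card H).factorization 2 * ((2 : ℂ) ^ blockDefect 2 B *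
      classInner (tw x (χ : G → ℂ)) (regPart 2 (ξ' : H → ℂ))) /
      2 ^ ((Nat.card H).factorization 2 + blockHeight 2 B (χ : G → ℂ)) =
      ((2 : ℕ) : ℂ) ^ blockDefect 2 B * classInner (tw x (χ : G → ℂ)) (regPart 2 (ξ' : H → ℂ)) /
      ((2 : ℕ) : ℂ) ^ blockHeight 2 B (χ : G → ℂ) := by
    rw [pow_add]
    push_cast
    field_simp
  rw [h2]
  exact h1

theorem av_eq_sum_coeff (b : Set (IrrCharacter H)) (χ : IrrCharacter G) :
    av k idx b χ = ∑ ξ' : IrrCharacter H, (if ξ' ∈ b then 1 else 0) * (mu χ ξ' : ℚ) *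
      (sgZ k idx ξ' : ℚ) * (((QQ k idx b χ ξ').coeff (rd k idx ξ') : ℤ) : ℚ) /
        (2 : ℚ) ^ (Nat.card H).factorization 2 := by
  rw [av, Finset.sum_comm]
  refine Finset.sum_congr rfl fun ξ' _ => ?_
  rw [coeff_QQ]
  push_cast
  rw [Finset.mul_sum, Finset.sum_div]
  refine Finset.sum_congr rfl fun ξ _ => ?_
  by_cases h : rd k idx ξ = rd k idx ξ'
  · rw [if_pos h, if_pos h, rc, qc, sg_eq_sgZ, sg_eq_sgZ]
    push_cast
    ring
  · rw [if_neg h, if_neg h]
    simp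

theorem dvd_av (S : MajorSetup M x b B k ζ idx) {χ : IrrCharacter G} (hχ : χ ∈ B) :
    ∃ y : ℤ, av k idx b χ = (2 : ℚ) ^ blockHeight 2 B (χ : G → ℂ) * (y : ℚ) := by
  set h := blockHeight 2 B (χ : G → ℂ) with hh
  refine ⟨∑ ξ' : IrrCharacter H, (if ξ' ∈ b then 1 else 0) * (mu χ ξ' : ℤ) * sgZ k idx ξ' *
    ((QQ k idx b χ ξ').coeff (rd k idx ξ') / 2 ^ ((Nat.card H).factorization 2 + h)), ?_⟩
  rw [av_eq_sum_coeff]
  push_cast
  rw [Finset.mul_sum]
  refine Finset.sum_congr rfl fun ξ' _ => ?_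
  by_cases hξ' : ξ' ∈ b
  · obtain ⟨c, hc⟩ := S.dvd_coeff hχ hξ' (rd k idx ξ')
    rw [← hh] at hc
    rw [hc, Int.mul_ediv_cancel_left _ (by positivity)]
    push_cast
    rw [pow_add]
    field_simp
  · simp [hξ']

end MajorSetup

end Cfsg.Agent.Lib.Helper23.Contrib
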