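import Mathlib
import Cfsg.Agent.Lib.Helper23.Contrib8

/-!
# Major subsections of `2`-blocks: summary of the data and the final arithmetic
-/

set_option autoImplicit false
set_option linter.unusedSectionVars false

namespace Cfsg.Agent.Lib.Helper23.Contrib

open Cfsg Cfsg.Agent.Lib.Helper2 Cfsg.Agent.Lib.Helper6
open scoped Classical

attribute [local instance] irrFintype

variable {G : Type*} [Group G] [Fintype G] {H : Subgroup G} [Fintype H]
  {M : Ideal AlgInt}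

theorem major_data (hM : IsPModular 2 M) {x : H} (hx : IsCenOf 2 x)
    {b : Set (IrrCharacter H)} {B : Set (IrrCharacter G)} (hind : IsInducedBlock M H b B)
    (hd : blockDefect 2 b = blockDefect 2 B) :
    ∃ a : IrrCharacter G → ℤ,
      (∑ χ ∈ Finset.univ.filter (· ∈ B), a χ = 2 ^ blockDefect 2 B * (blockRank 2 b : ℤ)) ∧
      (∀ ψ ∈ B, blockHeight 2 B (ψ : G → ℂ) = 0 → Odd (a ψ) ∧ a ψ ≤ 2 ^ blockDefect 2 B ∧
        ∑ χ ∈ Finset.univ.filter (· ∈ B), ((2 : ℤ) ^ blockHeight 2 B (χ : G → ℂ)) ^ 2 ≤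
          2 ^ blockDefect 2 B * a ψ ∧
        (0 < blockDefect 2 B →
          ∑ χ ∈ Finset.univ.filter (· ∈ B), ((2 : ℤ) ^ blockHeight 2 B (χ : G → ℂ)) ^ 2 ≤
          2 ^ blockDefect 2 B * (2 ^ blockDefect 2 B - a ψ))) ∧
      (∀ χ ∈ B, 0 < blockHeight 2 B (χ : G → ℂ) →
        (2 : ℤ) ^ blockHeight 2 B (χ : G → ℂ) ∣ a χ ∧
        (2 : ℤ) ^ blockHeight 2 B (χ : G → ℂ) < a χ ∧
        (blockHeight 2 B (χ : G → ℂ) < blockDefect 2 B →
          (2 : ℤ) ^ blockHeight 2 B (χ : G → ℂ) < 2 ^ blockDefect 2 B - a χ)) := by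
  obtain ⟨k, ζ, idx, S⟩ := exists_majorSetup hM hx hind hd
  have hfl : ∀ χ ∈ B, ((⌊av k idx b χ⌋ : ℤ) : ℚ) = av k idx b χ := by
    intro χ hχ
    obtain ⟨y, hy⟩ := S.dvd_av hχ
    have : av k idx b χ = (((2 : ℤ) ^ blockHeight 2 B (χ : G → ℂ) * y : ℤ) : ℚ) := by
      rw [hy]; push_cast; rfl
    rw [this, Int.floor_intCast]
  refine ⟨fun χ => ⌊av k idx b χ⌋, ?_, ?_, ?_⟩
  · have h1 : ((∑ χ ∈ Finset.univ.filter (· ∈ B), ⌊av k idx b χ⌋ : ℤ) : ℚ) =
        ((2 ^ blockDefect 2 B * (blockRank 2 b : ℤ) : ℤ) : ℚ) := by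
      push_cast
      rw [← S.sum_av, Finset.sum_filter]
      refine Finset.sum_congr rfl fun χ _ => ?_
      by_cases hχ : χ ∈ B
      · rw [if_pos hχ, hfl χ hχ]
      · rw [if_neg hχ, S.av_eq_zero hχ]
    exact_mod_cast h1
  · intro ψ hψ h0
    have hmem : ∀ χ ∈ Finset.univ.filter (· ∈ B), χ ∈ B := fun χ hχ => (Finset.mem_filter.mp hχ).2
    refine ⟨?_, ?_, ?_, ?_⟩
    · obtain ⟨y, hy, hy'⟩ := exists_odd_av (k := k) (idx := idx) hM hind hψ h0
      simp only [hy', Int.floor_intCast]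
      exact hy
    · have h1 := S.sum_le' ψ ∅ (by simp)
      rw [Finset.sum_empty, ← hfl ψ hψ] at h1
      have h2 : (0 : ℚ) < (2 : ℚ) ^ blockDefect 2 B := by positivity
      have h3 := nonneg_of_mul_nonneg_right h1 h2
      have h4 : ((⌊av k idx b ψ⌋ : ℤ) : ℚ) ≤ (((2 : ℤ) ^ blockDefect 2 B : ℤ) : ℚ) := by
        push_cast; linarith
      exact_mod_cast h4
    · have h1 := S.sum_le ψ (Finset.univ.filter (· ∈ B)) (fun χ hχ => ⟨hmem χ hχ, hψ, h0⟩)
      rw [← hfl ψ hψ] at h1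
      exact_mod_cast h1
    · intro hdpos
      have h1 := S.sum_le' ψ (Finset.univ.filter (· ∈ B))
        (fun χ hχ => ⟨hmem χ hχ, hψ, h0, hdpos⟩)
      rw [← hfl ψ hψ] at h1
      exact_mod_cast h1
  · intro χ hχ hpos
    refine ⟨?_, ?_, ?_⟩
    · obtain ⟨y, hy⟩ := S.dvd_av hχ
      have : av k idx b χ = (((2 : ℤ) ^ blockHeight 2 B (χ : G → ℂ) * y : ℤ) : ℚ) := by
        rw [hy]; push_cast; rfl
      simp only [this, Int.floor_intCast]
      exact Dvd.intro _ rfl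
    · have h1 := S.lt_av hχ hpos
      rw [← hfl χ hχ] at h1
      exact_mod_cast h1
    · intro hlt
      have h1 := S.lt_av' hχ hpos hlt
      rw [← hfl χ hχ] at h1
      exact_mod_cast h1

theorem arith_rank_le_three {ι : Type*} (s : Finset ι) (h : ι → ℕ) (a : ι → ℤ) (d l : ℕ)
    (hl : l ≤ 3) (hsum : ∑ i ∈ s, a i = 2 ^ d * (l : ℤ))
    (h0 : ∀ i ∈ s, h i = 0 → Odd (a i) ∧ ∑ j ∈ s, ((2 : ℤ) ^ h j) ^ 2 ≤ 2 ^ d * a i)
    (h1 : ∀ i ∈ s, 0 < h i → (2 : ℤ) ^ h i ∣ a i ∧ (2 : ℤ) ^ h i < a i) :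
    ∑ i ∈ s, (if h i = 0 then (3 : ℤ) else 2 * 2 ^ h i) ≤ 3 * 2 ^ d := by
  have hd0 : (0 : ℤ) < 2 ^ d := by positivity
  by_cases hA : ∃ i ∈ s, h i = 0 ∧ a i = 1
  · obtain ⟨i, his, hi0, hi1⟩ := hA
    have h2 := (h0 i his hi0).2
    rw [hi1, mul_one] at h2
    calc ∑ j ∈ s, (if h j = 0 then (3 : ℤ) else 2 * 2 ^ h j)
        ≤ ∑ j ∈ s, 3 * ((2 : ℤ) ^ h j) ^ 2 := by
          refine Finset.sum_le_sum fun j _ => ?_
          split_ifs with hj
          · rw [hj]; norm_num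
          · have : (1 : ℤ) ≤ 2 ^ h j := one_le_pow₀ (by norm_num)
            nlinarith
      _ = 3 * ∑ j ∈ s, ((2 : ℤ) ^ h j) ^ 2 := by rw [Finset.mul_sum]
      _ ≤ 3 * 2 ^ d := by linarith
  · push Not at hA
    calc ∑ j ∈ s, (if h j = 0 then (3 : ℤ) else 2 * 2 ^ h j)
        ≤ ∑ j ∈ s, a j := by
          refine Finset.sum_le_sum fun j hj => ?_
          split_ifs with hj0
          · obtain ⟨hodd, hle⟩ := h0 j hj hj0
            have hpos : 0 < ∑ i ∈ s, ((2 : ℤ) ^ h i) ^ 2 :=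
              Finset.sum_pos (fun i _ => by positivity) ⟨j, hj⟩
            have hapos : 0 < a j := by
              by_contra hcon
              have : a j ≤ 0 := not_lt.mp hcon
              nlinarith
            have hne := hA j hj hj0
            obtain ⟨c, hc⟩ := hodd
            omega
          · obtain ⟨⟨c, hc⟩, hlt⟩ := h1 j hj (Nat.pos_of_ne_zero hj0)
            have hp : (0 : ℤ) < 2 ^ h j := by positivity
            rw [hc] at hlt ⊢
            have hc1 : 1 < c := by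
              by_contra hcon
              have : c ≤ 1 := not_lt.mp hcon
              nlinarith
            nlinarith
      _ = 2 ^ d * (l : ℤ) := hsum
      _ ≤ 3 * 2 ^ d := by
          have : (l : ℤ) ≤ 3 := by exact_mod_cast hl
          nlinarith

theorem arith_card_sub_rank {ι : Type*} (s : Finset ι) (h : ι → ℕ) (a : ι → ℤ) (d l : ℕ)
    (hd : 0 < d) (hk : s.card ≤ l + 3) (hsum : ∑ i ∈ s, a i = 2 ^ d * (l : ℤ))
    (h0 : ∀ i ∈ s, h i = 0 → Odd (a i) ∧ ∑ j ∈ s, ((2 : ℤ) ^ h j) ^ 2 ≤ 2 ^ d * (2 ^ d - a i))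
    (h1 : ∀ i ∈ s, 0 < h i → (2 : ℤ) ^ h i < 2 ^ d - a i) :
    (s.card : ℤ) ≤ 2 ^ d := by
  have hd0 : (0 : ℤ) < 2 ^ d := by positivity
  have hcard : (s.card : ℤ) ≤ ∑ j ∈ s, ((2 : ℤ) ^ h j) ^ 2 := by
    have : (s.card : ℤ) = ∑ _j ∈ s, (1 : ℤ) := by simp
    rw [this]
    refine Finset.sum_le_sum fun j _ => ?_
    have : (1 : ℤ) ≤ 2 ^ h j := one_le_pow₀ (by norm_num)
    nlinarith
  by_cases hA : ∃ i ∈ s, h i = 0 ∧ 2 ^ d - a i = 1
  · obtain ⟨i, his, hi0, hi1⟩ := hA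
    have h2 := (h0 i his hi0).2
    rw [hi1, mul_one] at h2
    linarith
  · push Not at hA
    have h3 : ∑ _j ∈ s, (3 : ℤ) ≤ ∑ j ∈ s, (2 ^ d - a j) := by
      refine Finset.sum_le_sum fun j hj => ?_
      by_cases hj0 : h j = 0
      · obtain ⟨hodd, hle⟩ := h0 j hj hj0
        have hpos : 0 < ∑ i ∈ s, ((2 : ℤ) ^ h i) ^ 2 :=
          Finset.sum_pos (fun i _ => by positivity) ⟨j, hj⟩
        have hapos : 0 < 2 ^ d - a j := by
          by_contra hcon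
          have : 2 ^ d - a j ≤ 0 := not_lt.mp hcon
          nlinarith
        have hne := hA j hj hj0
        obtain ⟨c, hc⟩ := hodd
        obtain ⟨e, he⟩ : ∃ e : ℤ, (2 : ℤ) ^ d = 2 * e := by
          obtain ⟨d', rfl⟩ : ∃ d', d = d' + 1 := ⟨d - 1, by omega⟩
          exact ⟨2 ^ d', by rw [pow_succ]; ring⟩
        omega
      · have hlt := h1 j hj (Nat.pos_of_ne_zero hj0)
        have : (2 : ℤ) ≤ 2 ^ h j := by
          calc (2 : ℤ) = 2 ^ 1 := by norm_num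
            _ ≤ 2 ^ h j := pow_le_pow_right₀ (by norm_num) (Nat.pos_of_ne_zero hj0)
        omega
    rw [Finset.sum_const, nsmul_eq_mul, Finset.sum_sub_distrib, Finset.sum_const, nsmul_eq_mul,
      hsum] at h3
    have hk' : (s.card : ℤ) ≤ (l : ℤ) + 3 := by exact_mod_cast hk
    nlinarith

end Cfsg.Agent.Lib.Helper23.Contrib
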