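import Mathlib
import Cfsg.Prelude.Def_Blocks
import Cfsg.Agent.Lib.Helper6.DefectOrder
import Cfsg.Agent.Lib.Helper24.CharInt
import Cfsg.Agent.Lib.Helper2.Linear

/-!
# Linear constituents of the restriction of a height zero character to a defect group
-/

set_option autoImplicit false

namespace Cfsg.Agent.Lib.Helper23.LinConst

open Cfsg Cfsg.Agent.Lib.Helper2 Cfsg.Agent.Lib.Helper6 Cfsg.Agent.Lib.Helper24
open scoped ComplexConjugate Classical

attribute [local instance] irrFintype

variable {C : Type*} [Group C] [Fintype C]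

/-- For a character `θ`, a central element `g`, a subgroup `D` and a character `η` of `D`, the
inner product of `v ↦ θ (g v)` with `η` is an algebraic integer. -/
theorem isIntegral_inner_central {θ : C → ℂ} (hθ : IsCharacter C θ) {g : C}
    (hg : g ∈ Subgroup.center C) (D : Subgroup C) [Fintype D] {η : D → ℂ}
    (hη : IsCharacter D η) :
    IsIntegral ℤ (classInner (fun v : D => θ (g * v)) η) := by
  obtain ⟨n, hn⟩ := IsCharacter.exists_eq_sum hθ
  have h1 : (fun v : D => θ (g * v)) = ∑ ξ : IrrCharacter C,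
      ((n ξ : ℂ) * centralChar (ξ : C → ℂ) g) • (fun v : D => (ξ : C → ℂ) v) := by
    funext v
    conv_lhs => rw [hn]
    simp only [Finset.sum_apply, Pi.smul_apply, smul_eq_mul]
    refine Finset.sum_congr rfl fun ξ _ => ?_
    rw [irr_central_mul ξ.2 hg]
    ring
  rw [h1, classInner_sum_left]
  refine IsIntegral.sum _ fun ξ _ => ?_
  rw [classInner_smul_left]
  obtain ⟨k, hk⟩ := IsCharacter.classInner_nat (χ := fun h : D => (ξ : C → ℂ) h)
      (ψ := η) (IsCharacter.restrict D (IsIrrCharacter.isCharacter ξ.2)) hη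
  rw [hk]
  exact ((isIntegral_natCast (n ξ)).mul (centralChar_isIntegral ξ.2 g)).mul (isIntegral_natCast k)

theorem exists_linear_of_unit {M : Ideal AlgInt} {p : ℕ} [Fact p.Prime] (hM : IsPModular p M)
    {θ : C → ℂ} (hθ : IsCharacter C θ) {g : C}
    (hg : g ∈ Subgroup.center C) (D : Subgroup C) [Fintype D] (hD : IsPGroup p D)
    (hu : ¬ MemLocalIdeal M (θ g)) :
    ∃ μ : D →* ℂˣ, ∑ v : D, θ (g * v) * conj ((μ v : ℂˣ) : ℂ) ≠ 0 := by
  have := IsPModular.isPrime hM
  by_contra hcon
  push Not at hcon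
  apply hu
  have hcf : IsClassFunction D (fun v : D => θ (g * v)) := by
    intro b a
    have h1 : g * ((a * b * a⁻¹ : D) : C) = (a : C) * (g * b) * (a : C)⁻¹ := by
      have := Subgroup.mem_center_iff.mp hg (a : C)
      push_cast
      calc g * ((a : C) * b * (a : C)⁻¹) = (g * a) * b * (a : C)⁻¹ := by group
        _ = (a * g) * b * (a : C)⁻¹ := by rw [this]
        _ = _ := by group
    show θ (g * ((a * b * a⁻¹ : D) : C)) = θ (g * b)
    rw [h1]
    exact (IsCharacter.isClassFunction hθ) _ _
  have h2 := congrFun (classFunction_eq_sum hcf) 1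
  simp only [Finset.sum_apply, Pi.smul_apply, smul_eq_mul, Subgroup.coe_one, mul_one] at h2
  rw [h2]
  refine MemLocalIdeal.sum _ fun η _ => ?_
  by_cases h1 : charDegree (η : D → ℂ) = 1
  · have h3 : (η : D → ℂ) 1 = 1 := by
      rw [← charDegree_cast (IsIrrCharacter.isCharacter η.2), h1]; simp
    obtain ⟨μ, hμ⟩ := exists_hom_of_degree_one (IsIrrCharacter.isCharacter η.2) h3
    have h4 : classInner (fun v : D => θ (g * v)) (η : D → ℂ) = 0 := by
      rw [classInner, hμ, hcon μ, mul_zero]
    rw [h4, zero_mul]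
    exact memLocalIdeal_zero
  · have h3 : p ∣ charDegree (η : D → ℂ) := by
      obtain ⟨k, hk⟩ := IsPGroup.iff_card.mp hD
      have h4 := Cfsg.Agent.Lib.Helper24.degree_dvd_card η.2
      rw [hk] at h4
      obtain ⟨j, _, hj⟩ := (Nat.dvd_prime_pow (Fact.out : p.Prime)).mp h4
      rw [hj]
      rcases Nat.eq_zero_or_pos j with rfl | hj0
      · exact absurd (by rw [hj, pow_zero]) h1
      · exact dvd_pow_self p hj0.ne'
    rw [← charDegree_cast (IsIrrCharacter.isCharacter η.2)]
    exact MemLocalIdeal.mul_left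
      (memLocalRing_of_isIntegral (isIntegral_inner_central hθ hg D (IsIrrCharacter.isCharacter η.2)))
      ((memLocalIdeal_natCast_iff hM _).mpr h3)

end Cfsg.Agent.Lib.Helper23.LinConst
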